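import Mathlib.GroupTheory.SpecificGroups.Alternating.KleinFour
import Mathlib.GroupTheory.GroupAction.Quotient
import Mathlib.GroupTheory.Perm.Fin
import Mathlib.Tactic.IntervalCases

/-!
Largest abelian subgroups of symmetric and alternating groups.
-/

set_option autoImplicit false
set_option linter.style.haveILetI false

namespace H10.AbS
open Equiv MulAction

/-- largest product of a partition -/
def fm : ℕ → ℕ
  | 0 => 1 | 1 => 1 | 2 => 2 | 3 => 3 | 4 => 4
  | n + 5 => 3 * fm (n + 2)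

/-- largest product of a partition without parts equal to two -/
def gm : ℕ → ℕ
  | 0 => 1 | 1 => 1 | 2 => 1 | 3 => 3 | 4 => 4 | 5 => 5 | 6 => 9 | 7 => 12 | 8 => 16
  | n + 9 => 3 * gm (n + 6)

theorem mul_fm_le (m a : ℕ) : a * fm m ≤ fm (m + a) := by
  induction h : m + a using Nat.strong_induction_on generalizing m a with
  | _ n ih =>
  subst h
  by_cases hm : 5 ≤ m
  · obtain ⟨m, rfl⟩ := Nat.exists_eq_add_of_le' hm
    have := ih _ (by omega) (m + 2) a rfl
    rw [show m + 5 + a = m + a + 5 by ring, fm, fm, show m + a + 2 = m + 2 + a by ring]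
    nlinarith
  by_cases ha : 5 ≤ a
  · obtain ⟨a, rfl⟩ := Nat.exists_eq_add_of_le' ha
    have := ih _ (by omega) m (a + 2) rfl
    rw [← add_assoc, fm, add_assoc]
    nlinarith
  push Not at hm ha
  interval_cases m <;> interval_cases a <;> decide

theorem gm_pos (n : ℕ) : 0 < gm n := by
  fun_induction gm n <;> omega

theorem mul_gm_le (m a : ℕ) (h2 : a ≠ 2) : a * gm m ≤ gm (m + a) ∧ (a * gm m = gm (m + a) →
    m + a ≠ 1 → m + a ≠ 2 → m + a ≠ 5 →
    m ≠ 1 ∧ m ≠ 2 ∧ m ≠ 5 ∧ (a = 3 ∨ a = 4 ∧ m % 3 ≠ 2)) := by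
  induction h : m + a using Nat.strong_induction_on generalizing m a with
  | _ n ih =>
  subst h
  by_cases hm : 9 ≤ m
  · obtain ⟨m, rfl⟩ := Nat.exists_eq_add_of_le' hm
    obtain ⟨h1, h3⟩ := ih _ (by omega) (m + 6) a h2 rfl
    rw [show m + 9 + a = m + a + 9 by ring, gm, gm, show m + a + 6 = m + 6 + a by ring]
    refine ⟨by nlinarith, fun h _ _ _ => ?_⟩
    have := h3 (by nlinarith) (by omega) (by omega) (by omega)
    omega
  by_cases ha : 9 ≤ a
  · obtain ⟨a, rfl⟩ := Nat.exists_eq_add_of_le' ha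
    have := (ih _ (by omega) m (a + 6) (by omega) rfl).1
    have := gm_pos m
    rw [← add_assoc, gm, add_assoc]
    exact ⟨by nlinarith, fun h => by nlinarith⟩
  push Not at hm ha
  interval_cases m <;> interval_cases a <;> simp_all +decide

theorem prod_le_fm (s : Multiset ℕ) : s.prod ≤ fm s.sum := by
  induction s using Multiset.induction_on with
  | empty => exact le_rfl
  | cons a s ih =>
    rw [Multiset.prod_cons, Multiset.sum_cons, add_comm]
    exact (Nat.mul_le_mul_left a ih).trans (mul_fm_le _ _)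

theorem prod_le_gm (s : Multiset ℕ) (h : 2 ∉ s) : s.prod ≤ gm s.sum ∧ (s.prod = gm s.sum →
    s.sum ≠ 1 → s.sum ≠ 2 → s.sum ≠ 5 → (∀ a ∈ s, a = 3 ∨ a = 4) ∧ s.count 4 = s.sum % 3) := by
  induction s using Multiset.induction_on with
  | empty => simp [gm]
  | cons a s ih =>
    rw [Multiset.mem_cons, not_or] at h
    obtain ⟨h1, h2⟩ := ih h.2
    obtain ⟨h3, h4⟩ := mul_gm_le s.sum a (Ne.symm h.1)
    have h5 := Nat.mul_le_mul_left a h1
    rw [Multiset.prod_cons, Multiset.sum_cons, add_comm]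
    refine ⟨h5.trans h3, fun e e1 e2 e5 => ?_⟩
    obtain ⟨a1, a2, a5, h6⟩ := h4 (by omega) e1 e2 e5
    obtain ⟨h7, h8⟩ := h2 (Nat.eq_of_mul_eq_mul_left (show 0 < a by omega) (by omega)) a1 a2 a5
    refine ⟨by simpa using ⟨by omega, h7⟩, ?_⟩
    rw [Multiset.count_cons, h8]
    split_ifs <;> omega

theorem fm_lt (n : ℕ) (h : 3 ≤ n) : fm n < 2 * gm n := by
  induction n using Nat.strong_induction_on with
  | _ n ih =>
  by_cases h9 : 9 ≤ n
  · obtain ⟨n, rfl⟩ := Nat.exists_eq_add_of_le' h9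
    have := ih (n + 6) (by omega) (by omega)
    rw [gm, show n + 9 = n + 4 + 5 by ring, fm, show n + 4 + 2 = n + 6 by ring]
    omega
  · push Not at h9
    interval_cases n <;> decide

theorem fm_eq (k : ℕ) : fm (3 * (k + 1)) = 3 ^ (k + 1) ∧ fm (3 * (k + 1) + 1) = 4 * 3 ^ k ∧
    fm (3 * (k + 1) + 2) = 2 * 3 ^ (k + 1) := by
  induction k with
  | zero => decide
  | succ k ih =>
    refine ⟨(congrArg (3 * ·) ih.1).trans ?_, (congrArg (3 * ·) ih.2.1).trans ?_,
      (congrArg (3 * ·) ih.2.2).trans ?_⟩ <;> ring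

theorem gm_eq (k : ℕ) : gm (3 * (k + 2)) = 3 ^ (k + 2) ∧ gm (3 * (k + 2) + 1) = 4 * 3 ^ (k + 1) ∧
    gm (3 * (k + 2) + 2) = 16 * 3 ^ k := by
  induction k with
  | zero => decide
  | succ k ih =>
    refine ⟨(congrArg (3 * ·) ih.1).trans ?_, (congrArg (3 * ·) ih.2.1).trans ?_,
      (congrArg (3 * ·) ih.2.2).trans ?_⟩ <;> ring

/-- existence of an abelian subgroup of given order -/
def Ex (b : Prop) (n c : ℕ) : Prop := ∃ A : Subgroup (Perm (Fin n)), IsMulCommutative A ∧
  Nat.card A = c ∧ (b → A ≤ alternatingGroup (Fin n))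

theorem Ex.add {b : Prop} {n c m d : ℕ} (h : Ex b n c) (h' : Ex b m d) : Ex b (n + m) (c * d) := by
  obtain ⟨A, h1, rfl, h2⟩ := h
  obtain ⟨B, h1', rfl, h2'⟩ := h'
  let φ := (finSumFinEquiv (m := n) (n := m)).permCongrHom.toMonoidHom.comp (Perm.sumCongrHom _ _)
  haveI : IsMulCommutative (A.prod B) := ⟨⟨fun a b => Subtype.ext (Prod.ext
    (congrArg Subtype.val (mul_comm' (⟨_, a.2.1⟩ : A) ⟨_, b.2.1⟩))
    (congrArg Subtype.val (mul_comm' (⟨_, a.2.2⟩ : B) ⟨_, b.2.2⟩)))⟩⟩
  refine ⟨(A.prod B).map φ, inferInstance, ?_, fun hb => ?_⟩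
  · rw [Subgroup.card_map_of_injective (f := φ)
      (finSumFinEquiv.permCongrHom.injective.comp Perm.sumCongrHom_injective),
      Nat.card_congr (A.prodEquiv B).toEquiv, Nat.card_prod]
  · rintro _ ⟨x, hx, rfl⟩
    simp [φ, Perm.mem_alternatingGroup.1 (h2 hb hx.1), Perm.mem_alternatingGroup.1 (h2' hb hx.2)]

theorem Ex.rot (b : Prop) (n : ℕ) (h : b → Even n) : Ex b (n + 1) (n + 1) := by
  refine ⟨Subgroup.zpowers (finRotate (n + 1)), inferInstance, ?_, fun hb => ?_⟩
  · rw [Nat.card_zpowers]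
    rcases n with _ | n
    · exact orderOf_eq_one_iff.2 (by decide)
    · rw [isCycle_finRotate.orderOf, support_finRotate]; simp
  · simp [(h hb).neg_one_pow]

theorem Ex.four (b : Prop) : Ex b 4 4 :=
  ⟨(alternatingGroup.kleinFour (Fin 4)).map (Subgroup.subtype _), by
    haveI := alternatingGroup.kleinFour_isKleinFour (α := Fin 4) (by simp)
    haveI : IsMulCommutative (alternatingGroup.kleinFour (Fin 4)) :=
      ⟨⟨mul_comm_of_exponent_two IsKleinFour.exponent_two⟩⟩
    infer_instance, by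
    rw [Subgroup.card_subtype, alternatingGroup.kleinFour_card_of_card_eq_four (by simp)],
    fun _ => Subgroup.map_subtype_le _⟩

theorem ex_fm (n : ℕ) : Ex False n (fm n) := by
  fun_induction fm n with
  | case1 => exact ⟨⊥, inferInstance, by simp, by simp⟩
  | case2 => exact .rot _ 0 (by simp)
  | case3 => exact .rot _ 1 (by simp)
  | case4 => exact .rot _ 2 (by simp)
  | case5 => exact .four _
  | case6 n ih => exact mul_comm 3 _ ▸ ih.add (.rot _ 2 (by simp))

theorem ex_gm (n : ℕ) : Ex True n (gm n) := by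
  have h3 : Ex True 3 3 := .rot _ 2 (by simp)
  fun_induction gm n with
  | case1 => exact ⟨⊥, inferInstance, by simp, by simp⟩
  | case2 => exact ⟨⊥, inferInstance, by simp, by simp⟩
  | case3 => exact ⟨⊥, inferInstance, by simp, by simp⟩
  | case4 => exact h3
  | case5 => exact .four _
  | case6 => exact .rot _ 4 (by decide)
  | case7 => exact h3.add h3
  | case8 => exact h3.add (.four _)
  | case9 => exact (Ex.four _).add (.four _)
  | case10 n ih => exact mul_comm 3 _ ▸ ih.add h3

variable {α : Type*} [Fintype α] [DecidableEq α]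

/-- the orbit map -/
abbrev om (A : Subgroup (Perm α)) : α → orbitRel.Quotient A α := Quotient.mk''

/-- size of a class -/
noncomputable def sz {Q : Type*} (π : α → Q) (q : Q) : ℕ := Nat.card {x // π x = q}

open Classical in
/-- the orbit sizes -/
noncomputable def szs (A : Subgroup (Perm α)) : Multiset ℕ := Finset.univ.val.map (sz (om A))

theorem sum_szs (A : Subgroup (Perm α)) : (szs A).sum = Fintype.card α := by
  classical
  rw [← Nat.card_eq_fintype_card, ← Nat.card_congr (sigmaFiberEquiv (om A)), Nat.card_sigma]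
  rfl

theorem om_smul {A : Subgroup (Perm α)} {g : Perm α} (hg : g ∈ A) (x : α) : om A (g x) = om A x :=
  Quotient.sound ⟨⟨g, hg⟩, rfl⟩

theorem om_eq {A : Subgroup (Perm α)} {x y : α} (h : om A x = om A y) : ∃ g ∈ A, g y = x := by
  obtain ⟨g, hg⟩ := Quotient.exact h
  exact ⟨g, g.2, hg⟩

variable {A B : Subgroup (Perm α)}

theorem eq_of_om [IsMulCommutative A] {g h : Perm α} (hg : g ∈ A) (hh : h ∈ A) {x y : α}
    (e : om A y = om A x) (e' : g x = h x) : g y = h y := by
  obtain ⟨c, hc, rfl⟩ := om_eq e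
  rw [← Perm.mul_apply, ← Perm.mul_apply, setLike_mul_comm hg hc, setLike_mul_comm hh hc,
    Perm.mul_apply, Perm.mul_apply, e']

theorem card_le_prod [IsMulCommutative A] : Nat.card A ≤ (szs A).prod := by
  classical
  refine le_trans (Nat.card_le_card_of_injective
    (fun (g : A) (q : orbitRel.Quotient A α) => (⟨g.1 q.out, (om_smul g.2 _).trans q.out_eq⟩ :
      {x // om A x = q})) fun g h e => Subtype.ext (Equiv.ext fun x => ?_)) ?_
  · exact eq_of_om g.2 h.2 (Quotient.out_eq _).symm (congrArg Subtype.val (congrFun e (om A x)))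
  · rw [Nat.card_pi]; rfl

theorem card_le_fm [IsMulCommutative A] : Nat.card A ≤ fm (Fintype.card α) :=
  card_le_prod.trans (sum_szs A ▸ prod_le_fm _)

theorem comm_sup {G : Type*} [Group G] {A B : Subgroup G} [IsMulCommutative A]
    [IsMulCommutative B] (h : B ≤ Subgroup.centralizer A) : IsMulCommutative (A ⊔ B : Subgroup G) :=
  Subgroup.le_centralizer_iff_isMulCommutative.1 (sup_le
    (Subgroup.le_centralizer_iff.2 (sup_le (Subgroup.le_centralizer A) h))
    (Subgroup.le_centralizer_iff.2 (sup_le (Subgroup.le_centralizer_iff.1 h)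
      (Subgroup.le_centralizer B))))

theorem even_of_cent [IsMulCommutative A] (hA : A ≤ alternatingGroup α)
    (h : fm (Fintype.card α) < 2 * Nat.card A) {z : Perm α} (hz : z ∈ Subgroup.centralizer A) :
    Perm.sign z = 1 := by
  by_contra h1
  haveI := comm_sup (A := A) (Subgroup.zpowers_le.2 hz)
  have h2 := card_le_fm (A := A ⊔ Subgroup.zpowers z)
  obtain ⟨k, hk⟩ := Subgroup.card_dvd_of_le (le_sup_left : A ≤ A ⊔ Subgroup.zpowers z)
  have h3 := Nat.card_pos (α := (A ⊔ Subgroup.zpowers z : Subgroup _))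
  obtain rfl : k = 1 := by
    rcases k with _ | _ | k
    · omega
    · rfl
    · nlinarith
  refine h1 (hA ?_)
  rw [Subgroup.eq_of_le_of_card_ge (le_sup_left : A ≤ A ⊔ Subgroup.zpowers z) (by omega)]
  exact Subgroup.mem_sup_right (Subgroup.mem_zpowers z)

theorem sign_sub [IsMulCommutative A] (hA : A ≤ alternatingGroup α)
    (h : fm (Fintype.card α) < 2 * Nat.card A) {g : Perm α} (hg : g ∈ A) (q : orbitRel.Quotient A α)
    [DecidablePred fun x => om A x = q] :
    Perm.sign (g.subtypePerm (p := fun x => om A x = q) fun x => by rw [om_smul hg]) = 1 := by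
  rw [← Perm.sign_ofSubtype]
  refine even_of_cent hA h fun c hc => Equiv.ext fun x => ?_
  rw [Perm.mul_apply, Perm.mul_apply]
  by_cases hx : om A x = q
  · rw [Perm.ofSubtype_apply_of_mem (p := fun x => om A x = q) _ hx,
      Perm.ofSubtype_apply_of_mem (p := fun x => om A x = q) _ ((om_smul hc x).trans hx)]
    exact congrFun (congrArg DFunLike.coe (setLike_mul_comm hc hg)) x
  · rw [Perm.ofSubtype_apply_of_not_mem (p := fun x => om A x = q) _ hx,
      Perm.ofSubtype_apply_of_not_mem]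
    rwa [om_smul hc]

theorem two_notMem [IsMulCommutative A] (hA : A ≤ alternatingGroup α)
    (h : fm (Fintype.card α) < 2 * Nat.card A) : 2 ∉ szs A := by
  classical
  intro h2
  obtain ⟨q, -, hq⟩ := Multiset.mem_map.1 h2
  obtain ⟨x, y, hxy, -⟩ := Nat.card_eq_two_iff.1 hq
  obtain ⟨g, hg, e⟩ := om_eq (x.2.trans y.2.symm)
  have h1 := sign_sub hA h hg q
  have h3 : ∀ s : Perm (Fin 2), Perm.sign s = 1 → s = 1 := by decide
  let e' := Finite.equivFinOfCardEq hq
  have h4 := h3 (e'.permCongr _) ((Perm.sign_permCongr _ _).trans h1)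
  have h5 := congrFun (congrArg DFunLike.coe h4) (e' y)
  simp only [permCongr_apply, symm_apply_apply, Perm.coe_one, id_eq, EmbeddingLike.apply_eq_iff_eq]
    at h5
  exact hxy (Subtype.ext (e.symm.trans (congrArg Subtype.val h5)))

theorem card_le_gm [IsMulCommutative A] (hA : A ≤ alternatingGroup α) :
    Nat.card A ≤ gm (Fintype.card α) := by
  by_cases h3 : 3 ≤ Fintype.card α
  · by_contra h
    have := fm_lt _ h3
    exact h (card_le_prod.trans (sum_szs A ▸ (prod_le_gm _ (two_notMem hA (by omega))).1))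
  · rw [alternatingGroup.eq_bot_of_card_le_two (by simpa using (by omega : Fintype.card α ≤ 2)),
      le_bot_iff] at hA
    rw [hA, Subgroup.card_bot]
    exact gm_pos _

/-- acts on each class as an even semiregular permutation -/
def Reg {Q : Type*} [DecidableEq Q] (π : α → Q) (g : Perm α) : Prop :=
  ∃ h : ∀ x, π (g x) = π x, (∀ x y, π y = π x → g x = x → g y = y) ∧
    ∀ q, Perm.sign (g.subtypePerm (p := fun x => π x = q) fun x => by rw [h]) = 1

theorem reg_of_mem [IsMulCommutative A] (hA : A ≤ alternatingGroup α)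
    (h : fm (Fintype.card α) < 2 * Nat.card A) [DecidableEq (orbitRel.Quotient A α)] {g : Perm α}
    (hg : g ∈ A) : Reg (om A) g :=
  ⟨om_smul hg, fun _ _ e e' => eq_of_om hg A.one_mem e e', fun q => sign_sub hA h hg q⟩

theorem Reg.conj {Q Q' : Type*} [DecidableEq Q] [DecidableEq Q'] {π : α → Q} {π' : α → Q'}
    {g : Perm α} (h : Reg π g) (σ : Perm α) (e : Q ≃ Q') (he : ∀ x, π' (σ x) = e (π x)) :
    Reg π' (σ * g * σ⁻¹) := by
  obtain ⟨h1, h2, h3⟩ := h
  have he' : ∀ x, π' x = e (π (σ⁻¹ x)) := fun x => by simp [← he]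
  refine ⟨fun x => by rw [he', he' x]; simp [h1], fun x y h4 h5 => ?_, fun q => ?_⟩
  · rw [he', he' x] at h4
    simpa using congrArg σ (h2 _ _ (e.injective h4) (σ.injective (by simpa using h5)))
  · rw [← h3 (e.symm q), ← Perm.sign_permCongr (σ.subtypeEquiv (p := fun x => π x = e.symm q)
      (q := fun x => π' x = q) fun x => by rw [he, eq_symm_apply])]
    rfl

theorem Reg.comm {Q : Type*} [DecidableEq Q] {π : α → Q} (hπ : ∀ q, sz π q = 3 ∨ sz π q = 4)
    {g h : Perm α} (hg : Reg π g) (hh : Reg π h) : g * h = h * g := by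
  obtain ⟨g1, g2, g3⟩ := hg
  obtain ⟨h1, h2, h3⟩ := hh
  have key : ∀ n, (n = 3 ∨ n = 4) → ∀ s t : Perm (Fin n), Perm.sign s = 1 → Perm.sign t = 1 →
      (∀ x y, s x = x → s y = y) → (∀ x y, t x = x → t y = y) → s * t = t * s := by
    rintro n (rfl | rfl) <;> decide +kernel
  ext x
  obtain ⟨n, hn, ⟨e⟩⟩ : ∃ n, (n = 3 ∨ n = 4) ∧ Nonempty ({y // π y = π x} ≃ Fin n) :=
    ⟨_, hπ (π x), ⟨Finite.equivFinOfCardEq rfl⟩⟩
  have := key _ hn _ _ ((Perm.sign_permCongr e _).trans (g3 _))
    ((Perm.sign_permCongr e _).trans (h3 _))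
    (fun a b hab => e.symm.injective (Subtype.ext (by
      simpa using g2 _ _ ((e.symm b).2.trans (e.symm a).2.symm)
        (by simpa using congrArg (fun y => (e.symm y).1) hab))))
    (fun a b hab => e.symm.injective (Subtype.ext (by
      simpa using h2 _ _ ((e.symm b).2.trans (e.symm a).2.symm)
        (by simpa using congrArg (fun y => (e.symm y).1) hab))))
  simpa using congrArg (fun s : Perm _ => (e.symm (s (e ⟨x, rfl⟩))).1) this

theorem exists_conj (h : szs A = szs B) : ∃ (σ : Perm α)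
    (e : orbitRel.Quotient A α ≃ orbitRel.Quotient B α), ∀ x, om B (σ x) = e (om A x) := by
  classical
  have h1 : ∀ k, Nonempty ({q // sz (om A) q = k} ≃ {q // sz (om B) q = k}) := fun k => by
    have := congrArg (Multiset.count k) h
    simp only [szs, Multiset.count_map, eq_comm (a := k), ← Finset.filter_val,
      Finset.card_val] at this
    exact Fintype.card_eq.1 (by simpa only [Fintype.card_subtype] using this)
  let e := ofFiberEquiv fun k => (h1 k).some
  have h2 : ∀ q, Nonempty ({x // e (om A x) = q} ≃ {x // om B x = q}) := fun q => by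
    refine Finite.card_eq.1 ?_
    obtain ⟨q, rfl⟩ := e.surjective q
    simp only [EmbeddingLike.apply_eq_iff_eq]
    exact (ofFiberEquiv_map (fun k => (h1 k).some) q).symm
  exact ⟨ofFiberEquiv fun q => (h2 q).some, e, ofFiberEquiv_map _⟩

theorem conj_of_max [IsMulCommutative A] [IsMulCommutative B] (hA : A ≤ alternatingGroup α)
    (hB : B ≤ alternatingGroup α) (h3 : 3 ≤ Fintype.card α) (h5 : Fintype.card α ≠ 5)
    (hA' : Nat.card A = gm (Fintype.card α)) (hB' : Nat.card B = gm (Fintype.card α)) :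
    ∃ σ ∈ alternatingGroup α, ∀ g ∈ A, σ * g * σ⁻¹ ∈ Subgroup.centralizer B := by
  classical
  have h0 := fm_lt _ h3
  have key : ∀ (A : Subgroup (Perm α)) [IsMulCommutative A], A ≤ alternatingGroup α →
      Nat.card A = gm (Fintype.card α) →
      (∀ a ∈ szs A, a = 3 ∨ a = 4) ∧ (szs A).count 4 = Fintype.card α % 3 ∧
        (szs A).count 3 * 3 + (szs A).count 4 * 4 = Fintype.card α := fun A _ hA hA' => by
    obtain ⟨h1, h2⟩ := prod_le_gm _ (two_notMem hA (by omega))
    rw [sum_szs] at h1 h2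
    obtain ⟨h4, h6⟩ := h2 (h1.antisymm (hA' ▸ card_le_prod)) (by omega) (by omega) h5
    refine ⟨h4, h6, ?_⟩
    rw [← sum_szs A, Finset.sum_multiset_count_of_subset _ {3, 4} fun a ha => by
      simpa using h4 a (by simpa using ha)]
    simp
  obtain ⟨a1, a2, a3⟩ := key A hA hA'
  obtain ⟨b1, b2, b3⟩ := key B hB hB'
  obtain ⟨σ, e, he⟩ := exists_conj (A := A) (B := B) (Multiset.ext.2 fun k => by
    by_cases h : k = 3 ∨ k = 4
    · rcases h with rfl | rfl <;> omega
    · rw [Multiset.count_eq_zero.2 fun h' => h (a1 k h'),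
        Multiset.count_eq_zero.2 fun h' => h (b1 k h')])
  have hπ : ∀ q, sz (om B) q = 3 ∨ sz (om B) q = 4 := fun q =>
    b1 _ (Multiset.mem_map_of_mem _ (Finset.mem_univ q))
  obtain ⟨τ, hτ, he⟩ : ∃ τ ∈ alternatingGroup α, ∀ x, om B (τ x) = e (om A x) := by
    rcases Int.units_eq_one_or (Perm.sign σ) with h | h
    · exact ⟨σ, h, he⟩
    obtain ⟨x⟩ : Nonempty α := Fintype.card_pos_iff.1 (by omega)
    obtain ⟨y, z, hyz⟩ : Nontrivial {y // om B y = om B x} :=
      Finite.one_lt_card_iff_nontrivial.1 (by have := hπ (om B x); rw [sz] at this; omega)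
    refine ⟨swap y.1 z.1 * σ, by simp [h, Subtype.coe_ne_coe.2 hyz], fun w => ?_⟩
    rw [← he, Perm.mul_apply, apply_swap_eq_self (y.2.trans z.2.symm)]
  exact ⟨τ, hτ, fun g hg c hc => Reg.comm hπ (reg_of_mem hB (by omega) hc)
    ((reg_of_mem hA (by omega) hg).conj τ e he)⟩

theorem isGreatest_perm (n : ℕ) : IsGreatest {c : ℕ | ∃ A : Subgroup (Perm (Fin n)),
    IsMulCommutative A ∧ Nat.card A = c} (fm n) := by
  obtain ⟨A, h1, h2, -⟩ := ex_fm n
  refine ⟨⟨A, h1, h2⟩, ?_⟩
  rintro _ ⟨B, _, rfl⟩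
  simpa using card_le_fm (A := B)

theorem isGreatest_alt (n : ℕ) : IsGreatest {c : ℕ | ∃ A : Subgroup (alternatingGroup (Fin n)),
    IsMulCommutative A ∧ Nat.card A = c} (gm n) := by
  obtain ⟨A, h1, h2, h3⟩ := ex_gm n
  refine ⟨⟨A.subgroupOf _, inferInstance,
    (Nat.card_congr (Subgroup.subgroupOfEquivOfLe (h3 trivial)).toEquiv).trans h2⟩, ?_⟩
  rintro _ ⟨B, _, rfl⟩
  have := card_le_gm (Subgroup.map_subtype_le B)
  rwa [Subgroup.card_subtype, Fintype.card_fin] at this

end H10.AbS
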