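import Cfsg.Agent.S0618
import Cfsg.Agent.S0609
import Cfsg.Agent.H2.Hall
import Cfsg.Agent.H2.CoprimeAbelian
import Cfsg.Agent.H11.SL

/-! Primes dividing the order of automizers of `p`-subgroups. -/

set_option autoImplicit false

namespace H10.AutQ
open Cfsg Subgroup H28 H2 H9
open scoped Pointwise

universe u
variable {p q : ℕ} [hp : Fact p.Prime] [hq : Fact q.Prime]

theorem hall2 (n : ℕ) : ∀ (X : Type u) [Group X] [Finite X], Nat.card X = n → IsPSolvable p X →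
    ∃ L : Subgroup X, IsPiHall {p, q} L := by
  induction n using Nat.strong_induction_on with
  | _ n ih =>
  intro X _ _ hn hX
  have quo : ∀ (M : Subgroup X) [M.Normal], M ≠ ⊥ →
      (PiNum {p, q} (Nat.card M) ∨ PiNum' {p, q} (Nat.card M)) →
      ∃ L : Subgroup X, IsPiHall {p, q} L := fun M _ h0 h => by
    obtain ⟨L, hL⟩ := ih _ (hn ▸ H1.card_quotient_lt h0) (X ⧸ M) rfl (H1.isPSolvable_quotient hX M)
    obtain ⟨H, hH, -⟩ := exists_isPiHall_of_quotient M h hL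
    exact ⟨H, hH⟩
  rcases subsingleton_or_nontrivial X with h | h
  · exact ⟨⊤, isPiHall_iff.2 ⟨by simpa [Nat.card_unique] using PiNum.one, by
      simpa using PiNum'.one⟩⟩
  rcases H1.pCore_ne_bot_or_of_isPSolvable hX with h | h
  · exact quo _ h (Or.inl (piNum_of_isPGroup H1.pCore_isPGroup (Or.inl rfl)))
  obtain ⟨Q, hQ⟩ := exists_isSylowIn q (pPrimeCore p X)
  have hi : PiNum' {p, q} (Q.relIndex (pPrimeCore p X)) := by
    intro r hr
    rintro (rfl | rfl) hd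
    · exact (Nat.Prime.coprime_iff_not_dvd hr).1 H1.pPrimeCore_coprime.symm
        (hd.trans (relIndex_dvd_card _ _))
    · exact hQ.not_dvd_relIndex hd
  by_cases h0 : Q = ⊥
  · exact quo _ h (Or.inr (by simpa [h0] using hi))
  by_cases h1 : 𝐍 Q = ⊤
  · haveI := normalizer_eq_top_iff.1 h1
    exact quo Q h0 (Or.inl (piNum_of_isPGroup hQ.isPGroup (Or.inr rfl)))
  obtain ⟨L, hL⟩ := ih _ (hn ▸ H1.card_lt_of_ne_top h1) (𝐍 Q) rfl (H1.isPSolvable_subgroup hX _)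
  have h2 := hQ.frattini_sup le_top (normalizer_eq_top _).ge
  rw [top_inf_eq] at h2
  refine ⟨L.map (𝐍 Q).subtype, isPiHall_iff.2 ⟨by rw [card_subtype]; exact hL.1, ?_⟩⟩
  rw [index_map_subtype]
  refine PiNum'.mul hL.2 (hi.of_dvd ?_)
  rw [← relIndex_top_right, ← h2]
  rw [relIndex_sup_right_of_le_normalizer (le_top.trans (normalizer_eq_top _).ge)]
  exact relIndex_dvd_of_le_left _ le_normalizer

variable (q) in
/-- some `q`-element of `M` normalizes but does not centralize `H` -/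
def QA {G : Type*} [Group G] (M H : Subgroup G) : Prop :=
  ∃ y ∈ M, y ∈ 𝐍 H ∧ y ∉ 𝐂 H ∧ ∃ k, y ^ q ^ k = 1

variable {G : Type*} [Group G] [Finite G]

omit hp in
theorem qa_iff {H : Subgroup G} : QA q ⊤ H ↔ q ∣ (𝐂 H).relIndex (𝐍 H) := by
  constructor
  · rintro ⟨y, -, h1, h2, k, hk⟩
    by_contra h
    refine h2 (mem_subgroupOf.1 (?_ : (⟨y, h1⟩ : 𝐍 H) ∈ (𝐂 H).subgroupOf (𝐍 H)))
    rw [← QuotientGroup.eq_one_iff, ← orderOf_eq_one_iff]
    refine Nat.eq_one_of_dvd_coprimes (Nat.Coprime.pow_left k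
      ((Nat.Prime.coprime_iff_not_dvd hq.out).2 h)) (orderOf_dvd_of_pow_eq_one ?_)
      (orderOf_dvd_natCard _)
    rw [← QuotientGroup.mk_pow, ← QuotientGroup.mk_one]
    exact congrArg _ (Subtype.ext hk)
  · intro h
    obtain ⟨Q, hQ⟩ := exists_isSylowIn q (𝐍 H)
    obtain ⟨y, hy, h1⟩ := SetLike.not_le_iff_exists.1 fun hle => hQ.not_dvd_relIndex_of_le hle h
    exact ⟨y, mem_top _, hQ.le hy, h1, isPGroup_iff_mem.1 hQ.isPGroup y hy⟩

theorem eq_one_of_pow {X : Type*} [Group X] (hpq : p ≠ q) {x : X} {a b : ℕ} (h1 : x ^ p ^ a = 1)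
    (h2 : x ^ q ^ b = 1) : x = 1 :=
  orderOf_eq_one_iff.1 (Nat.eq_one_of_dvd_coprimes (Nat.Coprime.pow a b
    ((Nat.coprime_primes hp.out hq.out).2 hpq)) (orderOf_dvd_of_pow_eq_one h1)
    (orderOf_dvd_of_pow_eq_one h2))

theorem le_of_gen (hG : PiNum {p, q} (Nat.card G)) {S M K : Subgroup G} (hS : IsSylowIn p S ⊤)
    (h1 : S ≤ M) (h2 : S ≤ K) (h : ∀ y ∈ M, (∃ k, y ^ q ^ k = 1) → y ∈ K) : M ≤ K := by
  by_contra hn
  obtain ⟨r, hr, hd⟩ := Nat.exists_prime_and_dvd (mt relIndex_eq_one.1 hn)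
  rcases hG r hr (hd.trans ((relIndex_dvd_card _ _).trans (card_subgroup_dvd_card _))) with rfl | rfl
  · exact (hS.mono h1 le_top).not_dvd_relIndex_of_le h2 hd
  · obtain ⟨Q, hQ⟩ := exists_isSylowIn r M
    exact hQ.not_dvd_relIndex_of_le (fun y hy => h y (hQ.le hy)
      (isPGroup_iff_mem.1 hQ.isPGroup y hy)) hd

theorem factorizable (h23 : ¬ ((p = 2 ∧ q = 3) ∨ (p = 3 ∧ q = 2))) (hG : PiNum {p, q} (Nat.card G))
    (hs : IsPSolvable p G) : IsThompsonFactorizable p G := by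
  rw [Cfsg.Agent.S0609.result]
  by_contra h
  obtain ⟨h0, E, -, -, -, _, ⟨e⟩⟩ := Cfsg.Agent.S0618.result (H1.isPSolvable_quotient hs _)
    H1.pPrimeCore_quotient_pPrimeCore h
  have h1 := (Nat.card_congr e.toEquiv ▸ card_quotient_dvd_card _).trans
    ((card_subgroup_dvd_card E).trans (card_quotient_dvd_card _))
  rw [H11.card_sl_two, ZMod.card] at h1
  have h2 := hG 2 Nat.prime_two (Dvd.dvd.trans (by rcases h0 with rfl | rfl <;> norm_num) h1)
  have h3 := hG 3 Nat.prime_three (Dvd.dvd.trans (by rcases h0 with rfl | rfl <;> norm_num) h1)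
  simp only [Set.mem_insert_iff, Set.mem_singleton_iff] at h2 h3
  omega

theorem loc2 (hpq : p ≠ q) (h23 : ¬ ((p = 2 ∧ q = 3) ∨ (p = 3 ∧ q = 2)))
    (hG : PiNum {p, q} (Nat.card G)) (hs : IsPSolvable p G) {H S : Subgroup G} [H.Normal]
    (hH : IsPGroup p H) (hS : IsSylowIn p S ⊤) (h : QA q ⊤ H) :
    QA q (𝐍 (JJ p S)) H ∨ QA q (𝐍 (omegaOneCenter p S)) H := by
  by_contra hn
  have key : ∀ W, 𝐍 S ≤ 𝐍 W → ¬ QA q (𝐍 W) H → 𝐍 W ≤ 𝐂 H ⊔ S := fun W h1 h2 =>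
    le_of_gen hG hS (le_normalizer.trans h1) le_sup_right fun y hy hk => mem_sup_left (by
      by_contra h3
      exact h2 ⟨y, hy, (normalizer_eq_top H).ge (mem_top _), h3, hk⟩)
  obtain ⟨y, -, -, h1, k, hk⟩ := h
  obtain ⟨T, rfl⟩ := hS.exists_sylow_top
  obtain ⟨x, hx, c, hc, n, hn', e⟩ := isThompsonFactorizable_iff.1 (factorizable h23 hG hs) T y
  have h2 : y ∈ 𝐂 H ⊔ T := e ▸ mul_mem (mul_mem (mem_sup_left (le_centralizer_iff.1
      ((H1.le_pCore inferInstance hH).trans (commutator_eq_bot_iff_le_centralizer.1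
        H1.commutator_pCore_pPrimeCore)) hx))
    (key _ (normalizer_le_normalizer_omegaOneCenter _ _) (fun h => hn (Or.inr h))
      (centralizer_le_normalizer _ hc)))
    (key _ (normalizer_le_normalizer_JJ _ _) (fun h => hn (Or.inl h)) hn')
  obtain ⟨d, hd, s, hs, rfl⟩ := mem_sup_of_normal_left.1 h2
  obtain ⟨j, hj⟩ := isPGroup_iff_mem.1 hS.isPGroup s hs
  refine h1 ((QuotientGroup.eq_one_iff _).1 (eq_one_of_pow hpq (a := j) (b := k) ?_ ?_))
  · rw [QuotientGroup.mk_mul, (QuotientGroup.eq_one_iff _).2 hd, one_mul, ← QuotientGroup.mk_pow, hj,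
      QuotientGroup.mk_one]
  · rw [← QuotientGroup.mk_pow, hk, QuotientGroup.mk_one]

omit hp hq [Finite G] in
theorem QA.map {L : Subgroup G} {M H : Subgroup L} (h : QA q M H) :
    QA q (M.map L.subtype) (H.map L.subtype) := by
  obtain ⟨y, h1, h2, h3, k, hk⟩ := h
  exact ⟨y, ⟨y, h1, rfl⟩, map_normalizer_le _ _ ⟨y, h2, rfl⟩,
    fun h => h3 fun x hx => Subtype.ext (h _ ⟨x, hx, rfl⟩), k, congrArg Subtype.val hk⟩

omit hp hq [Finite G] in
theorem QA.mono {M M' H : Subgroup G} (h : QA q M H) (hle : M ≤ M') : QA q M' H := by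
  obtain ⟨y, h1, h2⟩ := h
  exact ⟨y, hle h1, h2⟩

omit hp hq [Finite G] in
theorem QA.subgroupOf {M H : Subgroup G} (h : QA q M H) (hle : H ≤ M) :
    QA q ⊤ (H.subgroupOf M) := by
  obtain ⟨y, h1, h2, h3, k, hk⟩ := h
  exact ⟨⟨y, h1⟩, mem_top _, mem_normalizer_iff.2 fun x => mem_normalizer_iff.1 h2 x,
    fun h => h3 fun x hx => congrArg Subtype.val (h ⟨x, hle hx⟩ hx), k, Subtype.ext hk⟩

theorem loc (hpq : p ≠ q) (h23 : ¬ ((p = 2 ∧ q = 3) ∨ (p = 3 ∧ q = 2))) {H S : Subgroup G}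
    (hs : IsPSolvable p (𝐍 H)) (hH : IsPGroup p H) (hS : IsSylowIn p S (𝐍 H)) (h : QA q ⊤ H) :
    QA q (𝐍 (JJ p S)) H ∨ QA q (𝐍 (omegaOneCenter p S)) H := by
  obtain ⟨L₀, hL₀⟩ := hall2 (q := q) _ (𝐍 H) rfl hs
  have h0 := isPiHallOf_map_subtype hL₀
  generalize L₀.map (𝐍 H).subtype = L₁ at h0
  have syl : ∀ {L : Subgroup G}, IsPiHallOf {p, q} L (𝐍 H) → ∀ {r : ℕ} [Fact r.Prime],
      r ∈ ({p, q} : Set ℕ) → ∀ {R}, IsSylowIn r R L → IsSylowIn r R (𝐍 H) :=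
    fun hL r hr h R hR => hR.trans (isPiHallOf_iff.1 hL).1 ((isPiHallOf_iff.1 hL).2.2 r hr.out h)
  obtain ⟨R, hR⟩ := exists_isSylowIn p L₁
  obtain ⟨g, hg, e⟩ := (syl h0 (Or.inl rfl) hR).exists_conj hS
  have hL := isPiHallOf_conj_smul h0 (le_normalizer hg)
  have hSL : S ≤ MulAut.conj g • L₁ := e ▸ map_mono hR.le
  generalize MulAut.conj g • L₁ = L at hL hSL
  have hLN := (isPiHallOf_iff.1 hL).1
  have hHL : H ≤ L := (hS.le_of_le_normalizer' hH le_normalizer hS.le).trans hSL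
  haveI := (normal_subgroupOf_iff_le_normalizer hHL).2 hLN
  have h1 : QA q L H := by
    obtain ⟨Q, hQ⟩ := exists_isSylowIn q L
    obtain ⟨y, hy, h1⟩ := SetLike.not_le_iff_exists.1 fun hle =>
      (syl hL (Or.inr rfl) hQ).not_dvd_relIndex_of_le hle (qa_iff.1 h)
    exact ⟨y, hQ.le hy, hLN (hQ.le hy), h1, isPGroup_iff_mem.1 hQ.isPGroup y hy⟩
  refine (loc2 (H := H.subgroupOf L) hpq h23 (isPiHallOf_iff.1 hL).2.1 (H1.isPSolvable_of_le hLN hs) hH.comap_subtype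
    (hS.mono hSL hLN).subgroupOf_top (h1.subgroupOf hHL)).imp (fun h => ?_) fun h => ?_
  · have := h.map.mono (map_normalizer_le _ _)
    rwa [map_subgroupOf_eq_of_le hHL, map_JJ (subtype_injective _),
      map_subgroupOf_eq_of_le hSL] at this
  · have := h.map.mono (map_normalizer_le _ _)
    rwa [map_subgroupOf_eq_of_le hHL, map_omegaOneCenter (subtype_injective _),
      map_subgroupOf_eq_of_le hSL] at this

theorem sec {X Y Y' : Type*} [Group X] [Group Y] [Group Y'] (f : X →* Y) (g : X →* Y')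
    (hg : Function.Surjective g) (h : f.ker ≤ g.ker) (hY : IsPSolvable p Y) : IsPSolvable p Y' :=
  H1.isPSolvable_of_surjective (H1.isPSolvable_subgroup hY f.range)
    (f := f.rangeRestrict.liftOfSurjective f.rangeRestrict_surjective
      ⟨g, by rwa [MonoidHom.ker_rangeRestrict]⟩) fun y => by
    obtain ⟨x, rfl⟩ := hg y
    exact ⟨f.rangeRestrict x, MonoidHom.liftOfRightInverse_comp_apply _ _ _ _ _⟩

variable (p) in
/-- all automizers of `p`-subgroups are `p`-solvable -/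
def Hyp (G : Type*) [Group G] : Prop :=
  ∀ H : Subgroup G, IsPGroup p H → IsPSolvable p (𝐍 H ⧸ (𝐂 H).subgroupOf (𝐍 H))

/-- the map between normalizers -/
def nm {G G' : Type*} [Group G] [Group G'] (φ : G →* G') (H : Subgroup G) : 𝐍 H →* 𝐍 (H.map φ) :=
  (φ.comp (𝐍 H).subtype).codRestrict _ fun x => map_normalizer_le φ H ⟨x, x.2, rfl⟩

omit [Finite G] in
theorem Hyp.sub (h : Hyp p G) (L : Subgroup G) : Hyp p L := fun H hH =>
  sec ((QuotientGroup.mk' ((𝐂 (H.map L.subtype)).subgroupOf _)).comp (nm L.subtype H))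
    (QuotientGroup.mk' _) (QuotientGroup.mk'_surjective _) (fun x hx =>
      (QuotientGroup.eq_one_iff _).2 fun y hy =>
      Subtype.ext ((QuotientGroup.eq_one_iff (nm L.subtype H x)).1 hx _ ⟨y, hy, rfl⟩))
    (h _ (hH.map _))

omit [Finite G] in
theorem Hyp.quo (h : Hyp p G) {Z : Subgroup G} [Z.Normal] (hZ : IsPGroup p Z) : Hyp p (G ⧸ Z) :=
  fun H hH => by
    obtain ⟨K, hK, h1, rfl⟩ : ∃ K : Subgroup G, IsPGroup p K ∧ Z ≤ K ∧
        K.map (QuotientGroup.mk' Z) = H :=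
      ⟨H.comap (QuotientGroup.mk' Z), hH.comap_of_ker_isPGroup _ (by rwa [QuotientGroup.ker_mk']),
        (QuotientGroup.ker_mk' Z).ge.trans (ker_le_comap _ _),
        map_comap_eq_self_of_surjective (QuotientGroup.mk'_surjective _) _⟩
    refine sec (QuotientGroup.mk' ((𝐂 K).subgroupOf _)) ((QuotientGroup.mk' _).comp (nm (QuotientGroup.mk' Z) K))
      ((QuotientGroup.mk'_surjective _).comp fun ⟨y, hy⟩ => ?_) (fun x hx =>
        (QuotientGroup.eq_one_iff _).2 (map_centralizer_le _ _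
          ⟨x, (QuotientGroup.eq_one_iff x).1 hx, rfl⟩)) (h K hK)
    obtain ⟨x, rfl⟩ := QuotientGroup.mk'_surjective Z y
    refine ⟨⟨x, ?_⟩, rfl⟩
    rw [← comap_map_eq_self ((QuotientGroup.ker_mk' Z).le.trans h1),
      ← comap_normalizer_eq_of_surjective _ (QuotientGroup.mk'_surjective _)]
    exact hy

theorem main (hpq : p ≠ q) (h23 : ¬ ((p = 2 ∧ q = 3) ∨ (p = 3 ∧ q = 2))) (n : ℕ) :
    ∀ (G : Type u) [Group G] [Finite G], Nat.card G = n → Hyp p G →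
      (∃ H : Subgroup G, IsPGroup p H ∧ QA q ⊤ H) →
      ∃ K S : Subgroup G, IsPGroup p K ∧ QA q ⊤ K ∧ IsSylowIn p S ⊤ ∧ S ≤ 𝐍 K := by
  induction n using Nat.strong_induction_on with
  | _ n ih =>
  rintro G _ _ hn hG ⟨H₀, h0, h0'⟩
  by_cases hO : ∃ Z : Subgroup G, Z.Normal ∧ IsPGroup p Z ∧ Z ≠ ⊥
  · obtain ⟨Z, _, hZ, hZ0⟩ := hO
    obtain ⟨S₀, hS₀⟩ := exists_isSylowIn p (⊤ : Subgroup G)
    obtain ⟨y, -, h1, h2, k, hk⟩ := h0'
    by_cases h3 : y ∈ 𝐂 Z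
    swap
    · exact ⟨Z, S₀, hZ, ⟨y, mem_top _, (normalizer_eq_top Z).ge (mem_top _), h3, k, hk⟩, hS₀,
        le_top.trans (normalizer_eq_top Z).ge⟩
    have hs := QuotientGroup.mk'_surjective Z
    have hk' := QuotientGroup.ker_mk' Z
    have h4' : (y : G ⧸ Z) ∉ 𝐂 (H₀.map (QuotientGroup.mk' Z)) := fun h4 => h2 fun x hx => by
      have h5 : x⁻¹ * (y * x * y⁻¹) ∈ Z := QuotientGroup.eq.1 (by
        have := h4 _ ⟨x, hx, rfl⟩
        simp only [QuotientGroup.mk'_apply] at this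
        rw [QuotientGroup.mk_mul, QuotientGroup.mk_mul, ← this, QuotientGroup.mk_inv,
          mul_inv_cancel_right])
      have h6 : ∀ m : ℕ, y ^ m * x * (y ^ m)⁻¹ = x * (x⁻¹ * (y * x * y⁻¹)) ^ m := fun m => by
        induction m with
        | zero => simp
        | succ m ih =>
          have := h3 _ (pow_mem h5 m)
          calc _ = y * (y ^ m * x * (y ^ m)⁻¹) * y⁻¹ := by rw [pow_succ']; group
            _ = y * x * y⁻¹ * (y * (x⁻¹ * (y * x * y⁻¹)) ^ m * y⁻¹) := by rw [ih]; group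
            _ = _ := by
              rw [← this, pow_succ', mul_inv_cancel_right, ← mul_assoc x, mul_inv_cancel_left]
      obtain ⟨i, hi⟩ := isPGroup_iff_mem.1 hZ _ h5
      have h7 := h6 (q ^ k)
      rw [hk, one_mul, inv_one, mul_one, left_eq_mul] at h7
      have := eq_one_of_pow hpq hi h7
      rwa [inv_mul_eq_one, eq_mul_inv_iff_mul_eq] at this
    obtain ⟨K, S, a1, ⟨w, -, a2, a3, j, a4⟩, a5, a6⟩ := ih _ (hn ▸ H1.card_quotient_lt hZ0) (G ⧸ Z)
      rfl (hG.quo hZ) ⟨H₀.map (QuotientGroup.mk' Z), h0.map _, y, mem_top _,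
        map_normalizer_le _ _ ⟨y, h1, rfl⟩, h4', k, by
          rw [← QuotientGroup.mk_pow, hk, QuotientGroup.mk_one]⟩
    obtain ⟨w, rfl⟩ := hs w
    obtain ⟨i, hi⟩ := isPGroup_iff_mem.1 hZ (w ^ q ^ j) (by
      rwa [← map_pow, ← MonoidHom.mem_ker, hk'] at a4)
    have hp' : ∀ {K : Subgroup (G ⧸ Z)}, IsPGroup p K → IsPGroup p (K.comap (QuotientGroup.mk' Z)) :=
      fun h => h.comap_of_ker_isPGroup _ (by rwa [hk'])
    refine ⟨K.comap (QuotientGroup.mk' Z), S.comap (QuotientGroup.mk' Z), hp' a1,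
      ⟨w ^ p ^ i, mem_top _, pow_mem ?_ _, fun h => a3 ?_, j, by rw [pow_right_comm, hi]⟩,
      isSylowIn_iff.2 ⟨le_top, hp' a5.isPGroup, ?_⟩, ?_⟩
    · rw [← comap_normalizer_eq_of_surjective _ hs]; exact a2
    · have h5 := map_centralizer_le (QuotientGroup.mk' Z) _ ⟨_, h, rfl⟩
      rw [map_comap_eq_self_of_surjective hs, map_pow] at h5
      refine zpowers_le.2 h5 (mem_zpowers_pow_iff.2 ?_)
      exact (Nat.Coprime.pow i j ((Nat.coprime_primes hp.out hq.out).2 hpq)).coprime_dvd_right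
        (orderOf_dvd_of_pow_eq_one a4)
    · rw [relIndex_top_right, index_comap_of_surjective _ hs, ← relIndex_top_right]
      exact a5.not_dvd_relIndex
    · rw [← comap_normalizer_eq_of_surjective _ hs]; exact comap_mono a6
  push Not at hO
  obtain ⟨⟨H₁, P⟩, ⟨b1, hP, b2, b3⟩, mP⟩ := Set.exists_max_image
    {x : Subgroup G × Subgroup G | IsPGroup p x.1 ∧ IsPGroup p x.2 ∧ QA q ⊤ x.1 ∧ x.2 ≤ 𝐍 x.1}
    (fun x => Nat.card x.2) (Set.toFinite _) ⟨(H₀, ⊥), h0, IsPGroup.of_bot, h0', bot_le⟩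
  obtain ⟨H, ⟨hH, hQ, hPH⟩, mH⟩ := Set.exists_max_image
    {H : Subgroup G | IsPGroup p H ∧ QA q ⊤ H ∧ P ≤ 𝐍 H} (fun x => Nat.card x) (Set.toFinite _)
    ⟨H₁, b1, b2, b3⟩
  simp only at hP mP
  have hS : IsSylowIn p P (𝐍 H) := ⟨hPH, hP, fun R hR h1 h2 =>
    (eq_of_le_of_card_ge h1 (mP (H, R) ⟨hH, hR, hQ, h2⟩)).symm⟩
  have hHP : H ≤ P := hS.le_of_le_normalizer' hH le_normalizer hPH
  have hC := hS.inf_normal' (centralizer_le_normalizer _) (normalizer_le_normalizer_centralizer _)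
  have hCH : P ⊓ 𝐂 H ≤ H := by
    have h1 := hC.frattini_sup (centralizer_le_normalizer _) (normalizer_le_normalizer_centralizer _)
    have h2 := qa_iff.1 hQ
    rw [← h1, relIndex_sup_left_of_le_normalizer
      (inf_le_left.trans (normalizer_le_normalizer_centralizer _))] at h2
    obtain ⟨Q, hQ'⟩ := exists_isSylowIn q (𝐍 H ⊓ 𝐍 (P ⊓ 𝐂 H))
    obtain ⟨y, hy, h3⟩ := SetLike.not_le_iff_exists.1 fun hle => hQ'.not_dvd_relIndex_of_le hle h2
    exact le_sup_right.trans (eq_of_le_of_card_ge le_sup_left (mH (H ⊔ P ⊓ 𝐂 H)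
      ⟨hP.to_le (sup_le hHP inf_le_left), ⟨y, mem_top _, normalizer_inf_normalizer_le_normalizer_sup
        _ _ (hQ'.le hy), fun h => h3 fun x hx => h x (mem_sup_left hx),
        isPGroup_iff_mem.1 hQ'.isPGroup y hy⟩, (le_inf hPH (H28.le_normalizer_inf le_normalizer
          (hPH.trans (normalizer_le_normalizer_centralizer _)))).trans
          (normalizer_inf_normalizer_le_normalizer_sup _ _)⟩)).ge
  have hN : IsPSolvable p (𝐍 H) := by
    refine H1.isPSolvable_of_normal _ ((H1.isPSolvable_subgroupOf_iff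
      (centralizer_le_normalizer _)).2 ?_) (hG H hH)
    haveI : ((P ⊓ 𝐂 H).subgroupOf (𝐂 H)).Normal := (normal_subgroupOf_iff_le_normalizer
      inf_le_right).2 ((centralizer_le hCH).trans (centralizer_le_normalizer _))
    exact H1.isPSolvable_of_normal ((P ⊓ 𝐂 H).subgroupOf (𝐂 H))
      (H1.isPSolvable_of_isPGroup hC.isPGroup.comap_subtype) (H1.isPSolvable_of_coprime
        ((Nat.Prime.coprime_iff_not_dvd hp.out).2 hC.not_dvd_relIndex).symm)
  obtain ⟨S, hS', hPS⟩ := exists_isSylowIn_ge hP le_top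
  by_cases e : P = S
  · exact ⟨H, S, hH, hQ, hS', e ▸ hPH⟩
  have hlt := lt_inf_normalizer hS'.isPGroup (lt_of_le_of_ne hPS e)
  have P0 : P ≠ ⊥ := fun e => by
    obtain ⟨y, -, -, h, -⟩ := hQ
    exact h fun x hx => by rw [mem_bot.1 (e.le (hHP hx)), one_mul, mul_one]
  have key : ∀ W ≤ P, W ≠ ⊥ → 𝐍 P ≤ 𝐍 W → ¬ QA q (𝐍 W) H := fun W h1 h2 h3 h4 => by
    have h5 : H ≤ 𝐍 W := hHP.trans (le_normalizer.trans h3)
    obtain ⟨K, T, a1, a2, a3, a4⟩ := ih _ (hn ▸ H1.card_lt_of_ne_top fun e =>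
      h2 (hO W (normalizer_eq_top_iff.1 e) (hP.to_le h1))) (𝐍 W) rfl (hG.sub _)
      ⟨_, hH.comap_subtype, h4.subgroupOf h5⟩
    have h6 := mP (K.map (𝐍 W).subtype, T.map (𝐍 W).subtype) ⟨a1.map _, a3.isPGroup.map _,
      a2.map.mono le_top, (map_mono a4).trans (map_normalizer_le _ _)⟩
    have h7 := a3.map (𝐍 W).subtype
    rw [← MonoidHom.range_eq_map, range_subtype] at h7
    exact absurd ((h7.card_le (hS'.isPGroup.to_le inf_le_left) (inf_le_right.trans h3)).trans h6)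
      (not_le.2 (H28.card_lt_of_lt hlt))
  exact ((loc hpq h23 hN hH hS hQ).elim
    (key _ (JJ_le _ _) (JJ_ne_bot_of_isPGroup hP P0) (normalizer_le_normalizer_JJ _ _))
    (key _ (omegaOneCenter_le _ _) (omegaOneCenter_ne_bot hP P0)
      (normalizer_le_normalizer_omegaOneCenter _ _))).elim

end H10.AutQ
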