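import Cfsg.Agent.H10.SylInt
import Cfsg.Agent.H10.QuatLift
import Cfsg.Agent.H10.ZStar2
import Cfsg.Agent.H23.Cyc
import Cfsg.Agent.H4.Klein

/-!
Groups whose Sylow 2-subgroups have cyclic intersections.
-/

set_option autoImplicit false

namespace H10

open Cfsg Subgroup H28

variable {G : Type*} [Group G] [Finite G]

theorem conj_mem_sylow_smul {p : ℕ} {S : Sylow p G} {x : G} (g : G) (hx : x ∈ (S : Subgroup G)) :
    g * x * g⁻¹ ∈ ((g • S : Sylow p G) : Subgroup G) := by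
  rw [Sylow.coe_subgroup_smul]; exact smul_mem_pointwise_smul x (MulAut.conj g) _ hx

theorem mem_sylow_of_smul_eq {p : ℕ} [Fact p.Prime] {S : Sylow p G} {y : G} {k : ℕ}
    (hy : y ^ p ^ k = 1) (h : y • S = S) : y ∈ (S : Subgroup G) := by
  have h1 := Sylow.smul_eq_iff_mem_normalizer.1 h
  have h2 := (S.is_maximal' (isPGroup_sup_of_le_normalizer (H28.isPGroup_zpowers hy) S.isPGroup'
    (zpowers_le.2 h1)) le_sup_right)
  exact h2 ▸ mem_sup_left (mem_zpowers y)

/-- A 2-group with a unique involution and a central element of order at least four is cyclic. -/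
theorem isCyclic_of_unique_of_central (hG : IsPGroup 2 G) (hu : ∃! x : G, orderOf x = 2) {v : G}
    (hv : v ∈ center G) (h2 : v * v ≠ 1) : IsCyclic G := by
  haveI : Fact (Nat.Prime 2) := ⟨Nat.prime_two⟩
  by_cases hna : IsMulCommutative G
  · haveI := H4.isCyclic_of_unique hG (fun x y hx hy => by rw [hu.unique hx hy]) ⊤ inferInstance
    exact isCyclic_of_surjective _ (topEquiv (G := G)).surjective
  exfalso
  obtain ⟨m, a, b, hm, ha, -, -, hs, h1, h3⟩ := exists_quat_gens hG hna hu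
  have : v ∈ closure {a, b} := by
    rw [← Set.singleton_union, Subgroup.closure_union, ← zpowers_eq_closure, ← zpowers_eq_closure, hs]
    exact mem_top _
  have hc := mem_center_iff.1 hv
  obtain ⟨k, h | h⟩ := (mem_closure_inverts h3 ((2 ^ (m - 1) : ℕ) : ℤ)
    (by rw [← pow_two, h1, zpow_natCast])).1 this
  · have := conj_zpow_of_inverts h3 k
    rw [zpow_neg, ← h, hc, mul_inv_cancel_right] at this
    exact h2 (by nth_rewrite 2 [this]; group)
  · have e : b * a = a * b := by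
      calc _ = b * a ^ k * a * (a ^ k)⁻¹ := by group
        _ = _ := by rw [← h, ← hc, h]; group
    rw [e, mul_inv_cancel_right] at h3
    have h4 : a ^ 2 = 1 := by rw [pow_two]; nth_rewrite 2 [h3]; group
    have h5 := Nat.le_of_dvd two_pos (ha ▸ orderOf_dvd_of_pow_eq_one h4)
    have := Nat.pow_le_pow_right two_pos hm
    omega

theorem exists_swap_of_odd {s t : G} (hs : s * s = 1) (ht : t * t = 1)
    (h : Odd (orderOf (s * t))) : ∃ k : ℤ, ((s * t) ^ k * s) * ((s * t) ^ k * s) = 1 ∧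
      ((s * t) ^ k * s) * s * ((s * t) ^ k * s)⁻¹ = t := by
  obtain ⟨k, hk⟩ := exists_zpow_conj_of_odd hs ht h
  refine ⟨k, ?_, by nth_rewrite 3 [← hk]; group⟩
  rw [zpow_mul_of_inverts (inverts_left hs ht)]
  exact mul_zpow_mul_self hs (inverts_left hs ht) _

/-- Cyclic Sylow intersections: `O₂(G)` is central if `O(G) = 1`. -/
theorem pCore_le_center_of_cyc_int (hO : pPrimeCore 2 G = ⊥)
    (hC : ∀ S T : Sylow 2 G, S ≠ T → IsCyclic ↥((S : Subgroup G) ⊓ T))
    (hn : ∀ S : Sylow 2 G, ¬ (S : Subgroup G).Normal) : pCore 2 G ≤ center G := by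
  haveI : Fact (Nat.Prime 2) := ⟨Nat.prime_two⟩
  obtain ⟨S⟩ : Nonempty (Sylow 2 G) := inferInstance
  obtain ⟨T, hST⟩ := exists_ne_of_not_normal (hn S)
  have hV := H28.isPGroup_pCore 2 G
  have hVc : IsCyclic (pCore 2 G) :=
    have := hC S T hST
    isCyclic_of_le (le_inf (pCore_le_sylow S) (pCore_le_sylow T))
  obtain ⟨v, hv⟩ := H23.exists_zpowers_eq hVc
  have vV : v ∈ pCore 2 G := hv ▸ mem_zpowers v
  set K := 𝐂 (pCore 2 G) with hK
  haveI hKn : K.Normal := normal_centralizer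
  have memK : ∀ {g}, g ∈ K ↔ v * g = g * v := fun {g} => by
    rw [hK, ← hv, centralizer_zpowers, mem_centralizer_singleton, eq_comm]
  have hodd : ∀ g : G, (orderOf g).Coprime 2 → g ∈ K := fun g hg =>
    odd_centralizes_of_cyclic hV hVc (le_normalizer_of_normal (mem_top g)) hg
  by_contra h0
  obtain ⟨x, hxS, hxK⟩ : ∃ x ∈ (S : Subgroup G), x ∉ K := by
    by_contra h1
    push Not at h1
    refine h0 fun u hu => mem_center_iff.2 fun g => (mem_centralizer'.1 (?_ : g ∈ K) u hu).symm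
    obtain ⟨y, -, r, -, ⟨k, hk⟩, hr, rfl⟩ := exists_pPart_mul (p := 2) (isOfFinOrder_of_finite g)
    obtain ⟨c, -, hc⟩ := (H28.isSylowIn_top S).exists_conj_le (H28.isPGroup_zpowers hk) le_top
    refine mul_mem ?_ (hodd r hr)
    simpa [mul_assoc] using hKn.conj_mem _ (h1 _ (hc (conj_mem_cj (mem_zpowers y)))) c⁻¹
  have v2 : v * v ≠ 1 := fun h => by
    have := hv ▸ (inferInstance : (pCore 2 G).Normal).conj_mem v vV x
    rcases (H4.mem_zpowers_of_sq (by rwa [pow_two])).1 this with h1 | h1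
    · exact hxK (memK.2 (by rw [show v = 1 by simpa using h1]; simp))
    · exact hxK (memK.2 (mul_inv_eq_iff_eq_mul.1 h1).symm)
  obtain ⟨z, zV, z2, -⟩ := exists_mem_center_of_ne_bot hV fun h => v2 (by
    rw [h, mem_bot] at vV; rw [vV, one_mul])
  have zz := mul_self_of_orderOf_two z2
  have zc : ∀ g, g * z * g⁻¹ = z := fun g => invol_unique_of_isCyclic hVc
    ((inferInstance : (pCore 2 G).Normal).conj_mem z zV g) zV ((orderOf_conj g z).trans z2) z2
  have zc' : ∀ g, g * z = z * g := fun g => mul_inv_eq_iff_eq_mul.1 (zc g)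
  have zK : z ∈ K := memK.2 (zc' v)
  have U1 : ∀ {S T : Sylow 2 G} {y}, y ∉ K → y ∈ (S : Subgroup G) → y ∈ (T : Subgroup G) → S = T :=
    fun {S T y} h1 h2 h3 => by
      by_contra h
      haveI := hC S T h
      exact h1 (memK.2 (congrArg Subtype.val (mul_comm' (⟨v, pCore_le_sylow S vV,
        pCore_le_sylow T vV⟩ : ((S : Subgroup G) ⊓ T : Subgroup G)) ⟨y, h2, h3⟩)))
  have U2 : ∀ {S T : Sylow 2 G} {y}, orderOf y = 2 → y ≠ z → y ∈ (S : Subgroup G) →
      y ∈ (T : Subgroup G) → S = T := fun {S T y} h0 h1 h2 h3 => by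
    by_contra h
    exact h1 (invol_unique_of_isCyclic (hC S T h) ⟨h2, h3⟩
      ⟨pCore_le_sylow S zV, pCore_le_sylow T zV⟩ h0 z2)
  have U3 : ∀ {y i}, y ∈ (S : Subgroup G) → y ∈ (T : Subgroup G) → i ∈ K → i * y * i⁻¹ = y⁻¹ →
      y = 1 ∨ y = z := fun {y i} h1 h2 hi e => by
    have vST : v ∈ (S : Subgroup G) ⊓ T := ⟨pCore_le_sylow S vV, pCore_le_sylow T vV⟩
    obtain ⟨a, ha⟩ := exists_orderOf_eq_pow S.isPGroup' h1
    obtain ⟨b, hb⟩ := exists_orderOf_eq_pow S.isPGroup' vST.1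
    rcases le_total a b with h | h
    · have h3 := hv ▸ H23.mem_zpowers_of_orderOf_dvd (hC S T hST) ⟨h1, h2⟩ vST
        (ha ▸ hb ▸ pow_dvd_pow 2 h)
      rw [← mem_centralizer'.1 hi y h3, mul_inv_cancel_right] at e
      by_cases y1 : y = 1
      · exact Or.inl y1
      · exact Or.inr (invol_unique_of_isCyclic hVc h3 zV
          (orderOf_two_of (by nth_rewrite 2 [e]; group) y1) z2)
    · obtain ⟨k, hk⟩ := H23.mem_zpowers_of_orderOf_dvd (hC S T hST) vST ⟨h1, h2⟩
        (ha ▸ hb ▸ pow_dvd_pow 2 h)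
      have := conj_zpow_of_inverts e k
      simp only at hk
      rw [zpow_neg, hk, ← memK.1 hi, mul_inv_cancel_right] at this
      exact (v2 (by nth_rewrite 2 [this]; group)).elim
  -- there is a second involution in `K`
  obtain ⟨s, sS, sK, s2, sz⟩ : ∃ s ∈ (S : Subgroup G), s ∈ K ∧ orderOf s = 2 ∧ s ≠ z := by
    by_contra h1
    push Not at h1
    have hP := (H10.isSylowIn_top S).inf_of_le_normalizer (N := K) le_top le_normalizer_of_normal
    obtain ⟨P, hP⟩ := hP.exists_sylow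
    have mP : ∀ {y : K}, y ∈ (P : Subgroup K) ↔ (y : G) ∈ (S : Subgroup G) := fun {y} => by
      rw [← mem_map_iff_mem K.subtype_injective, hP]; simp
    have hc : IsCyclic (P : Subgroup K) := isCyclic_of_unique_of_central P.isPGroup'
      ⟨⟨⟨z, zK⟩, mP.2 (pCore_le_sylow S zV)⟩, by simpa [← Subgroup.orderOf_coe] using z2,
        fun y hy => Subtype.ext (Subtype.ext (h1 _ (mP.1 y.2) y.1.2 (by
          simpa [← Subgroup.orderOf_coe] using hy)))⟩
      (v := ⟨⟨v, memK.2 rfl⟩, mP.2 (pCore_le_sylow S vV)⟩)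
      (mem_center_iff.2 fun y => Subtype.ext (Subtype.ext (memK.1 y.1.2).symm))
      (fun h => v2 (congrArg (fun y => (y.1.1 : G)) h))
    obtain ⟨N, hN, h2⟩ := exists_normal_complement_of_cyclic P hc
    have h3 : N = ⊥ := H1.pPrimeCore_eq_bot_iff.1 (H1.pPrimeCore_eq_bot_of_subnormal
      hKn.isSubnormal hO) N hN (by
      rw [← h2.index_eq_card]
      exact ((Nat.Prime.coprime_iff_not_dvd Nat.prime_two).2 P.not_dvd_index).symm)
    subst h3
    refine hn S (sylow_normal_of_odd_eq_one (fun g hg => ?_) S)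
    exact eq_one_of_coprime_of_mem S.isPGroup' hg ((mP (y := ⟨g, hodd g hg⟩)).1
      (isComplement'_bot_left.1 h2 ▸ mem_top _))
  have conj_ne : ∀ g {y}, y ≠ z → g * y * g⁻¹ ≠ z := fun g y hy h =>
    hy (by rw [← zc g] at h; simpa using h)
  by_cases hs' : ∀ s' ∈ (S : Subgroup G), s' ∈ K → orderOf s' = 2 → s' ≠ z → s' = s ∨ s' = s * z
  · have hZ : zpowers z ≤ center G := zpowers_le.2 (mem_center_iff.2 zc')
    haveI := normal_of_le_center hZ
    have mZ : ∀ {y}, y ∈ zpowers z ↔ y = 1 ∨ y = z := H4.mem_zpowers_of_sq (by rwa [pow_two])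
    have o2 : orderOf (s : G ⧸ zpowers z) = 2 := orderOf_two_of (by
      rw [← QuotientGroup.mk_mul, mul_self_of_orderOf_two s2, QuotientGroup.mk_one]) (by
      rw [Ne, QuotientGroup.eq_one_iff, mZ, not_or]; exact ⟨ne_one_of_orderOf_two s2, sz⟩)
    have h1 := H7.zstar_mem_center (pPrimeCore_quotient_central_eq_bot hO _ hZ) (t := s)
      ⟨o2, fun g hg => ?_⟩
    · have h2 : (s : G ⧸ zpowers z) ∈ pCore 2 _ := H1.le_pCore
        (normal_of_le_center (zpowers_le.2 h1)) (isPGroup_two_zpowers o2) (mem_zpowers _)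
      have h3 : s ∈ pCore 2 G :=
        H1.comap_pCore_quotient (p := 2) (zpowers z) (isPGroup_two_zpowers z2) ▸ h2
      exact sz (invol_unique_of_isCyclic hVc h3 zV s2 z2)
    induction g using QuotientGroup.induction_on with | H g => ?_
    have t2 := (orderOf_conj g s).trans s2
    have h2 : (s * (g * s * g⁻¹)) ^ 2 ∈ zpowers z := by
      rw [← QuotientGroup.eq_one_iff]
      simp only [QuotientGroup.mk_pow, QuotientGroup.mk_mul, QuotientGroup.mk_inv]
      rw [hg.mul_pow, conj_pow, ← o2, pow_orderOf_eq_one]; simp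
    obtain ⟨R, hR⟩ := (isPGroup_closure_pair' (mul_self_of_orderOf_two s2)
      (mul_self_of_orderOf_two t2) (k := 2) (by
        rw [show 2 ^ 2 = 2 * 2 from rfl, pow_mul]
        rcases mZ.1 h2 with h | h <;> rw [h, pow_two]
        · exact one_mul _
        · exact zz)).exists_le_sylow
    obtain rfl := U2 s2 sz sS (hR (subset_closure (by simp)))
    rw [← QuotientGroup.mk_inv, ← QuotientGroup.mk_mul, ← QuotientGroup.mk_mul]
    rcases hs' _ (hR (subset_closure (by simp))) (hKn.conj_mem s sK g) t2 (conj_ne g sz) with h | h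
    · rw [h]
    · rw [h, QuotientGroup.mk_mul, (QuotientGroup.eq_one_iff z).2 (mem_zpowers z), mul_one]
  push Not at hs'
  obtain ⟨s', s'S, s'K, s'2, s'z, e1, e2⟩ := hs'
  obtain ⟨g, rfl⟩ := MulAction.exists_smul_eq G S T
  have tT := conj_mem_sylow_smul g sS
  have tK := hKn.conj_mem s sK g
  have t2 := (orderOf_conj g s).trans s2
  have tz := conj_ne g sz
  generalize g * s * g⁻¹ = t at tT tK t2 tz
  generalize g • S = T at *
  have swap : ∀ s ∈ (S : Subgroup G), s ∈ K → orderOf s = 2 → s ≠ z → ∃ j ∈ K, j * j = 1 ∧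
      j • S = T ∧ (j * s * j⁻¹ = t ∨ j * s * j⁻¹ = t * z) := fun s sS sK s2 sz => by
    have ss := mul_self_of_orderOf_two s2
    have tt := mul_self_of_orderOf_two t2
    obtain ⟨y, ⟨i, hi⟩, r, -, ⟨k, hk⟩, hr, e⟩ :=
      exists_pPart_mul (p := 2) (isOfFinOrder_of_finite (s * t))
    simp only at hi
    have key : ∀ {u} {R : Sylow 2 G}, orderOf u = 2 → u ≠ z → u ∈ (R : Subgroup G) →
        u * y * u⁻¹ = y⁻¹ → y ∈ (R : Subgroup G) := fun {u R} u2 uz uR h => by
      obtain ⟨R', hR⟩ := (isPGroup_sup_of_le_normalizer (isPGroup_two_zpowers u2)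
        (H28.isPGroup_zpowers hk) (zpowers_le.2 (mem_normalizer_of_cj_le (by
          rw [cj_zpowers, h, zpowers_inv])))).exists_le_sylow
      obtain rfl := U2 u2 uz uR (hR (mem_sup_left (mem_zpowers u)))
      exact hR (mem_sup_right (mem_zpowers y))
    have sy : s * y * s⁻¹ = y⁻¹ := by rw [← hi, conj_zpow_of_inverts (inverts_left ss tt), zpow_neg]
    have ty : t * y * t⁻¹ = y⁻¹ := by rw [← hi, conj_zpow_of_inverts (inverts_right ss tt), zpow_neg]
    have h1 := U3 (key s2 sz sS sy) (key t2 tz tT ty) sK sy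
    obtain ⟨t', t'K, t'T, t'2, h2, h3⟩ : ∃ t' ∈ K, t' ∈ (T : Subgroup G) ∧ t' * t' = 1 ∧
        s * t' = r ∧ (t' = t ∨ t' = t * z) := by
      rcases h1 with rfl | rfl
      · exact ⟨t, tK, tT, tt, by simpa using e, Or.inl rfl⟩
      · refine ⟨t * y, mul_mem tK zK, mul_mem tT (pCore_le_sylow T zV), ?_, ?_, Or.inr rfl⟩
        · rw [mul_assoc, ← mul_assoc y, ← zc', mul_assoc, zz, mul_one, tt]
        · rw [← mul_assoc, e, ← zc', mul_assoc, zz, mul_one]
    obtain ⟨m, h4, h5⟩ := exists_swap_of_odd ss t'2 (h2 ▸ Nat.coprime_two_right.1 hr)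
    refine ⟨_, mul_mem (zpow_mem (mul_mem sK t'K) m) sK, h4, ?_, h5.symm ▸ h3⟩
    exact U2 ((orderOf_conj _ s).trans s2) (conj_ne _ sz) (conj_mem_sylow_smul _ sS) (h5.symm ▸ t'T)
  obtain ⟨j, jK, jj, jS, h1⟩ := swap s sS sK s2 sz
  obtain ⟨j', -, jj', jS', h2⟩ := swap s' s'S s'K s'2 s'z
  have dS : (j * j') • S = S := by rw [mul_smul, jS', ← jS, ← mul_smul, jj, one_smul]
  have dT : (j * j') • T = T := by rw [mul_smul, ← jS', ← mul_smul j', jj', one_smul, jS, jS']
  obtain ⟨y, ⟨a, ha⟩, r, ⟨b, hb⟩, ⟨k, hk⟩, hr, e⟩ :=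
    exists_pPart_mul (p := 2) (isOfFinOrder_of_finite (j * j'))
  simp only at ha hb
  have fix : ∀ {R : Sylow 2 G} (c : ℤ), (j * j') • R = R → (j * j') ^ c • R = R := fun c h =>
    (MulAction.stabilizer G _).zpow_mem h c
  have jr : j * r * j⁻¹ = r⁻¹ := by rw [← hb, conj_zpow_of_inverts (inverts_left jj jj'), zpow_neg]
  have h3 := U3 (mem_sylow_of_smul_eq hk (ha ▸ fix a dS)) (mem_sylow_of_smul_eq hk (ha ▸ fix a dT))
    jK (by rw [← ha, conj_zpow_of_inverts (inverts_left jj jj'), zpow_neg])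
  have rS : r ∈ 𝐍 (S : Subgroup G) := Sylow.smul_eq_iff_mem_normalizer.1 (hb ▸ fix b dS)
  have r1 : r = 1 := by
    obtain ⟨n, hn, hc⟩ := H2.exists_mul_mem_centralizer (A := zpowers r) (N := S ⊓ K)
      (H2.le_normalizer_inf (zpowers_le.2 rS) le_normalizer_of_normal)
      (H2.coprime_card_of_isPGroup (S.isPGroup'.to_le inf_le_left) (by rwa [Nat.card_zpowers]))
      (Or.inl (H2.isSolvable_zpowers r)) (k := x) fun c hc =>
      mem_inf.2 ⟨mul_mem (conj_mem_of_mem_normalizer (zpowers_le.2 rS hc) hxS) (inv_mem hxS), by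
        have := zpowers_le.2 (hodd r hr) hc
        simpa [mul_assoc] using mul_mem this (hKn.conj_mem _ (inv_mem this) x)⟩
    rw [mem_inf] at hn
    have h4 := mul_mem hn.1 hxS
    obtain ⟨P, hP, h5⟩ := H28.exists_isSylowIn_ge (S.isPGroup'.to_le (zpowers_le.2 h4))
      (zpowers_le.2 (centralizer_le_normalizer _ hc))
    obtain ⟨m, hm, h6⟩ := hP.exists_conj_le (H28.isPGroup_zpowers (x := j) (k := 1)
      (by simpa [pow_two] using jj)) (zpowers_le.2 (mem_normalizer_of_cj_le (by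
        rw [cj_zpowers, jr, zpowers_inv])))
    obtain ⟨R, hR⟩ := hP.isPGroup.exists_le_sylow
    obtain rfl := U1 (fun h => hxK ((mul_mem_cancel_left hn.2).1 h)) h4 (hR (h5 (mem_zpowers _)))
    have h7 := hR (h6 (conj_mem_cj (mem_zpowers j)))
    obtain ⟨c, hc⟩ := conj_mem_of_mem_normalizer' hm (mem_zpowers r)
    simp only at hc
    have h8 : r * (m * j * m⁻¹) * r⁻¹ * (m * j * m⁻¹)⁻¹ = r ^ 2 := by
      calc _ = r * m * (j * (m⁻¹ * r * m) * j⁻¹)⁻¹ * m⁻¹ := by group
        _ = _ := by rw [← hc, conj_zpow_of_inverts jr, zpow_neg, hc, pow_two]; group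
    exact eq_one_of_coprime_of_mem S.isPGroup' hr (mem_of_pow_mem_of_coprime hr
      (h8 ▸ mul_mem (conj_mem_of_mem_normalizer rS h7) (inv_mem h7)))
  have h4 : j' * s' * j'⁻¹ = j * s' * j⁻¹ := by
    rw [r1, mul_one] at e
    have : j' = j * y := by rw [← e, ← mul_assoc, jj, one_mul]
    rcases h3 with rfl | rfl <;> rw [this]
    · simp
    · rw [mul_assoc j, ← zc']; group
  rw [h4] at h2
  have h5 : j * (s * z) * j⁻¹ = j * s * j⁻¹ * z := by rw [mul_assoc _ _ z, zc' j⁻¹]; group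
  have h6 : ∀ {a b : G}, j * a * j⁻¹ = j * b * j⁻¹ → a = b := by simp
  rcases h1 with h1 | h1 <;> rcases h2 with h2 | h2
  · exact e1 (h6 (h2.trans h1.symm))
  · exact e2 (h6 (by rw [h5, h1, h2]))
  · exact e2 (h6 (by rw [h5, h1, h2, mul_assoc, zz, mul_one]))
  · exact e1 (h6 (h2.trans h1.symm))

end H10
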