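import Cfsg.Agent.H10.HH6
import Cfsg.Agent.H17.PermMod

/-!
Derived length of linear `p`-groups: upper bounds.
-/

set_option autoImplicit false

namespace H10.DL
open Subgroup H19 H18 H10.HH Module
open scoped commutatorElement

variable {F : Type*} [Field F] {X : Type*} [Group X] [Finite X] {U : Type*} [AddCommGroup U]
  [Module F U] {ρ : X →* End F U} {P K D : Subgroup X} {S T : Submodule F U} {p k : ℕ}

theorem exists_central_mod (hP : PG p P) (hK : P ≤ N(K)) (h : ¬ P ≤ K) :
    ∃ x ∈ P, x ∉ K ∧ x ^ p ∈ K ∧ ∀ w ∈ P, ⁅w, x⁆ ∈ K := by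
  have h1 : quo K P ≠ ⊥ := fun e => h ((quo_eq_bot_iff hK).1 e)
  have h2 := (hP.quo K).center_ne_bot h1
  have hq := (hP.quo K).infl C(quo K P)
  have hp := hq.prime_of_ne_bot h2
  obtain ⟨t, ht, hto⟩ := exists_orderOf_eq_prime hp (hq.dvd_of_ne_bot h2)
  obtain ⟨x, hx, rfl⟩ := mem_im.1 ht.1
  refine ⟨x, hx, fun e => ?_, ?_, fun w hw => ?_⟩
  · rw [qmk_eq_one.2 e, orderOf_one] at hto
    exact hp.one_lt.ne hto
  · have : qmk K (x ^ p) = 1 := by rw [map_pow, ← hto, pow_orderOf_eq_one]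
    exact qmk_eq_one.1 this
  · have : qmk K ⁅(⟨w, hK hw⟩ : N(K)), x⁆ = 1 := by
      rw [map_commutatorElement, commutatorElement_eq_one_iff_mul_comm]
      exact mem_cent.1 ht.2 _ (mem_im_of hw)
    exact qmk_eq_one.1 this

omit [Finite X] in
theorem dS_succ (P : Subgroup X) (n : ℕ) : dS P (n + 1) = dS ⁅P, P⁆ n := by
  induction n with
  | zero => rfl
  | succ n ih => rw [dS, ih]; rfl

omit [Finite X] in
theorem dS_le_der (P : Subgroup X) (n : ℕ) : dS P (n + 1) ≤ ⁅P, P⁆ :=
  dS_succ P n ▸ (dS_normal _ n).le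

variable [FiniteDimensional F U]

theorem le_stabS_of_irr (hD : (#D : F) ≠ 0) (hn : D ⊴ P) (hS : RInv ρ P S)
    (h : ∀ T ≤ S, RIrr ρ P T → D ≤ stabS ρ T) : D ≤ stabS ρ S := by
  by_contra h1
  obtain ⟨T, hT, hi⟩ := exists_irr (hS.inf (inv_ker_avg hn.norm))
    (ker_avg_ne_bot hD (hS.mono hn.le) fun e => h1 (le_fix_iff.1 e))
  exact hi.ne (eq_bot_iff.2 (fix_inf_ker_avg (ρ := ρ) hD ▸ le_inf
    (le_fix_iff.2 (h T (hT.trans inf_le_left) hi)) (hT.trans inf_le_right)))

omit [Finite X] [FiniteDimensional F U] in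
theorem le_stabS_of_sub {E : Submodule F U} (hn : D ⊴ P) (hT : RIrr ρ P T) (hE : E ≤ T)
    (h0 : E ≠ ⊥) (h : D ≤ stabS ρ E) : D ≤ stabS ρ T := by
  rcases hT.min _ inf_le_left (hT.inv.inf (inv_fix (ρ := ρ) hn.norm)) with e | e
  · exact absurd (eq_bot_iff.2 (e ▸ le_inf hE (le_fix_iff.2 h))) h0
  · exact le_fix_iff.1 (e ▸ inf_le_right)

omit [Finite X] in
theorem pg_cast (hF : (p : F) ≠ 0) [Finite X] (hP : PG p P) : (#P : F) ≠ 0 := by
  obtain ⟨n, hn⟩ := hP.exists_card
  rw [hn]; exact_mod_cast pow_ne_zero n hF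

theorem step [IsAlgClosed F] (hp : p.Prime) (hP : PG p P) (hT : RIrr ρ P T) :
    ⁅P, P⁆ ≤ stabS ρ T ∨ ∃ E, E ≤ T ∧ E ≠ ⊥ ∧ RInv ρ ⁅P, P⁆ E ∧ p * finrank F E ≤ finrank F T := by
  classical
  by_cases h : P ≤ rad hT.inv
  · exact Or.inl (commutator_le.2 fun a ha b hb => ((mem_rad hT.inv).1 (h ha)).2 b hb)
  right
  obtain ⟨x, hx, hx1, hxp, hxc⟩ := exists_central_mod hP (norm_rad hT.inv hT.inv le_normalizer) h
  have hc : ∀ w ∈ P, ∃ c : F, ∀ v ∈ T, ρ w (ρ x v) = c • ρ x (ρ w v) := fun w hw => by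
    obtain ⟨c, hc⟩ := hT.schur (ρ ⁅w, x⁆) (hT.inv _ (hxc w hw).1)
      fun y hy v hv => (hxc w hw).2 y hy v hv
    refine ⟨c, fun v hv => ?_⟩
    rw [← hc _ (hT.inv x hx _ (hT.inv w hw v hv)), ← rho_mul_apply, ← rho_mul_apply,
      ← rho_mul_apply]
    congr 2
    rw [commutatorElement_def]; group
  choose! c hc using hc
  obtain ⟨v0, hv0, hv1⟩ := (Submodule.ne_bot_iff T).1 hT.ne
  have canc : ∀ (g : X) (a b : F), a • ρ g v0 = b • ρ g v0 → a = b := fun g a b e =>
    smul_left_injective F (fun e' => hv1 (rho_eq_zero e')) e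
  let φ : P →* F :=
    { toFun := fun w => c w
      map_one' := canc x _ _ (by simpa using (hc 1 P.one_mem v0 hv0).symm)
      map_mul' := fun a b => canc (x * (a * b)) _ _ (by
        have := hc _ (a * b).2 v0 hv0
        rw [coe_mul, rho_mul_apply, hc b b.2 v0 hv0, map_smul, hc a a.2 _ (hT.inv b b.2 v0 hv0),
          smul_smul, ← rho_mul_apply ρ a b] at this
        rw [rho_mul_apply, coe_mul, ← this, mul_comm (c a)]) }
  have hder : ∀ w ∈ ⁅P, P⁆, c w = 1 := fun w hw => by
    rw [← map_subtype_commutator] at hw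
    obtain ⟨w, hw, rfl⟩ := hw
    exact congrArg Units.val (Abelianization.commutator_subset_ker φ.toHomUnits hw)
  obtain ⟨t, ht, ht1⟩ : ∃ t ∈ P, c t ≠ 1 := by
    by_contra e
    push Not at e
    exact hx1 ⟨hx, fun w hw v hv => by rw [hc w hw v hv, e w hw, one_smul]⟩
  have hpow : ∀ (n : ℕ), ∀ v ∈ T, ρ t (ρ (x ^ n) v) = c t ^ n • ρ (x ^ n) (ρ t v) := by
    intro n
    induction n with
    | zero => simp
    | succ n ih =>
      intro v hv
      rw [pow_succ', rho_mul_apply, hc t ht _ (hT.inv _ (pow_mem hx n) v hv), ih v hv, map_smul,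
        smul_smul, rho_mul_apply, pow_succ']
  have hζ : c t ^ p = 1 := canc (x ^ p * t) _ _ (by
    rw [rho_mul_apply, ← hpow p v0 hv0, one_smul, hxp.2 t ht v0 hv0])
  haveI := Fact.mk hp
  have hord : orderOf (c t) = p := orderOf_eq_prime hζ ht1
  haveI : Nontrivial T := Submodule.nontrivial_iff_ne_bot.2 hT.ne
  obtain ⟨μ, hμ⟩ := End.exists_eigenvalue ((ρ x).restrict (hT.inv x hx))
  obtain ⟨u, hu⟩ := hμ.exists_hasEigenvector
  have hu1 : ρ x u = μ • (u : U) := by simpa using congrArg Subtype.val hu.apply_eq_smul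
  have hu0 : (u : U) ≠ 0 := fun e => hu.2 (Subtype.ext e)
  have hμ0 : μ ≠ 0 := fun e => hu0 (rho_eq_zero (by rw [hu1, e, zero_smul]))
  have hζ0 : c t ≠ 0 := fun e => by rw [e, zero_pow hp.ne_zero] at hζ; exact zero_ne_one hζ
  let E := T ⊓ (ρ x).eigenspace μ
  refine ⟨E, inf_le_left, (Submodule.ne_bot_iff _).2 ⟨u, ⟨u.2, End.mem_eigenspace_iff.2 hu1⟩, hu0⟩,
    fun w hw v hv => ⟨hT.inv w (der_le P hw) v hv.1, End.mem_eigenspace_iff.2 ?_⟩, ?_⟩
  · have := hc w (der_le P hw) v hv.1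
    rw [hder w hw, one_smul, End.mem_eigenspace_iff.1 hv.2, map_smul] at this
    exact this.symm
  let Φ : (Fin p → E) →ₗ[F] U := ∑ i : Fin p, ρ (t ^ (i : ℕ)) ∘ₗ E.subtype ∘ₗ LinearMap.proj i
  have hΦ : ∀ f, Φ f = ∑ i : Fin p, ρ (t ^ (i : ℕ)) (f i) := fun f => by simp [Φ]
  have hind := ((ρ x).eigenspaces_iSupIndep).comp (f := fun i : Fin p => (c t ^ (i : ℕ))⁻¹ * μ)
    fun i j e => Fin.ext (pow_injOn_Iio_orderOf (x := c t) (by simp [hord]) (by simp [hord])
      (inv_injective (mul_right_cancel₀ hμ0 e)))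
  have hinj : Function.Injective (Φ.codRestrict T fun f => by
      rw [hΦ]; exact T.sum_mem fun i _ => hT.inv _ (pow_mem ht _) _ (f i).2.1) := by
    rw [injective_iff_map_eq_zero]
    intro f hf
    have hf' : Φ f = 0 := congrArg Subtype.val hf
    rw [hΦ] at hf'
    have := (iSupIndep_iff_finsetSum_eq_zero_imp_eq_zero _).1 hind Finset.univ _ (fun i _ => by
      refine End.mem_eigenspace_iff.2 ?_
      have h1 := hc _ (pow_mem ht i) _ (f i).2.1
      have h2 : c (t ^ (i : ℕ)) = c t ^ (i : ℕ) := map_pow φ ⟨t, ht⟩ i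
      rw [End.mem_eigenspace_iff.1 (f i).2.2, map_smul, h2] at h1
      rw [mul_smul, h1, smul_smul, inv_mul_cancel₀ (pow_ne_zero _ hζ0), one_smul]) hf'
    exact funext fun i => Subtype.ext (rho_eq_zero (this i (Finset.mem_univ i)))
  simpa [finrank_pi_fintype] using LinearMap.finrank_le_finrank_of_injective hinj

theorem dS_closed [IsAlgClosed F] (hp : p.Prime) (hF : (p : F) ≠ 0) (k : ℕ) :
    ∀ (P : Subgroup X) (S : Submodule F U), PG p P → RInv ρ P S → finrank F S < p ^ (k + 1) →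
      dS P (k + 1) ≤ stabS ρ S := by
  induction k with
  | zero =>
    intro P S hP hS h
    refine le_stabS_of_irr (pg_cast hF (hP.of_le (dS_normal P _).le)) (dS_normal P _) hS
      fun T hT hi => (step hp hP hi).resolve_right ?_
    rintro ⟨E, -, h0, -, h1⟩
    have h2 := Submodule.finrank_mono hT
    have h3 : 0 < finrank F E := Nat.pos_of_ne_zero fun e => h0 (Submodule.finrank_eq_zero.1 e)
    rw [zero_add, pow_one] at h
    nlinarith
  | succ k ih =>
    intro P S hP hS h
    refine le_stabS_of_irr (pg_cast hF (hP.of_le (dS_normal P _).le)) (dS_normal P _) hS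
      fun T hT hi => ?_
    rcases step hp hP hi with h1 | ⟨E, hE, h0, hE', h1⟩
    · exact (dS_le_der P _).trans h1
    · refine le_stabS_of_sub (dS_normal P _) hi hE h0 ?_
      rw [dS_succ]
      refine ih _ _ (hP.of_le (der_le P)) hE' (Nat.lt_of_mul_lt_mul_left (a := p) ?_)
      rw [← pow_succ']
      exact h1.trans_lt ((Submodule.finrank_mono hT).trans_lt h)

theorem dS_le_ker (hp : p.Prime) (hF : (p : F) ≠ 0) (hP : PG p P) (h : finrank F U < p ^ (k + 1)) :
    dS P (k + 1) ≤ ρ.ker := by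
  rw [← bc_ker]
  intro x hx
  have := dS_closed (ρ := bc ρ) hp (bc_cast hF) k P ⊤ hP RInv.top
    (by rwa [finrank_top, finrank_baseChange]) hx
  exact LinearMap.ext fun v => this v trivial

/-- the upper central flag -/
def W (ρ : X →* End F U) (P : Subgroup X) : ℕ → Submodule F U
  | 0 => ⊥
  | i + 1 => ⨅ g ∈ P, (W ρ P i).comap (ρ g - 1)

omit [Finite X] [FiniteDimensional F U] in
theorem mem_W {i : ℕ} {v : U} : v ∈ W ρ P (i + 1) ↔ ∀ g ∈ P, ρ g v - v ∈ W ρ P i := by
  simp [W, Submodule.mem_iInf]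

omit [Finite X] [FiniteDimensional F U] in
theorem W_mono : Monotone (W ρ P) := monotone_nat_of_le_succ fun i => by
  induction i with
  | zero => exact bot_le
  | succ i ih => exact fun v hv => mem_W.2 fun g hg => ih (mem_W.1 hv g hg)

omit [Finite X] [FiniteDimensional F U] in
theorem W_inv (i : ℕ) : RInv ρ P (W ρ P i) := fun g hg v hv => by
  cases i with
  | zero => rw [show v = 0 from hv, map_zero]; exact zero_mem _
  | succ i => simpa using add_mem (W_mono (Nat.le_succ i) (mem_W.1 hv g hg)) hv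

theorem W_top [Fact p.Prime] [CharP F p] (hP : PG p P) : W ρ P (finrank F U) = ⊤ := by
  have key : ∀ i, W ρ P i = ⊤ ∨ i ≤ finrank F (W ρ P i) := by
    intro i
    induction i with
    | zero => exact Or.inr (Nat.zero_le _)
    | succ i ih =>
      by_cases h : W ρ P i = ⊤
      · exact Or.inl (eq_top_iff.2 (h ▸ W_mono (Nat.le_succ i)))
      refine Or.inr ((ih.resolve_left h).trans_lt (Submodule.finrank_lt_finrank_of_lt
        (lt_of_le_of_ne (W_mono (Nat.le_succ i)) fun e => ?_)))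
      haveI := Submodule.Quotient.nontrivial_iff.2 h
      obtain ⟨v, -, hv, hv'⟩ := H17.exists_fixed_vec (p := p) (Representation.quotient
        (ρ.comp P.subtype) (W ρ P i) fun g v hv => W_inv (ρ := ρ) (P := P) i g.1 g.2 v hv) ⊤
        (hP.isPGroup.to_subgroup ⊤) ⊤ (fun _ _ _ _ => trivial) top_ne_bot
      obtain ⟨v, rfl⟩ := Submodule.Quotient.mk_surjective _ v
      refine hv ((Submodule.Quotient.mk_eq_zero _).2 (e ▸ mem_W.2 fun g hg => ?_))
      exact (Submodule.Quotient.eq _).1 (hv' ⟨g, hg⟩ trivial)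
  exact (key _).elim id fun h => Submodule.eq_top_of_finrank_eq
    (le_antisymm (Submodule.finrank_le _) h)

omit [Finite X] [FiniteDimensional F U] in
theorem dS_W (k : ℕ) : ∀ g ∈ dS P k, ∀ i, ∀ v ∈ W ρ P (i + 2 ^ k), ρ g v - v ∈ W ρ P i := by
  induction k with
  | zero => exact fun g hg i v hv => mem_W.1 hv g hg
  | succ k ih =>
    intro g hg
    have hle := (dS_normal P k).le
    have key : ∀ g ∈ ⁅dS P k, dS P k⁆,
        g ∈ P ∧ ∀ i, ∀ v ∈ W ρ P (i + 2 ^ (k + 1)), ρ g v - v ∈ W ρ P i := by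
      intro g hg
      rw [Subgroup.commutator_def] at hg
      induction hg using closure_induction with
      | mem x hx =>
        obtain ⟨a, ha, b, hb, rfl⟩ := hx
        refine ⟨commg_le_of_le hle hle (commutator_mem_commutator ha hb), fun i v hv => ?_⟩
        have hu := W_inv _ _ (inv_mem (hle ha)) _ (W_inv _ _ (inv_mem (hle hb)) v hv)
        set u := ρ a⁻¹ (ρ b⁻¹ v) with hu'
        have e1 : v = ρ b (ρ a u) := by rw [hu', rho_apply_inv, rho_apply_inv]
        have e2 : ρ ⁅a, b⁆ v = ρ a (ρ b u) := by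
          simp only [commutatorElement_def, rho_mul_apply, hu']
        rw [pow_succ, mul_two, ← add_assoc] at hu
        have h1 := ih a ha _ _ (ih b hb _ _ hu)
        have h2 := ih b hb _ _ (ih a ha _ _ hu)
        have := sub_mem h1 h2
        rw [e2]
        convert this using 1
        conv_lhs => rw [e1]
        simp only [map_sub]; abel
      | one => exact ⟨one_mem _, fun i v _ => by simp⟩
      | mul x y _ _ hx hy =>
        refine ⟨mul_mem hx.1 hy.1, fun i v hv => ?_⟩
        have := add_mem (hx.2 i _ (W_inv _ _ hy.1 v hv)) (hy.2 i v hv)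
        simpa [rho_mul_apply] using this
      | inv x _ hx =>
        refine ⟨inv_mem hx.1, fun i v hv => ?_⟩
        have := neg_mem (hx.2 i _ (W_inv _ _ (inv_mem hx.1) v hv))
        simpa [rho_apply_inv] using this
    exact (key g hg).2

theorem dS_le_ker_char [Fact p.Prime] [CharP F p] (hP : PG p P) (h : finrank F U ≤ 2 ^ k) :
    dS P k ≤ ρ.ker := fun g hg => LinearMap.ext fun v => sub_eq_zero.1
  (dS_W k g hg 0 v (W_mono (by simpa using h) ((W_top (ρ := ρ) hP).ge Submodule.mem_top)))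

theorem dS_le_ker_two (hp : p.Prime) (hP : PG p P) (h : finrank F U < 2 ^ (k + 1)) :
    dS P (k + 1) ≤ ρ.ker := by
  by_cases hF : (p : F) = 0
  · haveI := Fact.mk hp
    haveI : CharP F p := (CharP.charP_iff_prime_eq_zero hp).2 hF
    exact dS_le_ker_char hP h.le
  · exact dS_le_ker hp hF hP (h.trans_le (Nat.pow_le_pow_left hp.two_le _))

theorem dS_le_ker_fin [Fintype F] (hp : p.Prime) (hF : (p : F) ≠ 0) (hP : PG p P)
    (h : finrank F U / orderOf (Fintype.card F : ZMod p) < p ^ (k + 1)) : dS P (k + 1) ≤ ρ.ker := by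
  classical
  suffices H : dS P (k + 1) ≤ stabS ρ ⊤ from fun x hx => LinearMap.ext fun v => H hx v trivial
  refine le_stabS_of_irr (pg_cast hF (hP.of_le (dS_normal P _).le)) (dS_normal P _) RInv.top
    fun T _ hT => ?_
  by_cases h0 : P ≤ stabS ρ T
  · exact (dS_normal P _).le.trans h0
  obtain ⟨z, hz, hz1, hzp, hzc⟩ := exists_central_mod hP (norm_stabS hT.inv) h0
  haveI : Finite U := Module.finite_of_finite F
  haveI : Nontrivial T := Submodule.nontrivial_iff_ne_bot.2 hT.ne
  let L := Subalgebra.centralizer F (Set.range (sub hT.inv))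
  haveI : Finite (End F T) := Finite.of_injective _ DFunLike.coe_injective
  have hinj : ∀ a : L, a ≠ 0 → Function.Injective (a : End F T) := fun a ha => by
    rcases (sub_irr hT).min _ le_top (RInv.ker (f := (a : End F T))
      fun g _ => a.2 _ ⟨g, rfl⟩) with e | e
    · exact LinearMap.ker_eq_bot.1 e
    · exact absurd (Subtype.ext (LinearMap.ker_eq_top.1 e)) ha
  haveI : NoZeroDivisors L := ⟨fun {a b} e => by
    by_contra h1
    push Not at h1
    obtain ⟨v, hv⟩ := exists_ne (0 : T)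
    refine hv (hinj b h1.2 (hinj a h1.1 ?_))
    rw [map_zero, map_zero]
    exact LinearMap.congr_fun (congrArg Subtype.val e) v⟩
  haveI : IsDomain L := NoZeroDivisors.to_isDomain L
  letI : Field L := (Finite.isDomain_to_isField L).toField
  let σ : P →* End L T :=
    { toFun := fun g =>
        { toFun := sub hT.inv g
          map_add' := map_add _
          map_smul' := fun a v => LinearMap.congr_fun (a.2 _ ⟨g, rfl⟩) v }
      map_one' := LinearMap.ext fun v => by simp
      map_mul' := fun a b => LinearMap.ext fun v => by simp }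
  haveI : Module.Finite L T := Module.Finite.of_finite
  let ζ : L := ⟨sub hT.inv ⟨z, hz⟩, by
    rintro _ ⟨g, rfl⟩
    exact LinearMap.ext fun v => Subtype.ext ((comm_mem_stabS hT.inv g.2 hz).1 (hzc g g.2) v v.2)⟩
  have hζ : ζ ^ p = 1 := Subtype.ext (by
    show sub hT.inv ⟨z, hz⟩ ^ p = 1
    rw [← map_pow]
    exact LinearMap.ext fun v => Subtype.ext (hzp v v.2))
  have hζ1 : ζ ≠ 1 := fun e => hz1 fun v hv =>
    congrArg Subtype.val (LinearMap.congr_fun (congrArg Subtype.val e) ⟨v, hv⟩)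
  haveI := Fact.mk hp
  haveI := Fintype.ofFinite L
  have h1 : p ∣ Fintype.card L - 1 := by
    rw [← orderOf_eq_prime hζ hζ1]
    refine orderOf_dvd_of_pow_eq_one (FiniteField.pow_card_sub_one_eq_one ζ fun e => ?_)
    rw [e, zero_pow hp.ne_zero] at hζ
    exact zero_ne_one hζ
  rw [Module.card_eq_pow_finrank (K := F)] at h1
  have h2 : orderOf (Fintype.card F : ZMod p) ≤ finrank F L := by
    refine orderOf_le_of_pow_eq_one finrank_pos ?_
    have := (ZMod.natCast_eq_zero_iff _ _).2 h1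
    rw [Nat.cast_sub (Nat.one_le_pow _ _ Fintype.card_pos), sub_eq_zero] at this
    exact_mod_cast this
  have h3 : finrank L T ≤ finrank F U / orderOf (Fintype.card F : ZMod p) := by
    have h4 : (Fintype.card F : ZMod p) ≠ 0 := fun e => by
      obtain ⟨r, _, n, hr, hn⟩ := FiniteField.card' F
      rw [ZMod.natCast_eq_zero_iff, hn] at e
      exact hF (((Nat.prime_dvd_prime_iff_eq hp hr).1 (hp.dvd_of_dvd_pow e)) ▸ CharP.cast_eq_zero F r)
    have h5 : 0 < orderOf (Fintype.card F : ZMod p) :=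
      (isOfFinOrder_iff_pow_eq_one.2 ⟨p - 1, by have := hp.two_le; omega,
        ZMod.pow_card_sub_one_eq_one h4⟩).orderOf_pos
    rw [Nat.le_div_iff_mul_le h5, mul_comm]
    exact (Nat.mul_le_mul_right _ h2).trans ((finrank_mul_finrank F L T).trans_le T.finrank_le)
  have h6 := dS_le_ker (ρ := σ) (P := ⊤) hp (fun e => hF (by
    have : algebraMap F L p = 0 := by rw [map_natCast]; exact e
    exact (algebraMap F L).injective (this.trans (map_zero _).symm)))
    (by show PiN _ _; rw [card_top]; exact hP) (h3.trans_lt h)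
  intro x hx v hv
  have h7 : dS P (k + 1) = (dS ⊤ (k + 1)).map P.subtype := by
    rw [dS_map, ← MonoidHom.range_eq_map, range_subtype]
  obtain ⟨y, hy, rfl⟩ := h7 ▸ hx
  exact congrArg Subtype.val (LinearMap.congr_fun (h6 hy) ⟨v, hv⟩)

end H10.DL
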