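import Cfsg.Agent.H10.DL1

/-!
Derived length of linear `p`-groups: lower bounds through iterated wreath products.
-/

set_option autoImplicit false

namespace H10.DL
open Subgroup H19 H10.HH Module
open scoped commutatorElement

universe u

variable {F : Type*} [Field F] {p j : ℕ} {U U' : Type*} [AddCommGroup U] [Module F U]
  [AddCommGroup U'] [Module F U'] {B : U → U → F} {B' : U' → U' → F}

variable (F) in
/-- some `p`-group preserving `B` has its `j`-th derived subgroup acting nontrivially -/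
def Lw (p j : ℕ) (U : Type*) [AddCommGroup U] [Module F U] (B : U → U → F) : Prop :=
  ∃ (X : Type u) (_ : Group X) (_ : Finite X) (ρ : X →* End F U), IsPGroup p X ∧
    (∃ x ∈ dS (⊤ : Subgroup X) j, ρ x ≠ 1) ∧ ∀ x a b, B (ρ x a) (ρ x b) = B a b

theorem Lw.congr (h : Lw.{u} F p j U B) (e : U ≃ₗ[F] U') (he : ∀ a b, B' (e a) (e b) = B a b) :
    Lw.{u} F p j U' B' := by
  obtain ⟨X, _, _, ρ, h1, ⟨x, hx, h2⟩, h3⟩ := h
  refine ⟨X, _, inferInstance, e.conjRingEquiv.toMonoidHom.comp ρ, h1, ⟨x, hx, fun e' => h2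
    (e.conjRingEquiv.injective (e'.trans (map_one _).symm))⟩, fun x a b => ?_⟩
  show B' (e (ρ x (e.symm a))) (e (ρ x (e.symm b))) = _
  rw [he, h3, ← he, e.apply_symm_apply, e.apply_symm_apply]

theorem Lw.prod (h : Lw.{u} F p j U B) (B' : U' → U' → F) :
    Lw.{u} F p j (U × U') fun a b => B a.1 b.1 + B' a.2 b.2 := by
  obtain ⟨X, _, _, ρ, h1, ⟨x, hx, h2⟩, h3⟩ := h
  let σ : X →* End F (U × U') :=
    { toFun := fun x => (ρ x).prodMap LinearMap.id
      map_one' := by ext <;> simp
      map_mul' := fun a b => by ext <;> simp }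
  refine ⟨X, _, inferInstance, σ, h1, ⟨x, hx, fun e' => h2 (LinearMap.ext fun v => ?_)⟩,
    fun x a b => congrArg (· + B' a.2 b.2) (h3 x a.1 b.1)⟩
  exact congrArg Prod.fst (LinearMap.congr_fun e' (v, 0))

theorem Lw.wr [hp : Fact p.Prime] (h : Lw.{u} F p j U B) :
    Lw.{u} F p (j + 1) (Multiplicative (ZMod p) → U) fun a b => ∑ c, B (a c) (b c) := by
  classical
  obtain ⟨X, _, _, ρ, h1, ⟨x, hx, h2⟩, h3⟩ := h
  let C := Multiplicative (ZMod p)
  let σ : X ≀ᵣ C →* End F (C → U) :=
    { toFun := fun w => LinearMap.pi fun c => ρ (w.left c) ∘ₗ LinearMap.proj (w.right⁻¹ * c)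
      map_one' := LinearMap.ext fun f => funext fun c => by simp
      map_mul' := fun a b => LinearMap.ext fun f => funext fun c => by
        show ρ (a.left c * b.left (a.right⁻¹ * c)) (f ((a.right * b.right)⁻¹ * c)) =
          ρ (a.left c) (ρ (b.left (a.right⁻¹ * c)) (f (b.right⁻¹ * (a.right⁻¹ * c))))
        rw [map_mul, mul_inv_rev, mul_assoc]; rfl }
  have hσ : ∀ w f c, σ w f c = ρ (w.left c) (f (w.right⁻¹ * c)) := fun _ _ _ => rfl
  let ι : (C → X) →* X ≀ᵣ C :=
    { toFun := fun f => ⟨f, 1⟩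
      map_one' := rfl
      map_mul' := fun a b => by ext <;> simp }
  have H : ∀ j, dS ⊤ j ≤ ((dS ⊤ (j + 1)).comap ι).map (Pi.evalMonoidHom (fun _ => X) 1) := by
    intro j
    induction j with
    | zero =>
      intro r _
      obtain ⟨c, hc⟩ := exists_ne (1 : C)
      refine ⟨Pi.mulSingle 1 r * (fun i => (Pi.mulSingle 1 r : C → X) (c⁻¹ * i))⁻¹, ?_, ?_⟩
      · have := commutator_mem_commutator (H₁ := ⊤) (H₂ := ⊤) (g₁ := ι (Pi.mulSingle 1 r))
          (g₂ := RegularWreathProduct.inl c) trivial trivial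
        have e : ι (Pi.mulSingle 1 r * (fun i => (Pi.mulSingle 1 r : C → X) (c⁻¹ * i))⁻¹) =
            ⁅ι (Pi.mulSingle 1 r), RegularWreathProduct.inl c⁆ := by
          ext <;> simp [commutatorElement_def, ι]
        rw [← e] at this
        exact this
      · simp [Pi.mulSingle_eq_of_ne (inv_ne_one.2 hc)]
    | succ j ih =>
      refine (commutator_mono ih ih).trans ?_
      rw [← map_commutator]
      refine map_mono (map_le_iff_le_comap.1 ?_)
      rw [map_commutator]
      exact commutator_mono (map_comap_le _ _) (map_comap_le _ _)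
  obtain ⟨f, hf, rfl⟩ := H j hx
  obtain ⟨n, hn⟩ := IsPGroup.iff_card.1 h1
  refine ⟨X ≀ᵣ C, _, inferInstance, σ, IsPGroup.of_card (n := n * p + 1) ?_,
    ⟨ι f, hf, fun e => h2 (LinearMap.ext fun v => ?_)⟩, fun w a b => ?_⟩
  · have : Nat.card C = p := Nat.card_zmod p
    rw [RegularWreathProduct.card, hn, this, pow_succ, pow_mul]
  · exact congrFun (LinearMap.congr_fun e fun _ => v) 1
  · simp only [hσ, h3]
    exact Fintype.sum_equiv (Equiv.mulLeft w.right⁻¹) _ _ fun _ => rfl

theorem Lw.pi_le {ι κ : Type} [Fintype ι] [Fintype κ]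
    (h : Lw.{u} F p j (ι → U) fun a b => ∑ c, B (a c) (b c))
    (hle : Fintype.card ι ≤ Fintype.card κ) :
    Lw.{u} F p j (κ → U) fun a b => ∑ c, B (a c) (b c) := by
  let e : κ ≃ ι ⊕ Fin (Fintype.card κ - Fintype.card ι) := Fintype.equivOfCardEq (by
    simp only [Fintype.card_sum, Fintype.card_fin]; omega)
  refine (h.prod fun a b : Fin (Fintype.card κ - Fintype.card ι) → U => ∑ c, B (a c) (b c)).congr
    ((LinearEquiv.sumArrowLequivProdArrow _ _ F U).symm.trans (LinearEquiv.funCongrLeft F U e))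
    fun a b => ?_
  rw [← e.symm.sum_comp, Fintype.sum_sum_type]
  simp [LinearEquiv.funCongrLeft, LinearMap.funLeft]
  rfl

theorem Lw.pow [hp : Fact p.Prime] (h : Lw.{u} F p j U B) (k : ℕ) :
    ∀ n, p ^ k ≤ n → Lw.{u} F p (j + k) (Fin n → U) fun a b => ∑ c, B (a c) (b c) := by
  induction k with
  | zero =>
    intro n hn
    refine Lw.pi_le (ι := Unit) (h.congr (LinearEquiv.funUnique Unit F U).symm fun a b => ?_)
      (by simpa using hn)
    simp
  | succ k ih =>
    intro n hn
    refine Lw.pi_le (ι := Multiplicative (ZMod p) × Fin (p ^ k))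
      ((ih _ le_rfl).wr.congr (LinearEquiv.curry F U _ _).symm fun a b => ?_)
      (by simpa [pow_succ'] using hn)
    rw [Fintype.sum_prod_type]
    rfl

theorem sylow_ne_bot {G X : Type*} [Group G] [Finite G] [Group X] [Fact p.Prime]
    (φ : X →* G) (hX : IsPGroup p X) {x : X} (hx : x ∈ dS (⊤ : Subgroup X) j) (h : φ x ≠ 1)
    (P : Sylow p G) : derivedSeries (P : Subgroup G) j ≠ ⊥ := by
  obtain ⟨Q, hQ⟩ := ((hX.to_subgroup ⊤).map φ).exists_le_sylow
  intro e
  have e' : derivedSeries (Q : Subgroup G) j = ⊥ := by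
    have := map_derivedSeries_eq (f := (P.equiv Q).toMonoidHom) (P.equiv Q).surjective j
    rw [← this, e, Subgroup.map_bot]
  rw [← dS_eq_bot] at e'
  have := dS_mono hQ j (dS_map _ φ j ▸ mem_map_of_mem φ hx)
  rw [e'] at this
  exact h this

/-- the natural representation of a matrix group -/
noncomputable def nat {G n : Type*} [Group G] [Fintype n] [DecidableEq n] (φ : G →* GL n F) :
    G →* End F (n → F) :=
  (Units.coeHom _).comp (Matrix.GeneralLinearGroup.toLin.toMonoidHom.comp φ)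

theorem nat_ker {G n : Type*} [Group G] [Fintype n] [DecidableEq n] {φ : G →* GL n F}
    (h : Function.Injective φ) : (nat φ).ker = ⊥ :=
  (MonoidHom.ker_eq_bot_iff _).2
    (Units.val_injective.comp (Matrix.GeneralLinearGroup.toLin.injective.comp h))

theorem pg_top {G : Type*} [Group G] [Finite G] [hp : Fact p.Prime] (h : IsPGroup p G) :
    PG p (⊤ : Subgroup G) := PiN.of_isPGroup hp.out (h.to_subgroup ⊤)

end H10.DL
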