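import Cfsg.Agent.H10.NPC1
import Cfsg.Agent.H24.FrobCompl
import Cfsg.Agent.S0205

/-!
Normal subgroups all of whose non-central elements have maximal centralizers.
-/

set_option autoImplicit false

namespace H10.MC
open Cfsg Subgroup H19 H18
open scoped commutatorElement

variable {G : Type*} [Group G] [Finite G] {p q r : ℕ} {K L N V W : Subgroup G} {g u v w x y z : G}

theorem exists_pe (hx : x ∉ K) : ∃ p, p.Prime ∧ ∃ u ∈ zpowers x, PiE {p} u ∧ u ∉ K := by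
  by_contra h
  push Not at h
  exact hx (le_of_syl (M := zpowers x) (K := K)
    (fun p P hp hP u hu => h p hp u (hP.le hu) (hP.pi.elt hu)) (mem_zpowers x))

theorem comm_of_central (hy : PiE {r} y) (hw : PiE {r}ᶜ w) (h : ⁅y, w⁆ ∈ center G) :
    y * w = w * y := by
  have hc := mem_center_iff.1 h
  set c := ⁅y, w⁆ with hcd
  have e1 : y * w * y⁻¹ = c * w := by rw [hcd, commutatorElement_def]; group
  have e2 : w * y * w⁻¹ = c⁻¹ * y := by rw [hcd, commutatorElement_def]; group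
  have k1 : c ^ orderOf w = 1 := by
    have : (c * w) ^ orderOf w = 1 := by rw [← e1, conj_pow, pow_orderOf_eq_one]; group
    rwa [Commute.mul_pow (hc w).symm, pow_orderOf_eq_one, mul_one] at this
  have k2 : c⁻¹ ^ orderOf y = 1 := by
    have : (c⁻¹ * y) ^ orderOf y = 1 := by rw [← e2, conj_pow, pow_orderOf_eq_one]; group
    rwa [Commute.mul_pow (Commute.inv_left (hc y).symm), pow_orderOf_eq_one, mul_one] at this
  rw [inv_pow, inv_eq_one] at k2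
  have : c = 1 := PiN.e_eq_one (π := {r}) (hy.dvd (orderOf_dvd_of_pow_eq_one k2))
    (hw.dvd (orderOf_dvd_of_pow_eq_one k1))
  rw [this, one_mul] at e1
  exact mul_inv_eq_iff_eq_mul.1 e1

structure Hyp (N : Subgroup G) : Prop where
  nor : N.Normal
  max : ∀ x ∈ N, x ∉ C(N) → IsCoatom C[x]

theorem Hyp.Znor (h : Hyp N) : (Z(N)).Normal :=
  haveI := h.nor
  inferInstance

theorem Hyp.eq_of_le (h : Hyp N) (hx : x ∈ N) (hx' : x ∉ C(N)) (hy' : y ∉ C(N))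
    (hle : C[x] ≤ C[y]) : C[y] = C[x] :=
  mmax_max (h.max x hx hx') hle fun e => hy' (le_cent1_iff.1 (e ▸ le_top))

theorem Hyp.cop (h : Hyp N) (hx : x ∈ N) (hx' : x ∉ C(N)) (hp : PiE {p} x) (hy : y ∈ N)
    (hq : PiE {p}ᶜ y) (hc : x * y = y * x) : C[x] ≤ C[y] := by
  have e := cent1_mul hp hq hc
  have h1 : x * y ∉ C(N) := fun h1 =>
    hx' (le_cent1_iff.1 ((le_cent1_iff.2 h1).trans (e ▸ inf_le_left)))
  have := h.eq_of_le (N.mul_mem hx hy) h1 hx' (e ▸ inf_le_left)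
  rw [this, e]; exact inf_le_right

theorem Hyp.sup (h : Hyp N) (hx : x ∈ N) (hx' : x ∉ C(N)) (hK : ¬ K ≤ C[x]) : K ⊔ C[x] = ⊤ :=
  (h.max x hx hx').2 _ (lt_of_le_of_ne le_sup_right fun e => hK (e ▸ le_sup_left))

theorem Hyp.dec (h : Hyp N) (hx : x ∈ N) (hx' : x ∉ C(N)) [K.Normal] (hK : ¬ K ≤ C[x]) (g : G) :
    ∃ a ∈ K, ∃ b ∈ C[x], g = a * b :=
  (mem_sup_of_norm le_normalizer_of_normal).1 (h.sup hx hx' hK ▸ mem_top g)

theorem Hyp.pcase (h : Hyp N) (hp : p.Prime)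
    (H : ∀ q, q.Prime → q ≠ p → ∀ x ∈ N, PiE {q} x → x ∈ C(N)) :
    ⁅N, N⁆ ≤ Z(N) ∧ ∀ a ∈ N, a ^ p ∈ Z(N) := by
  haveI := h.nor
  obtain ⟨P, hP⟩ := exists_syl p N
  have h1 : N ≤ P ⊔ Z(N) := le_of_exists_syl fun q hq _ => by
    by_cases e : q = p
    · exact ⟨P, e ▸ hP, le_sup_left⟩
    · obtain ⟨Q, hQ⟩ := exists_syl q N
      exact ⟨Q, hQ, le_sup_of_le_right fun x hx =>
        ⟨hQ.le hx, H q hq e x (hQ.le hx) (hQ.pi.elt hx)⟩⟩
  have hZ : Z(N) ≤ C(P) := inf_le_right.trans (cent_mono hP.le)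
  have h2 : N ≤ N(P) := h1.trans (sup_le le_normalizer (norms_of_cents hZ))
  haveI : P.Normal := by
    rw [hP.eq_Oc h2]; exact ((normalIn_top (H := N)).Oc {p}).normal
  have h3 : Phi P ≤ C(N) := cents_symm fun x hx => by
    by_cases hx' : x ∈ C(N)
    · exact cent_mono ((Phi_le P).trans hP.le) hx'
    · exact le_cent1_iff.1 ((H1.frattiniOf_le_frattini P).trans
        (H1.le_frattini_iff.1 le_rfl _ (h.max x hx hx')))
  have h4 : Phi P ≤ Z(N) := le_inf ((Phi_le P).trans hP.le) h3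
  refine ⟨(der_mono h1).trans ?_, fun a ha => ?_⟩
  · rw [der_sup_cent hZ]
    exact sup_le ((H4.der_le_Phi hP.pi).trans h4) (der_le _)
  · obtain ⟨u, hu, z, hz, rfl⟩ := (mem_sup_of_norm (norms_of_cents hZ)).1 (h1 ha)
    rw [Commute.mul_pow (mem_cent.1 (hZ hz) u hu)]
    exact mul_mem (h4 (H4.pow_mem_Phi hP.pi hu)) (pow_mem hz _)

theorem Hyp.central (h : Hyp N)
    (H : ∀ p, p.Prime → ∃ q, q.Prime ∧ q ≠ p ∧ ∃ x ∈ N, PiE {q} x ∧ x ∉ C(N)) :
    Z(N) ≤ center G := by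
  haveI := h.nor
  intro z hz
  by_contra hz'
  obtain ⟨r, hr, u, hu, hu1, hu2⟩ := exists_pe hz'
  have hu3 : u ∈ Z(N) := zpowers_le.2 hz hu
  obtain ⟨q, hq, hqr, y, hy, hy1, hy2⟩ := H r hr
  have h1 := h.cop hy hy2 hy1 hu3.1 (hu1.sing_ne hqr.symm) (mem_cent.1 hu3.2 y hy)
  have h2 := h.sup hy hy2 (K := N) fun e => hy2 (le_cent1_iff.1 e)
  have h3 : ⊤ ≤ C[u] := h2 ▸ sup_le (le_cent1_iff.2 hu3.2) h1
  exact hu2 (mem_center_iff.2 fun g => mem_cent1.1 (h3 (mem_top g)))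

theorem cent1_mul_center (hz : z ∈ center G) (x : G) : C[z * x] = C[x] := by
  ext g
  rw [mem_cent1, mem_cent1, ← mul_assoc, mem_center_iff.1 hz g, mul_assoc, mul_assoc,
    mul_right_inj]

theorem cent1_inv (x : G) : C[x⁻¹] = C[x] :=
  le_antisymm (cent1_le_cent1_of_mem_zpowers (by simp))
    (cent1_le_cent1_of_mem_zpowers (by simp))

theorem mem_norm_of_comm (h : ⁅g, x⁆ ∈ center G) : g ∈ N(C[x]) := by
  rw [mem_norm_iff_cj, cj_cent1, show g * x * g⁻¹ = ⁅g, x⁆ * x by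
    rw [commutatorElement_def]; group, cent1_mul_center h]

theorem mem_norm_of_inv (h : g * x * g⁻¹ * x ∈ center G) : g ∈ N(C[x]) := by
  rw [mem_norm_iff_cj, cj_cent1, show g * x * g⁻¹ = g * x * g⁻¹ * x * x⁻¹ by group,
    cent1_mul_center h, cent1_inv]

theorem Hyp.normal_of (h : Hyp N) (hx : x ∈ N) (hx' : x ∉ C(N)) (hg : g ∈ N(C[x]))
    (hg' : g ∉ C[x]) : (C[x]).Normal := by
  rw [← normalizer_eq_top_iff]
  exact (h.max x hx hx').2 _ (lt_of_le_of_ne le_normalizer fun e => hg' (e ▸ hg))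

theorem Hyp.exists_sol (h : Hyp N) (hZ : Z(N) ≤ center G) (hne : ¬ N ≤ C(N)) :
    ∃ B : Subgroup G, B.Normal ∧ B ≤ N ∧ ¬ B ≤ C(N) ∧ Sol B := by
  haveI := h.nor
  haveI := h.Znor
  by_cases h1 : ∃ x ∈ N, x ∉ C(N) ∧ (C[x]).Normal
  · obtain ⟨x, hx, hx', hn⟩ := h1
    refine ⟨N ⊓ C(C[x]), inferInstance, inf_le_left, fun e => hx' (e ⟨hx, ?_⟩), sol_of_ab ?_⟩
    · exact le_cent1_iff.1 le_rfl
    · exact comm_iff_le_cent.2 (cents_mono le_rfl inf_le_right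
        (inf_le_right.trans (cent_le_cent1 (mem_cent1_self x))))
  push Not at h1
  by_cases h2 : ∃ s ∈ N, s ∉ C(N) ∧ s ^ 2 ∈ C(N)
  · obtain ⟨s, hs, hs1, hs2⟩ := h2
    let S : Set G := {t | t ∈ N ∧ t ^ 2 ∈ C(N)}
    have hcomm : ∀ a ∈ S, ∀ b ∈ S, a * b = b * a := by
      intro a ha b hb
      have : a * (a * b) = (a * b) * a := by
        by_cases hab : a * b ∈ C(N)
        · exact mem_cent.1 hab a ha.1
        · by_contra hne'
          refine h1 _ (N.mul_mem ha.1 hb.1) hab (h.normal_of (g := a) (N.mul_mem ha.1 hb.1) hab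
            (mem_norm_of_inv ?_) fun e => hne' (mem_cent1.1 e))
          rw [show a * (a * b) * a⁻¹ * (a * b) = a ^ 2 * b ^ 2 by simp [pow_two, mul_assoc]]
          exact hZ (mul_mem ⟨pow_mem ha.1 _, ha.2⟩ ⟨pow_mem hb.1 _, hb.2⟩)
      rw [mul_assoc] at this
      exact mul_left_cancel this
    refine ⟨closure S, ?_, (closure_le _).2 fun t ht => ht.1,
      fun e => hs1 (e (subset_closure ⟨hs, hs2⟩)), sol_of_ab ?_⟩
    · rw [← normalizer_eq_top_iff, eq_top_iff]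
      intro g _
      refine mem_norm_of_cj_le ?_
      rw [cj_closure]
      refine closure_mono ?_
      rintro _ ⟨t, ht, rfl⟩
      refine ⟨h.nor.conj_mem _ ht.1 g, ?_⟩
      rw [conj_pow]
      exact (inferInstance : (C(N)).Normal).conj_mem _ ht.2 g
    · exact comm_iff_le_cent.2 ((closure_le _).2 fun a ha => cents_symm (H := closure S)
        (K := zpowers a) (by
          rw [cent_zpowers]
          exact (closure_le _).2 fun b hb => mem_cent1.2 (hcomm b hb a ha)) (mem_zpowers a))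
  push Not at h2
  refine ⟨N, h.nor, le_rfl, hne, sol_of_quo (K := Z(N)) le_normalizer_of_normal
    (sol_of_ab (comm_mono (comm_center N) inf_le_left)) (Cfsg.Agent.S0205.result ?_)⟩
  rw [← Nat.not_even_iff_odd, even_iff_two_dvd]
  intro h3
  obtain ⟨t, ht, ht2⟩ := exists_orderOf_eq_prime Nat.prime_two h3
  obtain ⟨s, hs, rfl⟩ := mem_im.1 ht
  refine h2 s hs (fun e => ?_) ?_
  · rw [(qmk_eq_one (K := Z(N)) (x := s)).2 (mem_inf.2 ⟨hs, e⟩), orderOf_one] at ht2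
    exact absurd ht2 (by norm_num)
  · have : qmk Z(N) (s ^ 2) = 1 := by rw [map_pow, ← ht2, pow_orderOf_eq_one]
    exact (qmk_eq_one.1 this).2

/-- a minimal normal subgroup modulo the centre -/
structure MinV (N V : Subgroup G) (p : ℕ) : Prop where
  hp : p.Prime
  nor : V.Normal
  ZV : Z(N) ≤ V
  VN : V ≤ N
  ne : ¬ V ≤ C(N)
  ab : ⁅V, V⁆ ≤ Z(N)
  pw : ∀ v ∈ V, v ^ p ∈ Z(N)
  min : ∀ W : Subgroup G, W.Normal → Z(N) ≤ W → W ≤ V → W ≤ C(N) ∨ W = V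

theorem Hyp.exists_minV (h : Hyp N) (hZ : Z(N) ≤ center G) (hne : ¬ N ≤ C(N)) :
    ∃ V p, MinV N V p := by
  haveI := h.nor
  haveI := h.Znor
  obtain ⟨B, hB, hBN, hB1, hs⟩ := h.exists_sol hZ hne
  have hn : ∀ H : Subgroup G, H ≤ N(Z(N)) := fun H => le_normalizer_of_normal
  have h1 : quo Z(N) B ≠ ⊥ := fun e => hB1 (((quo_eq_bot_iff (hn B)).1 e).trans inf_le_right)
  obtain ⟨X, hX, hm⟩ := minnormal_exists h1 (M := quo Z(N) ⊤)
    (quo_norms le_normalizer_of_normal)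
  obtain ⟨p, hp, hab⟩ := minnormal_abelem hm (sol_mono (sol_quo hs _) hX)
  have e : quo Z(N) (qpre Z(N) X) = X := quo_qpre X
  rw [← e, abelem_quo_iff (hn _)] at hab
  refine ⟨qpre Z(N) X, p, hp, ?_, le_qpre X, qpre_le inf_le_left (hX.trans (quo_mono _ hBN)),
    fun e' => hm.ne ?_, hab.1, hab.2, fun W hW hZW hWV => ?_⟩
  · rw [← normalizer_eq_top_iff, eq_top_iff]
    exact norms_qpre (hn _) hm.norm
  · rw [← e]
    exact quo_eq_bot (le_inf (qpre_le inf_le_left (hX.trans (quo_mono _ hBN))) e')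
  · rcases hm.min (quo Z(N) W) ((quo_le_iff (hn W)).2 hWV) (quo_norms le_normalizer_of_normal)
      with h2 | h2
    · exact Or.inl (((quo_eq_bot_iff (hn W)).1 h2).trans inf_le_right)
    · exact Or.inr (by rw [← h2, qpre_quo_of_le (hn W) hZW])

theorem MinV.ppart (hV : MinV N V p) (hv : v ∈ V) :
    ∃ w ∈ V, PiE {p} w ∧ ∃ z ∈ Z(N), v = z * w := by
  refine ⟨constt {p} v, constt_mem _ hv, constt_pi _ _, constt {p}ᶜ v, ?_, ?_⟩
  · have h1 := hV.pw _ (constt_mem {p}ᶜ hv)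
    have h2 := (constt_pi {p}ᶜ v).coprime_prime hV.hp
    exact zpowers_le.2 h1 (mem_zpowers_pow_iff.2 (Nat.Coprime.symm h2))
  · rw [← constt_commute, constt_mul_compl]

theorem MinV.not_le (hV : MinV N V p) (h : Hyp N) (hy : y ∈ N) (hy' : y ∉ C(N))
    (hZ : Z(N) ≤ center G) (hr : r ≠ p) (hyr : PiE {r} y) : ¬ V ≤ C[y] := by
  haveI := hV.nor
  intro hle
  have h1 : ∀ v ∈ V, v ∉ C(N) → C[v] = C[y] := by
    intro v hv hv'
    obtain ⟨w, hw, hwp, z, hz, rfl⟩ := hV.ppart hv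
    rw [cent1_mul_center (hZ hz)]
    exact h.eq_of_le hy hy' (fun e => hv' (mul_mem hz.2 e))
      (h.cop hy hy' hyr (hV.VN hw) (hwp.sing_ne hr.symm) (mem_cent1.1 (hle hw)).symm)
  obtain ⟨t, ht, ht'⟩ : ∃ t ∈ N, t ∉ C[y] := by
    by_contra e
    push Not at e
    exact hy' (le_cent1_iff.1 e)
  have ht1 : t ∉ C(N) := fun e => ht' (cent_le_cent1 hy e)
  have h2 : ¬ V ≤ C[t] := fun e => hV.ne fun v hv => by
    by_contra hv'
    exact ht' (h1 v hv hv' ▸ mem_cent1_symm.1 (e hv))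
  obtain ⟨v, hv, m, hm, e⟩ := h.dec ht ht1 h2 y
  have hm1 : m = v⁻¹ * y := by rw [e]; group
  have hmN : m ∈ N := hm1 ▸ mul_mem (inv_mem (hV.VN hv)) hy
  have hm2 : C[y] ≤ C[m] := by
    have : C[y] ≤ C[v] := by
      by_cases hv' : v ∈ C(N)
      · exact fun g _ => mem_cent1.2 (mem_center_iff.1 (hZ ⟨hV.VN hv, hv'⟩) g)
      · exact (h1 v hv hv').ge
    intro g hg
    rw [hm1, ← mem_cent1_symm]
    exact mul_mem (inv_mem (mem_cent1_symm.1 (this hg))) (mem_cent1_symm.1 hg)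
  have hm3 : m ∈ C(N) := by
    by_contra hm'
    exact ht' (h.eq_of_le hy hy' hm' hm2 ▸ mem_cent1_symm.1 hm)
  have hyV : y ∈ V := e ▸ mul_mem hv (hV.ZV ⟨hmN, hm3⟩)
  have h2 := (hyr.sing_ne hr).coprime_prime hV.hp
  exact hy' (zpowers_le.2 (hV.pw y hyV) (mem_zpowers_pow_iff.2 (Nat.Coprime.symm h2))).2

theorem MinV.inf (hV : MinV N V p) (h : Hyp N) (hy : y ∈ N) (hy' : y ∉ C(N))
    (hn : ¬ V ≤ C[y]) : V ⊓ C[y] ≤ C(N) := by
  haveI := hV.nor
  have hZ : Z(N) ≤ V ⊓ C[y] := le_inf hV.ZV (inf_le_right.trans (cent_le_cent1 hy))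
  refine (hV.min _ ?_ hZ inf_le_left).resolve_right fun e => hn (e ▸ inf_le_right)
  rw [← normalizer_eq_top_iff, eq_top_iff, ← h.sup hy hy' hn]
  exact sup_le (norms_of_der_le (hV.ab.trans hZ) inf_le_left)
    (norms_inf le_normalizer_of_normal le_normalizer)

theorem MinV.comm (hV : MinV N V p) (hZ : Z(N) ≤ center G) (hr : r ≠ p) (hu : PiE {r} u)
    (hv : v ∈ V) (hc : ⁅u, v⁆ ∈ Z(N)) : v ∈ C[u] := by
  obtain ⟨w, hw, hwp, z, hz, rfl⟩ := hV.ppart hv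
  have hz' := mem_center_iff.1 (hZ hz)
  have : ⁅u, z * w⁆ = ⁅u, w⁆ := by
    rw [commutatorElement_def, commutatorElement_def, ← mul_assoc, hz' u, mul_inv_rev]
    simp only [mul_assoc]
    rw [← hz']; group
  rw [this] at hc
  exact mul_mem (mem_cent1.2 (hz' u).symm)
    (mem_cent1.2 (comm_of_central hu (hwp.sing_ne hr.symm) (hZ hc)).symm)

theorem MinV.no_p (hV : MinV N V p) (h : Hyp N) (hy : y ∈ N) (hy' : y ∉ C(N))
    (hZ : Z(N) ≤ center G) (hr : r ≠ p) (hyr : PiE {r} y) (hu : u ∈ N) (hu1 : u ∈ C[y])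
    (hup : PiE {p} u) : u ∈ C(N) := by
  haveI := hV.nor
  haveI := h.Znor
  by_contra hu'
  have hn : ∀ H : Subgroup G, H ≤ N(Z(N)) := fun H => le_normalizer_of_normal
  have hnl := hV.not_le h hy hy' hZ hr hyr
  have hinf := hV.inf h hy hy' hnl
  have e : C[u] = C[y] := h.eq_of_le hy hy' hu'
    (h.cop hy hy' hyr hu (hup.sing_ne hr.symm) (mem_cent1.1 hu1).symm)
  have h1 : PG p (quo Z(N) V) := H19.abelem_pg hV.hp ((abelem_quo_iff (hn V)).2 ⟨hV.ab, hV.pw⟩)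
  have h2 := h1.meet_cent ((piG_zpowers.2 hup).quo Z(N)) (quo_norms le_normalizer_of_normal)
    fun e => hV.ne (((quo_eq_bot_iff (hn V)).1 e).trans inf_le_right)
  obtain ⟨t, ⟨ht1, ht2⟩, ht⟩ := exists_ne_one h2
  obtain ⟨v, hv, rfl⟩ := mem_im.1 ht1
  have h3 : ⁅(v : G), u⁆ ∈ Z(N) := by
    have := mem_cent.1 ht2 (qmk Z(N) ⟨u, hn ⊤ (mem_top u)⟩) (mem_im_of (mem_zpowers u))
    have h4 : qmk Z(N) ⁅v, ⟨u, hn ⊤ (mem_top u)⟩⁆ = 1 := by
      rw [map_commutatorElement, commutatorElement_eq_one_iff_mul_comm, this]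
    exact qmk_eq_one.1 h4
  have h5 : (v : G) ∉ C[y] := fun e' => ht (qmk_eq_one.2 ⟨hV.VN hv, hinf ⟨hv, e'⟩⟩)
  haveI := h.normal_of hy hy' (e ▸ mem_norm_of_comm (hZ h3)) h5
  refine hnl fun a ha => hV.comm hZ hr hyr ha ?_
  have h6 : ⁅y, a⁆ ∈ V ⊓ C[y] := commutator_le_inf C[y] V
    (commutator_mem_commutator (mem_cent1_self y) ha) |>.symm
  exact ⟨hV.VN h6.1, hinf h6⟩

theorem MinV.fpf (hV : MinV N V p) (h : Hyp N) (hy : y ∈ N) (hy' : y ∉ C(N))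
    (hZ : Z(N) ≤ center G) (hr : r ≠ p) (hyr : PiE {r} y) (hx : x ∈ N) (hx1 : x ∈ C[y])
    (hx' : x ∉ C(N)) (hv : v ∈ V) (hc : ⁅x, v⁆ ∈ Z(N)) : v ∈ C(N) := by
  haveI := h.Znor
  obtain ⟨s, hs, u, hu, hus, hu'⟩ := exists_pe hx'
  have huN : u ∈ N := zpowers_le.2 hx hu
  have hsp : s ≠ p := fun e => hu' (hV.no_p h hy hy' hZ hr hyr huN (zpowers_le.2 hx1 hu) (e ▸ hus))
  refine hV.inf h huN hu' (hV.not_le h huN hu' hZ hsp hus) ⟨hv, hV.comm hZ hsp hus hv ?_⟩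
  have h1 : ⁅zpowers x, zpowers v⁆ ≤ Z(N) := by
    rw [← quo_cents_iff le_normalizer_of_normal le_normalizer_of_normal,
      quo_zpowers (le_normalizer_of_normal (mem_top x)),
      quo_zpowers (le_normalizer_of_normal (mem_top v)), cent_zpowers, zpowers_le, mem_cent1,
      ← commutatorElement_eq_one_iff_mul_comm, ← map_commutatorElement]
    exact qmk_eq_one.2 hc
  exact h1 (commutator_mem_commutator hu (mem_zpowers v))

theorem MinV.dec (hV : MinV N V p) (h : Hyp N) (hy : y ∈ N) (hy' : y ∉ C(N))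
    (hn : ¬ V ≤ C[y]) : N = V ⊔ (N ⊓ C[y]) := by
  haveI := hV.nor
  rw [inf_comm, ← sup_inf_modl le_normalizer_of_normal hV.VN, h.sup hy hy' hn, top_inf_eq]

theorem MinV.between (hV : MinV N V p) (h : Hyp N) (hy : y ∈ N) (hy' : y ∉ C(N))
    (hZ : Z(N) ≤ center G) (hr : r ≠ p) (hyr : PiE {r} y) (h1 : V ≤ L) (h2 : L ≤ N)
    (h3 : N ≤ N(L)) : L = V ∨ L = N := by
  haveI := hV.nor
  haveI := h.nor
  haveI := h.Znor
  haveI : L.Normal := ⟨fun x hx g => by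
    by_cases hx' : x ∈ C(N)
    · rwa [mem_center_iff.1 (hZ ⟨h2 hx, hx'⟩) g, mul_inv_cancel_right]
    · obtain ⟨n, hn, m, hm, rfl⟩ := h.dec (h2 hx) hx' (K := N) (fun e => hx' (le_cent1_iff.1 e)) g
      rw [show n * m * x * (n * m)⁻¹ = n * (m * x) * m⁻¹ * n⁻¹ by group, mem_cent1.1 hm,
        show n * (x * m) * m⁻¹ * n⁻¹ = n * x * n⁻¹ by group]
      exact conj_mem_of_norm (h3 hn) hx⟩
  obtain ⟨v, hv, hv'⟩ : ∃ v ∈ V, v ∉ C(N) := by
    by_contra e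
    push Not at e
    exact hV.ne e
  have hle : N ⊓ C[v] ≤ V := by
    rintro n ⟨hn1, hn2⟩
    have hd := hV.dec h hy hy' (hV.not_le h hy hy' hZ hr hyr)
    obtain ⟨a, ha, b, hb, rfl⟩ := (mem_sup_of_norm le_normalizer_of_normal).1 (hd ▸ hn1)
    refine mul_mem ha (hV.ZV ⟨hb.1, ?_⟩)
    by_contra hb'
    refine hv' (hV.fpf h hy hy' hZ hr hyr hb.1 hb.2 hb' hv ?_)
    have e : ⁅b, v⁆ = ⁅a⁻¹, v⁆ := by
      have := mem_cent1.1 hn2
      rw [commutatorElement_def, commutatorElement_def,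
        show b * v * b⁻¹ * v⁻¹ = a⁻¹ * (a * b * v) * b⁻¹ * v⁻¹ by group, this]
      group
    rw [e]
    exact hV.ab (commutator_mem_commutator (inv_mem ha) hv)
  by_cases h4 : L ≤ C[v]
  · exact Or.inl (le_antisymm ((le_inf h2 h4).trans hle) h1)
  · refine Or.inr (le_antisymm h2 fun n hn => ?_)
    obtain ⟨a, ha, b, hb, rfl⟩ := h.dec (hV.VN hv) hv' h4 n
    refine mul_mem ha (h1 (hle ⟨?_, hb⟩))
    simpa using mul_mem (inv_mem (h2 ha)) hn

theorem Hyp.sol_cent (h : Hyp N) (hy : y ∈ N) (hy' : y ∉ C(N)) (hyr : PiE {r} y) :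
    Sol (N ⊓ C[y]) := by
  by_cases h1 : ∃ s, s ≠ r ∧ ∃ u ∈ N ⊓ C[y], PiE {s} u ∧ u ∉ C(N)
  · obtain ⟨s, hs, u, hu, hus, hu'⟩ := h1
    have e : C[u] = C[y] := h.eq_of_le hy hy' hu'
      (h.cop hy hy' hyr hu.1 (hus.sing_ne hs) (mem_cent1.1 hu.2).symm)
    refine sol_of_ab (comm_iff_le_cent.2 (le_of_syl fun t P _ hP w hw => ?_))
    have hw1 := hP.le hw
    refine le_cent1_iff.1 (inf_le_right.trans ?_)
    by_cases ht : t = r
    · rw [← e]
      exact h.cop hu.1 hu' hus hw1.1 ((hP.pi.elt hw).sing_ne (ht ▸ hs.symm))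
        (mem_cent1.1 (e ▸ hw1.2 : w ∈ C[u])).symm
    · exact h.cop hy hy' hyr hw1.1 ((hP.pi.elt hw).sing_ne ht) (mem_cent1.1 hw1.2).symm
  · push Not at h1
    obtain ⟨R, hR⟩ := exists_syl r (N ⊓ C[y])
    have h2 : N ⊓ C[y] ≤ R ⊔ Z(N) := le_of_exists_syl fun q hq _ => by
      by_cases e : q = r
      · exact ⟨R, e ▸ hR, le_sup_left⟩
      · obtain ⟨Q, hQ⟩ := exists_syl q (N ⊓ C[y])
        exact ⟨Q, hQ, le_sup_of_le_right fun x hx =>
          ⟨(hQ.le hx).1, h1 q e x (hQ.le hx) (hQ.pi.elt hx)⟩⟩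
    exact sol_mono (sol_sup hR.pi.sol (sol_of_ab (comm_center N))
      (norms_of_cents (inf_le_right.trans (cent_mono (hR.le.trans inf_le_left))))) h2

theorem MinV.prime (hV : MinV N V p) (h : Hyp N) (hy : y ∈ N) (hy' : y ∉ C(N))
    (hZ : Z(N) ≤ center G) (hr : r ≠ p) (hyr : PiE {r} y) : (V.relIndex N).Prime := by
  haveI := hV.nor
  haveI := h.nor
  have hn : ∀ H : Subgroup G, H ≤ N(V) := fun H => le_normalizer_of_normal
  have hnl := hV.not_le h hy hy' hZ hr hyr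
  have hd := hV.dec h hy hy' hnl
  have hne : quo V N ≠ ⊥ := fun e =>
    hy' (hV.inf h hy hy' hnl ⟨(quo_eq_bot_iff (hn N)).1 e hy, mem_cent1_self y⟩)
  have hs : Sol (quo V N) := by
    rw [hd, quo_sup_left (hn _)]; exact sol_quo (h.sol_cent hy hy' hyr) V
  have hab : ⁅N, N⁆ ≤ V := by
    rcases hV.between h hy hy' hZ hr hyr (L := V ⊔ ⁅N, N⁆) le_sup_left (sup_le hV.VN (der_le N))
      le_normalizer_of_normal with e | e
    · exact e ▸ le_sup_right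
    · refine absurd (sol_eq_bot_of_le_der hs ?_) hne
      rw [← quo_comm (hn N) (hn N), quo_le_quo_iff (hn _) (hn _), e]
  obtain ⟨s, hs, hsd⟩ := exists_prime_dvd_card hne
  obtain ⟨Y, hY, hYs⟩ := exists_card_eq_prime hs hsd
  have h1 : qpre V Y ≤ N := qpre_le hV.VN hY
  rcases hV.between h hy hy' hZ hr hyr (le_qpre Y) h1
    (norms_of_der_le (hab.trans (le_qpre Y)) h1) with e | e
  · have : Y = ⊥ := by rw [← quo_qpre Y, e, quo_self]
    exact absurd this (ne_bot_of_prime (hYs ▸ hs))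
  · rw [← card_quo (hn N), ← e, quo_qpre, hYs]; exact hs

variable {R : Type*} [Group R] [Finite R]

theorem Hyp.main (h : Hyp N) (f : N →* R) (hf : Function.Surjective f)
    (hk : ∀ x : N, f x = 1 ↔ (x : G) ∈ C(N)) :
    (∃ p : ℕ, p.Prime ∧ IsElementaryAbelian p (⊤ : Subgroup R)) ∨
    ∃ (K : Subgroup R) (p : ℕ) (y : G), p.Prime ∧ y ∈ N ∧ y ∉ C(N) ∧ K.Normal ∧
      IsElementaryAbelian p K ∧ K.IsComplement' (im f C[y]) ∧ (#(im f C[y])).Prime ∧ K ≠ ⊥ ∧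
      ∀ a ∈ im f C[y], a ≠ 1 → ∀ n ∈ K, a * n * a⁻¹ = n → n = 1 := by
  haveI := h.nor
  haveI := h.Znor
  have htop : im f N = ⊤ := by
    rw [eq_top_iff]; intro a _
    obtain ⟨x, rfl⟩ := hf a
    exact mem_im_of x.2
  have hab : ∀ (p : ℕ) (V : Subgroup G), V ≤ N → ⁅V, V⁆ ≤ Z(N) → (∀ v ∈ V, v ^ p ∈ Z(N)) →
      Abelem p (im f V) := by
    intro p V hVN h1 h2
    refine ⟨comm_iff_der.2 ?_, fun a ha => ?_⟩
    · rw [← im_comm hVN hVN, eq_bot_iff]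
      intro a ha
      obtain ⟨x, hx, rfl⟩ := mem_im.1 ha
      exact (hk x).2 (h1 hx).2
    · obtain ⟨x, hx, rfl⟩ := mem_im.1 ha
      rw [← map_pow]
      exact (hk _).2 (h2 x hx).2
  by_cases H : ∃ p, p.Prime ∧ ∀ q, q.Prime → q ≠ p → ∀ x ∈ N, PiE {q} x → x ∈ C(N)
  · obtain ⟨p, hp, H⟩ := H
    obtain ⟨h1, h2⟩ := h.pcase hp H
    exact Or.inl ⟨p, hp, htop ▸ hab p N le_rfl h1 h2⟩
  push Not at H
  have hZ := h.central H
  obtain ⟨V, p, hV⟩ := h.exists_minV hZ fun e => by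
    obtain ⟨q, _, _, x, hx, _, hx'⟩ := H 2 Nat.prime_two
    exact hx' (e hx)
  haveI := hV.nor
  obtain ⟨r, _, hr, y, hy, hyr, hy'⟩ := H p hV.hp
  have hnl := hV.not_le h hy hy' hZ hr hyr
  have hd := hV.dec h hy hy' hnl
  have hinf := hV.inf h hy hy' hnl
  have hZQ : Z(N) ≤ N ⊓ C[y] := inf_le_inf_left _ (cent_le_cent1 hy)
  have hQ : im f C[y] = im f (N ⊓ C[y]) := by rw [inf_comm, im_inf_dom]
  haveI hKn : (im f V).Normal := (htop ▸ (NormalIn.im ⟨hV.VN, le_normalizer_of_normal⟩ f)).normal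
  refine Or.inr ⟨im f V, p, y, hV.hp, hy, hy', hKn, hab p V hV.VN hV.ab hV.pw,
    H1.isComplement'_of_inf_eq_bot_of_sup_eq_top le_normalizer_of_normal ?_ ?_, ?_, fun e => hV.ne fun v hv => ?_, ?_⟩
  · rw [eq_bot_iff]
    rintro a ⟨h1, h2⟩
    obtain ⟨v, hv, rfl⟩ := mem_im.1 h1
    obtain ⟨b, hb, e⟩ := mem_im.1 h2
    have h3 : f (b⁻¹ * v) = 1 := by rw [map_mul, map_inv, e, inv_mul_cancel]
    have h4 := cent_le_cent1 hy ((hk _).1 h3)
    refine (hk v).2 (hinf ⟨hv, ?_⟩)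
    simpa using mul_mem hb h4
  · rw [hQ, ← im_sup hV.VN inf_le_left, ← hd, htop]
  · obtain ⟨e⟩ := im_equiv (f := f) (f' := qmk Z(N)) (H := N ⊓ C[y]) inf_le_left
      le_normalizer_of_normal fun x hx => by
        rw [hk, qmk_eq_one]; exact ⟨fun e => ⟨hx.1, e⟩, fun e => e.2⟩
    have h1 := hV.prime h hy hy' hZ hr hyr
    rw [hd, relIndex_sup_of_norm le_normalizer_of_normal, ← inf_relIndex_right,
      show V ⊓ (N ⊓ C[y]) = Z(N) from le_antisymm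
        (le_inf (inf_le_left.trans hV.VN) ((inf_le_inf_left _ inf_le_right).trans hinf))
        (le_inf hV.ZV hZQ)] at h1
    rw [hQ, Nat.card_congr e.toEquiv]
    rwa [← card_quo le_normalizer_of_normal] at h1
  · exact (hk ⟨v, hV.VN hv⟩).1 (mem_bot.1 (e ▸ mem_im_of hv))
  · intro a ha ha1 n hn e
    obtain ⟨b, hb, rfl⟩ := mem_im.1 ha
    obtain ⟨v, hv, rfl⟩ := mem_im.1 hn
    refine (hk v).2 (hV.fpf h hy hy' hZ hr hyr b.2 hb (fun e' => ha1 ((hk b).2 e')) hv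
      ⟨(⁅b, v⁆ : N).2, (hk ⁅b, v⁆).1 ?_⟩)
    rw [map_commutatorElement, commutatorElement_def, e, mul_inv_cancel]

end H10.MC
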