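import Cfsg.Agent.H29.Rep
import Cfsg.Agent.H19.Amb5
import Mathlib.GroupTheory.SpecificGroups.Dihedral

/-! The faithful irreducible `𝔽₂`-module of `3² : D₈`. -/

set_option autoImplicit false

namespace H10.S3wr
open Cfsg Subgroup H29.Rp DihedralGroup

/-- the four-groups of `D₈` -/
def E4 (i : ZMod 4) : Subgroup (DihedralGroup 4) where
  carrier := {x | x = 1 ∨ x = r 2 ∨ x = sr i ∨ x = sr (i + 2)}
  mul_mem' := by
    simp only [Set.mem_ofPred_eq]
    revert i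
    decide
  one_mem' := Or.inl rfl
  inv_mem' := by
    simp only [Set.mem_ofPred_eq]
    revert i
    decide

theorem mem_E4 {i : ZMod 4} {x : DihedralGroup 4} :
    x ∈ E4 i ↔ x = 1 ∨ x = r 2 ∨ x = sr i ∨ x = sr (i + 2) := Iff.rfl

theorem card_E4 (i : ZMod 4) : Nat.card (E4 i) = 4 := by
  rw [Nat.card_congr (Equiv.subtypeEquivRight fun x => mem_E4 (x := x)), Nat.card_eq_fintype_card]
  revert i
  decide

theorem eq_E4 (i : ZMod 4) {B : Subgroup (DihedralGroup 4)} (hc : Nat.card B = 4)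
    (h : ∀ b ∈ B, b ^ 2 = 1) : B = E4 i ∨ B = E4 (i + 1) := by
  have key : ∀ (i : ZMod 4) (x y : DihedralGroup 4), x ^ 2 = 1 → y ^ 2 = 1 → (x * y) ^ 2 = 1 →
      (x = 1 ∨ x = r 2 ∨ x = sr i ∨ x = sr (i + 2)) ∨
        (y = 1 ∨ y = r 2 ∨ y = sr (i + 1) ∨ y = sr (i + 1 + 2)) := by decide
  by_cases h1 : B ≤ E4 i
  · exact Or.inl (eq_of_le_of_card_ge h1 (by rw [hc, card_E4]))
  obtain ⟨x, hx, hx'⟩ := SetLike.not_le_iff_exists.1 h1
  exact Or.inr (eq_of_le_of_card_ge (fun y hy => (key i x y (h x hx) (h y hy)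
    (h _ (mul_mem hx hy))).resolve_left hx') (by rw [hc, card_E4]))

variable {S M : Type*} [Group S] [AddCommGroup M] [Module (ZMod 2) M]
  (ρ : Representation (ZMod 2) S M)

theorem add_self (u : M) : u + u = 0 := by
  rw [← two_nsmul]; exact nsmul_char (p := 2) u

theorem exists_fix (P : M → Prop) {g : S} (hg : g * g = 1) (h1 : ∀ u v, P u → P v → P (u + v))
    (h2 : ∀ u, P u → P (ρ g u)) {m : M} (hm : P m) (h0 : m ≠ 0) :
    ∃ m', P m' ∧ m' ≠ 0 ∧ ρ g m' = m' := by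
  by_cases h : ρ g m = m
  · exact ⟨m, hm, h0, h⟩
  refine ⟨m + ρ g m, h1 _ _ hm (h2 _ hm), fun e => h ?_, ?_⟩
  · rw [← add_zero (ρ g m), ← e, add_left_comm, add_self, add_zero]
  · rw [map_add, ← rho_mul, hg, rho_one, add_comm]

/-- coordinates -/
abbrev C4 := ZMod 2 × ZMod 2 × ZMod 2 × ZMod 2

theorem core [Finite S] {a b s t z : S} (ha : a ^ 3 = 1) (hab : a * b = b * a)
    (hb : t * a = b * t) (ht : t * t = 1) (hs : s * s = 1) (hz : z * z = 1) (hsa : s * a = a * s)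
    (hza : z * a = a⁻¹ * z) (hst : s * t = t * s * z) (hsz : s * z = z * s) (htz : t * z = z * t)
    (hgen : ∀ K : Subgroup S, a ∈ K → s ∈ K → t ∈ K → K = ⊤)
    (hirr : ∀ N : Submodule (ZMod 2) M, (∀ s : S, ∀ m ∈ N, ρ s m ∈ N) → N = ⊥ ∨ N = ⊤)
    (h0 : ∀ u, ρ a u = u → ρ b u = u → u = 0) {m : M} (hm : ρ a m = m) (hm0 : m ≠ 0) :
    Nat.card M = 16 ∧ Nat.card {u : M // ρ z u = u ∧ ρ t u = u} = 2 ∧
      Nat.card {u : M // ρ z u = u ∧ ρ s u = u} = 4 := by
  have hinv : ∀ {g : S} {u : M}, ρ g u = u → ρ g⁻¹ u = u := fun {g u} h => by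
    rw [← h, rho_inv_apply, h]
  obtain ⟨m1, h1, h10, h1s⟩ := exists_fix ρ (fun u => ρ a u = u) hs
    (fun u v hu hv => by rw [map_add, hu, hv]) (fun u hu => by rw [← rho_mul, ← hsa, rho_mul, hu])
    hm hm0
  obtain ⟨v, ⟨va, vs⟩, v0, vz⟩ := exists_fix ρ (fun u => ρ a u = u ∧ ρ s u = u) hz
    (fun u v hu hv => ⟨by rw [map_add, hu.1, hv.1], by rw [map_add, hu.2, hv.2]⟩)
    (fun u hu => ⟨by
      have : a * z = z * a⁻¹ := by
        rw [eq_mul_inv_iff_mul_eq, mul_assoc, hza, mul_inv_cancel_left]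
      rw [← rho_mul, this, rho_mul, hinv hu.1], by rw [← rho_mul, hsz, rho_mul, hu.2]⟩) ⟨h1, h1s⟩ h10
  have hb' : b = t * a * t := by rw [hb, mul_assoc, ht, mul_one]
  have hat : a * t = t * b := by rw [hb', ← mul_assoc, ← mul_assoc, ht, one_mul]
  have hb3 : b * (b * b) = 1 := by
    have : b = t * a * t⁻¹ := by rw [hb, mul_inv_cancel_right]
    rw [← sq, ← pow_succ', this, conj_pow, ha, mul_one, mul_inv_cancel]
  have hzb : z * b = b * b * z := by
    rw [← inv_eq_of_mul_eq_one_right hb3, hb', ← mul_assoc, ← mul_assoc, ← htz, mul_assoc t z, hza,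
      mul_inv_rev, mul_inv_rev, inv_eq_of_mul_eq_one_right ht, mul_assoc, mul_assoc, ← htz]
    simp only [mul_assoc]
  have hsb : s * b = b * b * s := by
    have hts : t * s = s * t * z := by rw [hst, mul_assoc, hz, mul_one]
    have h2 : s * a⁻¹ = a⁻¹ * s := by
      rw [mul_inv_eq_iff_eq_mul, mul_assoc, hsa, inv_mul_cancel_left]
    rw [← inv_eq_of_mul_eq_one_right hb3, hb', ← mul_assoc, ← mul_assoc, hst, mul_assoc _ z, hza,
      mul_inv_rev, mul_inv_rev, inv_eq_of_mul_eq_one_right ht, ← mul_assoc, mul_assoc t, h2]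
    simp only [mul_assoc]
    rw [← htz, ← mul_assoc s, ← hts]
  have hba : ∀ u, ρ a (ρ b u) = ρ b (ρ a u) := fun u => by rw [← rho_mul, hab, rho_mul]
  have bb : ρ b (ρ b v) = v + ρ b v := by
    have := h0 (v + ρ b v + ρ b (ρ b v)) (by simp only [map_add, hba, va]) (by
      simp only [map_add]
      rw [← rho_mul ρ b b v, ← rho_mul ρ b (b * b), hb3, rho_one]
      abel)
    rw [← add_zero (v + ρ b v), ← add_self (ρ b (ρ b v)), ← add_assoc, this, zero_add]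
  let Ψ : C4 →ₗ[ZMod 2] M :=
    { toFun := fun c => c.1 • v + c.2.1 • ρ b v + ρ t (c.2.2.1 • v + c.2.2.2 • ρ b v)
      map_add' := fun c d => by simp only [Prod.fst_add, Prod.snd_add, add_smul, map_add]; abel
      map_smul' := fun k c => by
        simp only [Prod.smul_fst, Prod.smul_snd, smul_eq_mul, mul_smul, map_add, map_smul, smul_add,
          RingHom.id_apply] }
  have hΨ : ∀ c, Ψ c = c.1 • v + c.2.1 • ρ b v + ρ t (c.2.2.1 • v + c.2.2.2 • ρ b v) :=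
    fun _ => rfl
  have f1 : ∀ x y : ZMod 2, ρ a (x • v + y • ρ b v) = x • v + y • ρ b v := fun x y => by
    simp only [map_add, map_smul, hba, va]
  have f2 : ∀ x y : ZMod 2, ρ b (x • v + y • ρ b v) = y • v + (x + y) • ρ b v := fun x y => by
    simp only [map_add, map_smul, bb, add_smul, smul_add]; abel
  have f3 : ∀ x y : ZMod 2, ρ z (x • v + y • ρ b v) = (x + y) • v + y • ρ b v := fun x y => by
    rw [map_add, map_smul, map_smul, ← rho_mul, hzb, rho_mul, rho_mul, vz, bb]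
    simp only [add_smul, smul_add]; abel
  have f4 : ∀ x y : ZMod 2, ρ s (x • v + y • ρ b v) = (x + y) • v + y • ρ b v := fun x y => by
    rw [map_add, map_smul, map_smul, ← rho_mul, hsb, rho_mul, rho_mul, vs, bb]
    simp only [add_smul, smul_add]; abel
  have y2 : ∀ x y : ZMod 2, x + y + y = x := by decide
  have ga : ∀ c, ρ a (Ψ c) = Ψ (c.1, c.2.1, c.2.2.2, c.2.2.1 + c.2.2.2) := fun c => by
    rw [hΨ, hΨ, map_add, f1, ← rho_mul, hat, rho_mul, f2]
  have gt : ∀ c, ρ t (Ψ c) = Ψ (c.2.2.1, c.2.2.2, c.1, c.2.1) := fun c => by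
    rw [hΨ, hΨ, map_add, ← rho_mul, ht, rho_one, add_comm]
  have gs : ∀ c, ρ s (Ψ c) = Ψ (c.1 + c.2.1, c.2.1, c.2.2.1, c.2.2.2) := fun c => by
    rw [hΨ, hΨ, map_add, f4, ← rho_mul, hst, rho_mul, rho_mul, f3, f4, y2]
  have gz : ∀ c, ρ z (Ψ c) = Ψ (c.1 + c.2.1, c.2.1, c.2.2.1 + c.2.2.2, c.2.2.2) := fun c => by
    rw [hΨ, hΨ, map_add, f3, ← rho_mul, ← htz, rho_mul, f3]
  have ind : ∀ x y : ZMod 2, x • v + y • ρ b v = 0 → x = 0 ∧ y = 0 := fun x y e => by
    have z2 : ∀ x : ZMod 2, x = 0 ∨ x = 1 := by decide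
    rcases z2 x with rfl | rfl <;> rcases z2 y with rfl | rfl
    · exact ⟨rfl, rfl⟩
    · exact absurd (by simpa [rho_eq_zero] using e) v0
    · exact absurd (by simpa using e) v0
    · rw [one_smul, one_smul] at e
      exact absurd (h0 v va (by rw [← zero_add (ρ b v), ← add_self v, add_assoc, e, add_zero])) v0
  have inj : Function.Injective Ψ := (injective_iff_map_eq_zero _).2 fun c e => by
    rw [hΨ] at e
    have e1 := eq_neg_of_add_eq_zero_left e
    have e2 := h0 _ (f1 c.1 c.2.1) (by rw [e1, map_neg, ← rho_mul, ← hb, rho_mul, f1])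
    rw [e2, zero_add, rho_eq_zero] at e
    exact Prod.ext (ind _ _ e2).1 (Prod.ext (ind _ _ e2).2 (Prod.ext (ind _ _ e).1 (ind _ _ e).2))
  have sur : Function.Surjective Ψ := by
    have hK := hgen (nrm ρ (LinearMap.range Ψ))
      (mem_nrm_of (by rintro _ ⟨c, rfl⟩; exact ⟨_, (ga c).symm⟩))
      (mem_nrm_of (by rintro _ ⟨c, rfl⟩; exact ⟨_, (gs c).symm⟩))
      (mem_nrm_of (by rintro _ ⟨c, rfl⟩; exact ⟨_, (gt c).symm⟩))
    refine LinearMap.range_eq_top.1 ((hirr _ fun g u hu =>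
      (mem_nrm.1 (hK ▸ mem_top g) u hu).1).resolve_left fun e => ?_)
    have : Ψ 1 ∈ LinearMap.range Ψ := ⟨1, rfl⟩
    rw [e, Submodule.mem_bot, ← map_zero Ψ] at this
    exact absurd (inj this) (by decide)
  let e := Equiv.ofBijective Ψ ⟨inj, sur⟩
  refine ⟨by rw [← Nat.card_congr e, Nat.card_eq_fintype_card]; rfl, ?_, ?_⟩
  · rw [← Nat.card_congr (e.subtypeEquiv (p := fun c : C4 =>
      (c.1 + c.2.1, c.2.1, c.2.2.1 + c.2.2.2, c.2.2.2) = c ∧ (c.2.2.1, c.2.2.2, c.1, c.2.1) = c)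
      fun c => by rw [← inj.eq_iff, ← inj.eq_iff, ← gz, ← gt]; rfl), Nat.card_eq_fintype_card]
    decide
  · rw [← Nat.card_congr (e.subtypeEquiv (p := fun c : C4 =>
      (c.1 + c.2.1, c.2.1, c.2.2.1 + c.2.2.2, c.2.2.2) = c ∧
        (c.1 + c.2.1, c.2.1, c.2.2.1, c.2.2.2) = c)
      fun c => by rw [← inj.eq_iff, ← inj.eq_iff, ← gz, ← gs]; rfl), Nat.card_eq_fintype_card]
    decide

end H10.S3wr
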