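import Cfsg.Agent.H10.SU3Inv
import Cfsg.Agent.H17.PermMod

/-!
`p`-local subgroups of `SU₃(q)`, `q` a power of the odd prime `p`, stabilize an isotropic point;
commutators in such a stabilizer are unipotent.
-/

set_option autoImplicit false

namespace H10.SU3

open H11 H12 Module

variable {F : Type*} [Field F] [Fintype F] {q : ℕ} {hF : Fintype.card F = q ^ 2}
  {V : Type*} [AddCommGroup V] [Module F V] [FiniteDimensional F V] {C : CForm (hermT hF) V}
  {G : Type*} [Group G] {ρ : G →* (V ≃ₗ[F] V)}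

namespace Rp
variable (R : Rp C ρ)
include R

theorem comm_pow {p : ℕ} [hp : Fact p.Prime] [CharP F p] (h3 : 3 ≤ p) {M : Subgroup G} {e : V}
    (he : e ≠ 0) (hN : C.B e e = 0) (hM : ∀ g ∈ M, ∃ α : F, ρ g e = α • e) {a b : G} (ha : a ∈ M)
    (hb : b ∈ M) : (a * b * a⁻¹ * b⁻¹) ^ p = 1 := by
  set E := C.perp (Submodule.span F {e}) with hE
  have hmem : ∀ x, x ∈ E ↔ C.B e x = 0 := fun x => C.mem_perp_singleton
  have hd : finrank F E = 2 := by
    have := finrank_perp_singleton R.nd he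
    rw [R.dim, ← hE] at this
    omega
  have hmul : ∀ g h v, ρ (g * h) v = ρ g (ρ h v) := fun g h v => by rw [map_mul]; rfl
  have hinv : ∀ g ∈ M, ∀ x ∈ E, ρ g x ∈ E := fun g hg x hx => by
    obtain ⟨α, hα⟩ := hM _ (inv_mem hg)
    rw [hmem, CForm.isom_B_right (R.isom g), show (ρ g).symm e = ρ g⁻¹ e by rw [map_inv]; rfl, hα,
      Bl, (hmem x).1 hx, mul_zero]
  have hlt : Submodule.span F {e} < E := by
    refine lt_of_le_of_ne ((Submodule.span_singleton_le_iff_mem _ _).2 ((hmem e).2 hN)) fun h => ?_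
    rw [← h, finrank_span_singleton he] at hd
    omega
  obtain ⟨w, hwE, hw⟩ := SetLike.exists_of_lt hlt
  have hspan : Submodule.span F {e, w} = E := by
    have hle : Submodule.span F {e, w} ≤ E := by
      rw [Submodule.span_le]
      rintro x (rfl | rfl)
      · exact (hmem _).2 hN
      · exact hwE
    refine Submodule.eq_of_le_of_finrank_le hle ?_
    have : Submodule.span F {e} < Submodule.span F {e, w} :=
      lt_of_le_of_ne (Submodule.span_mono (by simp)) fun h =>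
        hw (h ▸ Submodule.subset_span (by simp))
    have := Submodule.finrank_lt_finrank_of_lt this
    rw [finrank_span_singleton he] at this
    omega
  have hdec : ∀ x ∈ E, ∃ s t : F, x = s • e + t • w := fun x hx => by
    obtain ⟨s, t, h⟩ := Submodule.mem_span_pair.1 (hspan ▸ hx)
    exact ⟨s, t, h.symm⟩
  obtain ⟨α, hα⟩ := hM a ha
  obtain ⟨β, hβ⟩ := hM b hb
  obtain ⟨s, t, hs⟩ := hdec _ (hinv a ha w hwE)
  obtain ⟨s', t', hs'⟩ := hdec _ (hinv b hb w hwE)
  have hc : ∀ y, ρ (a * b * a⁻¹ * b⁻¹) y = ρ a (ρ b (ρ (b * a)⁻¹ y)) := fun y => by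
    rw [← hmul, ← hmul, mul_inv_rev, mul_assoc]
  have hy : ∀ y, y = ρ b (ρ a (ρ (b * a)⁻¹ y)) := fun y => by
    rw [← hmul, ← hmul, mul_inv_cancel, map_one]; rfl
  have hba := inv_mem (mul_mem hb ha)
  have h1 : ρ (a * b * a⁻¹ * b⁻¹) e = e := by
    obtain ⟨γ, hγ⟩ := hM _ hba
    rw [hc]
    conv_rhs => rw [hy e]
    simp only [hγ, map_smul, hα, hβ]
    module
  have h2 : ∀ y ∈ E, ∃ r : F, ρ (a * b * a⁻¹ * b⁻¹) y - y = r • e := fun y hy' => by
    obtain ⟨u, v, huv⟩ := hdec _ (hinv _ hba y hy')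
    refine ⟨v * (s' * α + t' * s - s * β - t * s'), ?_⟩
    rw [hc]
    nth_rewrite 2 [hy y]
    simp only [huv, map_add, map_smul, hα, hβ, hs, hs']
    module
  have h3' : ∀ y, ρ (a * b * a⁻¹ * b⁻¹) y - y ∈ E := fun y => by
    rw [hmem, map_sub]
    nth_rewrite 1 [← h1]
    rw [CForm.isom_B (R.isom _), sub_self]
  set c := a * b * a⁻¹ * b⁻¹
  let N : End F V := (ρ c : V →ₗ[F] V) - 1
  have hN3 : N ^ 3 = 0 := by
    ext y
    obtain ⟨r, hr⟩ := h2 _ (h3' y)
    show ρ c (ρ c (ρ c y - y) - (ρ c y - y)) - (ρ c (ρ c y - y) - (ρ c y - y)) = 0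
    rw [hr, map_smul, h1, sub_self]
  have : Nontrivial V := ⟨⟨e, 0, he⟩⟩
  have : CharP (End F V) p := charP_of_injective_algebraMap (algebraMap F (End F V)).injective p
  have h4 : (ρ c : End F V) ^ p = 1 := by
    have := sub_pow_char_of_commute p (Commute.one_right (ρ c : End F V))
    rw [one_pow, show (ρ c : End F V) - 1 = N from rfl, pow_eq_zero_of_le h3 hN3] at this
    exact (sub_eq_zero.1 this.symm)
  refine R.ext fun v => ?_
  rw [map_pow, map_one]
  have := congrArg (fun z : End F V => z v) h4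
  simpa [LinearEquiv.pow_apply, Module.End.pow_apply] using this

theorem exists_point {p : ℕ} [hp : Fact p.Prime] [CharP F p] {P : Subgroup G} [Finite P]
    (hP : IsPGroup p P) (h1 : P ≠ ⊥) :
    ∃ e : V, e ≠ 0 ∧ C.B e e = 0 ∧
      ∀ g ∈ Subgroup.normalizer (P : Set G), ∃ α : F, ρ g e = α • e := by
  let π : Representation F G V := (LinearEquiv.automorphismGroup.toLinearMapMonoidHom).comp ρ
  let U : Submodule F V :=
    { carrier := {v | ∀ g ∈ P, ρ g v = v}
      add_mem' := fun ha hb g hg => by rw [map_add, ha g hg, hb g hg]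
      zero_mem' := fun g _ => map_zero _
      smul_mem' := fun c x hx g hg => by rw [map_smul, hx g hg] }
  have hmul : ∀ g h v, ρ (g * h) v = ρ g (ρ h v) := fun g h v => by rw [map_mul]; rfl
  have hU : ∀ g ∈ Subgroup.normalizer (P : Set G), ∀ v ∈ U, ρ g v ∈ U := fun g hg v hv x hx => by
    have := hv _ ((Subgroup.mem_normalizer_iff''.1 hg x).1 hx)
    rw [← hmul, show x * g = g * (g⁻¹ * x * g) by group, hmul, this]
  have hU' : ∀ g ∈ Subgroup.normalizer (P : Set G), ∀ v ∈ C.perp U, ρ g v ∈ C.perp U :=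
    fun g hg v hv => C.mem_perp.2 fun x hx => by
      rw [CForm.isom_B_right (R.isom g), show (ρ g).symm x = ρ g⁻¹ x by rw [map_inv]; rfl]
      exact C.mem_perp.1 hv _ (hU _ (inv_mem hg) x hx)
  have hne : C.perp U ≠ ⊥ := fun h => by
    have h2 := R.nd.perp_perp U
    rw [h, C.perp_bot] at h2
    refine h1 (eq_bot_iff.2 fun g hg => R.ext fun v => ?_)
    have : v ∈ U := h2 ▸ Submodule.mem_top
    rw [this g hg, map_one]; rfl
  obtain ⟨e, he, he0, he'⟩ := H17.exists_fixed_vec π P hP (C.perp U)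
    (fun g hg => hU' g (Subgroup.le_normalizer hg)) hne
  have heU : e ∈ U := he'
  have hle : U ⊓ C.perp U ≤ C.perp (U ⊓ C.perp U) := fun x hx =>
    C.mem_perp.2 fun y hy => C.mem_perp.1 hx.2 y hy.1
  have h2 := R.nd.two_mul_finrank_le hle
  have h3 : 0 < finrank F ↥(U ⊓ C.perp U) :=
    Module.finrank_pos_iff_exists_ne_zero.2 ⟨⟨e, heU, he⟩, fun h => he0 (congrArg Subtype.val h)⟩
  rw [R.dim] at h2
  exact ⟨e, he0, C.mem_perp.1 he e heU, fun g hg => par_of_finrank_one (W := U ⊓ C.perp U)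
    (by omega) ⟨heU, he⟩ ⟨hU g hg e heU, hU' g hg e he⟩ he0⟩

end Rp

end H10.SU3
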