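import Cfsg.Agent.H11.SpSimple
import Cfsg.Agent.H11.Congr
import Mathlib.Tactic.DeriveFintype

/-! The centralizer `3^{1+2} : SL₂(3)` of a transvection in `PSp₄(3)`. -/

set_option autoImplicit false

namespace H10.Sp43
open Cfsg Subgroup Matrix MatrixGroups

/-- the field with three elements -/
abbrev K := ZMod 3

instance : Fact (Nat.Prime 3) := ⟨Nat.prime_three⟩

/-- the Heisenberg group over `𝔽₃` -/
@[ext] structure Hs where
  a : K
  b : K
  c : K
  deriving DecidableEq, Fintype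

instance : Group Hs where
  mul h k := ⟨h.a + k.a, h.b + k.b, h.c + k.c + (h.a * k.b - k.a * h.b)⟩
  one := ⟨0, 0, 0⟩
  inv h := ⟨-h.a, -h.b, -h.c⟩
  mul_assoc := by decide +kernel
  one_mul := by decide
  mul_one := by decide
  inv_mul_cancel := by decide

theorem mul_def (h k : Hs) :
    h * k = ⟨h.a + k.a, h.b + k.b, h.c + k.c + (h.a * k.b - k.a * h.b)⟩ := rfl
theorem inv_def (h : Hs) : h⁻¹ = ⟨-h.a, -h.b, -h.c⟩ := rfl
theorem one_def : (1 : Hs) = ⟨0, 0, 0⟩ := rfl

/-- the action of `SL₂(3)` -/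
def act (A : SL(2, K)) (h : Hs) : Hs := ⟨A 0 0 * h.a + A 0 1 * h.b, A 1 0 * h.a + A 1 1 * h.b, h.c⟩

theorem det2 (A : SL(2, K)) : A 0 0 * A 1 1 - A 0 1 * A 1 0 = 1 := by
  have := A.2
  rwa [det_fin_two] at this

theorem act_inj {A B : SL(2, K)} (h : ∀ k, act A k = act B k) : A = B := by
  have h1 := h ⟨1, 0, 0⟩
  have h2 := h ⟨0, 1, 0⟩
  simp only [act, Hs.mk.injEq, mul_one, mul_zero, add_zero, zero_add] at h1 h2
  ext i j
  fin_cases i <;> fin_cases j
  exacts [h1.1, h2.1, h1.2.1, h2.2.1]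

theorem act_mul (A B : SL(2, K)) (h : Hs) : act (A * B) h = act A (act B h) := by
  ext <;> simp [act, mul_apply, Fin.sum_univ_two] <;> ring

theorem act_one (h : Hs) : act 1 h = h := by
  ext <;> simp [act]

/-- the stabilizer of a vector -/
def mm (h : Hs) (A : SL(2, K)) : symplecticGroup (Fin 2) K :=
  ⟨fromBlocks !![1, h.a * A 1 0 - h.b * A 0 0; 0, A 0 0] !![h.c, h.a * A 1 1 - h.b * A 0 1; h.a, A 0 1]
    !![0, 0; 0, A 1 0] !![1, 0; h.b, A 1 1], by
    rw [SymplecticGroup.mem_iff', J, fromBlocks_transpose, fromBlocks_multiply, fromBlocks_multiply]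
    have := det2 A
    congr 1 <;> ext i j <;> fin_cases i <;> fin_cases j <;>
      simp [mul_apply, Fin.sum_univ_two] <;> first | ring1 | linear_combination this | linear_combination -this⟩

theorem coe_mm (h : Hs) (A : SL(2, K)) : (mm h A).1 =
    fromBlocks !![1, h.a * A 1 0 - h.b * A 0 0; 0, A 0 0]
      !![h.c, h.a * A 1 1 - h.b * A 0 1; h.a, A 0 1] !![0, 0; 0, A 1 0] !![1, 0; h.b, A 1 1] := rfl

theorem mm_mul (h k : Hs) (A B : SL(2, K)) : mm h A * mm k B = mm (h * act A k) (A * B) := by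
  apply Subtype.ext
  rw [Submonoid.coe_mul, coe_mm, coe_mm, coe_mm, fromBlocks_multiply]
  have := det2 A
  congr 1 <;> ext i j <;> fin_cases i <;> fin_cases j <;>
    simp [mul_apply, Fin.sum_univ_two, mul_def, act] <;>
    first | ring1 | linear_combination (k.a * B 1 0 - k.b * B 0 0) * this |
      linear_combination -(k.a * B 1 1 - k.b * B 0 1) * this |
      linear_combination -(k.a * B 1 0 - k.b * B 0 0) * this

theorem mm_one : mm 1 1 = 1 := by
  apply Subtype.ext
  rw [coe_mm, OneMemClass.coe_one, ← fromBlocks_one]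
  congr 1 <;> ext i j <;> fin_cases i <;> fin_cases j <;> simp [one_def]

theorem mm_center {h : Hs} {A : SL(2, K)} (e : mm h A ∈ center (symplecticGroup (Fin 2) K)) :
    h = 1 ∧ A = 1 := by
  rcases (H11.sp_mem_center_iff _).1 e with e | e
  · have := fun i j => congrFun (congrFun e i) j
    refine ⟨Hs.ext ?_ ?_ ?_, ?_⟩
    · simpa [coe_mm, one_def] using this (.inl 1) (.inr 0)
    · simpa [coe_mm, one_def] using this (.inr 1) (.inr 0)
    · simpa [coe_mm, one_def] using this (.inl 0) (.inr 0)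
    · ext i j
      fin_cases i <;> fin_cases j
      · simpa [coe_mm] using this (.inl 1) (.inl 1)
      · simpa [coe_mm] using this (.inl 1) (.inr 1)
      · simpa [coe_mm] using this (.inr 1) (.inl 1)
      · simpa [coe_mm] using this (.inr 1) (.inr 1)
  · have : (1 : K) = -1 := by simpa [coe_mm] using congrFun (congrFun e (.inl 0)) (.inl 0)
    exact absurd this (by decide)

theorem exists_mm {g : symplecticGroup (Fin 2) K} (h00 : g.1 (.inl 0) (.inl 0) = 1)
    (hc : g * mm ⟨0, 0, 1⟩ 1 = mm ⟨0, 0, 1⟩ 1 * g) : ∃ h A, g = mm h A := by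
  obtain ⟨g, hg⟩ := g
  rw [SymplecticGroup.mem_iff'] at hg
  have hc := congrArg Subtype.val hc
  simp only [Submonoid.coe_mul, coe_mm] at hc h00
  have e := fun i j => congrFun (congrFun hg i) j
  have c := fun i j => congrFun (congrFun hc i) j
  have c1 := c (.inl 0) (.inl 0)
  have c2 := c (.inl 0) (.inl 1)
  have c3 := c (.inl 0) (.inr 0)
  have c4 := c (.inl 0) (.inr 1)
  have c5 := c (.inl 1) (.inr 0)
  have c6 := c (.inr 1) (.inr 0)
  have e1 := e (.inl 1) (.inr 0)
  have e2 := e (.inr 1) (.inr 0)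
  have e3 := e (.inl 1) (.inr 1)
  simp [mul_apply, Fintype.sum_sum_type, Fin.sum_univ_two, J, h00] at c1 c2 c3 c4 c5 c6 e1 e2 e3
  refine ⟨⟨g (.inl 1) (.inr 0), g (.inr 1) (.inr 0), g (.inl 0) (.inr 0)⟩,
    ⟨!![g (.inl 1) (.inl 1), g (.inl 1) (.inr 1); g (.inr 1) (.inl 1), g (.inr 1) (.inr 1)], ?_⟩,
    Subtype.ext ?_⟩
  · rw [c2, c4] at e3
    rw [det_fin_two_of]
    linear_combination -e3
  · have c3 : g (.inr 0) (.inr 0) = 1 := by linear_combination -c3
    rw [c2, c3] at e1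
    rw [c4, c3] at e2
    refine Eq.trans ?_ (coe_mm _ _).symm
    ext (i | i) (j | j) <;> fin_cases i <;> fin_cases j <;> simp [*] <;>
      first | linear_combination -e1 | linear_combination -e2

theorem sq_00 {g : symplecticGroup (Fin 2) K} (hc : g * mm ⟨0, 0, 1⟩ 1 = mm ⟨0, 0, 1⟩ 1 * g) :
    g.1 (.inl 0) (.inl 0) * g.1 (.inl 0) (.inl 0) = 1 := by
  obtain ⟨g, hg⟩ := g
  rw [SymplecticGroup.mem_iff'] at hg
  have hc := congrArg Subtype.val hc
  simp only [Submonoid.coe_mul, coe_mm] at hc ⊢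
  have c := fun i j => congrFun (congrFun hc i) j
  have c1 := c (.inl 0) (.inl 0)
  have c3 := c (.inl 0) (.inr 0)
  have c5 := c (.inl 1) (.inr 0)
  have c6 := c (.inr 1) (.inr 0)
  have e1 := congrFun (congrFun hg (.inl 0)) (.inr 0)
  simp [mul_apply, Fintype.sum_sum_type, Fin.sum_univ_two, J] at c1 c3 c5 c6 e1
  rw [c1, c5, c6] at e1
  linear_combination g (.inl 0) (.inl 0) * c3 - e1

theorem center_sq {w : symplecticGroup (Fin 2) K} (h : w ∈ center (symplecticGroup (Fin 2) K)) :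
    w * w = 1 := by
  apply Subtype.ext
  rcases (H11.sp_mem_center_iff _).1 h with e | e <;> simp [e]

theorem mm_z3 : mm ⟨0, 0, 1⟩ 1 ^ 3 = 1 := by
  rw [pow_three, mm_mul, mm_mul, act_one, act_one, mul_one, mul_one, ← mm_one]
  rfl

theorem mem_cent {g : symplecticGroup (Fin 2) K} :
    (g : PSp 2 K) ∈ centralizer {((mm ⟨0, 0, 1⟩ 1 : symplecticGroup (Fin 2) K) : PSp 2 K)} ↔
      ∃ h A, (g : PSp 2 K) = mm h A := by
  rw [mem_centralizer_singleton_iff]
  constructor
  · intro h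
    have h1 := QuotientGroup.eq.1 ((QuotientGroup.mk_mul _ _ _).trans
      (h.trans (QuotientGroup.mk_mul _ _ _).symm))
    have h2 := center_sq h1
    have h3 := mem_center_iff.1 h1
    have ht := mm_z3
    generalize hw : (g * mm ⟨0, 0, 1⟩ 1)⁻¹ * (mm ⟨0, 0, 1⟩ 1 * g) = w at h2 h3
    have h4 : g⁻¹ * mm ⟨0, 0, 1⟩ 1 * g = mm ⟨0, 0, 1⟩ 1 * w := by rw [← hw]; group
    have h5 : w ^ 3 = 1 := by
      have := congrArg (· ^ 3) h4
      rw [← inv_inv g, inv_inv g⁻¹, conj_pow, Commute.mul_pow (h3 _), ht] at this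
      simpa using this.symm
    rw [pow_three, h2, mul_one] at h5
    rw [h5, inv_mul_eq_one] at hw
    rcases mul_self_eq_one_iff.1 (sq_00 hw) with e | e
    · obtain ⟨k, A, rfl⟩ := exists_mm e hw
      exact ⟨k, A, rfl⟩
    · let ν : symplecticGroup (Fin 2) K := ⟨-1, SymplecticGroup.neg_mem (one_mem _)⟩
      have hν : ν ∈ center (symplecticGroup (Fin 2) K) := (H11.sp_mem_center_iff _).2 (Or.inr rfl)
      obtain ⟨h, A, e⟩ := exists_mm (g := g * ν) (by simp [ν, e]) (by
        rw [mul_assoc, ← mem_center_iff.1 hν, ← mul_assoc, hw, mul_assoc])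
      exact ⟨h, A, e ▸ QuotientGroup.eq.2 (by simpa using hν)⟩
  · rintro ⟨h, A, e⟩
    rw [e, ← QuotientGroup.mk_mul, ← QuotientGroup.mk_mul, mm_mul, mm_mul, act_one, mul_one, one_mul]
    congr 2
    ext <;> simp [mul_def, act, add_comm]

theorem main {X : Type*} [Group X] (hX : Nat.card X = 648) (Φ : X →* symplecticGroup (Fin 2) K)
    (h1 : ∀ g, ∃ h A, Φ g = mm h A) (h2 : ∀ h A, ∃ g, Φ g = mm h A) (h3 : Function.Injective Φ)
    (F : Type*) [Field F] [Fintype F] (hF : Fintype.card F = 3) :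
    ∃ (c : PSp 2 F) (S : Sylow 3 (PSp 2 F)), orderOf c = 3 ∧ c ∈ (S : Subgroup (PSp 2 F)) ∧
      c ∈ centralizer ((S : Subgroup (PSp 2 F)) : Set (PSp 2 F)) ∧
      Nonempty (X ≃* centralizer ({c} : Set (PSp 2 F))) := by
  let e := H11.pspCongr 2 (FiniteField.ringEquivOfCardEq (K := K) (K' := F) (by simp [hF]))
  let Ψ : X →* PSp 2 F := e.toMonoidHom.comp ((QuotientGroup.mk' _).comp Φ)
  have hΨ : ∀ g, Ψ g = e (Φ g) := fun _ => rfl
  have i : Function.Injective Ψ := (injective_iff_map_eq_one _).2 fun g hg => by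
    obtain ⟨h, A, e1⟩ := h1 g
    rw [hΨ, map_eq_one_iff _ e.injective, QuotientGroup.eq_one_iff, e1] at hg
    obtain ⟨rfl, rfl⟩ := mm_center hg
    exact h3 (by rw [e1, mm_one, map_one])
  set c := e ((mm ⟨0, 0, 1⟩ 1 : symplecticGroup (Fin 2) K) : PSp 2 K) with hc
  have r : Ψ.range = centralizer {c} := by
    ext y
    obtain ⟨y, rfl⟩ := e.surjective y
    obtain ⟨g, rfl⟩ := QuotientGroup.mk_surjective y
    rw [mem_centralizer_singleton_iff, hc, ← map_mul, ← map_mul, e.injective.eq_iff,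
      ← mem_centralizer_singleton_iff, mem_cent]
    constructor
    · rintro ⟨x, hx⟩
      obtain ⟨h, A, e1⟩ := h1 x
      exact ⟨h, A, by rw [← e1, ← e.injective.eq_iff, ← hx, hΨ]⟩
    · rintro ⟨h, A, e1⟩
      obtain ⟨x, hx⟩ := h2 h A
      exact ⟨x, by rw [hΨ, hx, e1]⟩
  have c3 : orderOf c = 3 := orderOf_eq_prime (by
    rw [hc, ← map_pow, ← QuotientGroup.mk_pow, mm_z3, QuotientGroup.mk_one, map_one]) fun h => by
      rw [hc, map_eq_one_iff _ e.injective, QuotientGroup.eq_one_iff] at h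
      exact absurd (mm_center h).1 (by decide)
  have e2 := (MonoidHom.ofInjective i).trans (MulEquiv.subgroupCongr r)
  have hcard : Nat.card (PSp 2 F) = 25920 := by
    have := H11.card_psp (F := F) (m := 2) (by norm_num)
    rw [hF] at this
    norm_num [Finset.prod_range_succ] at this
    omega
  haveI : Finite (PSp 2 F) := Nat.finite_of_card_ne_zero (by omega)
  obtain ⟨P⟩ : Nonempty (Sylow 3 (centralizer ({c} : Set (PSp 2 F)))) := inferInstance
  have hP : Nat.card P = 3 ^ 4 := by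
    rw [P.card_eq_multiplicity, ← Nat.card_congr e2.toEquiv, hX]
    congr 1
    decide +kernel
  have hz : (⟨c, mem_centralizer_singleton_iff.2 rfl⟩ : centralizer ({c} : Set (PSp 2 F))) ∈
      (P : Subgroup _) := by
    have hn : zpowers (⟨c, mem_centralizer_singleton_iff.2 rfl⟩ : centralizer ({c} : Set (PSp 2 F)))
        ≤ center _ := zpowers_le.2 (mem_center_iff.2 fun g =>
          Subtype.ext (mem_centralizer_singleton_iff.1 g.2))
    haveI : Normal _ := ⟨fun n h g => by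
      rwa [mem_center_iff.1 (hn h) g, mul_inv_cancel_right]⟩
    exact IsPGroup.le_sylow_of_normal (IsPGroup.of_card (n := 1) (by
      rw [Nat.card_zpowers, orderOf_mk, c3, pow_one])) P (mem_zpowers _)
  refine ⟨c, Sylow.ofCard ((P : Subgroup _).map (centralizer {c}).subtype) (by
    rw [card_subtype, hP, hcard]; congr 1; decide +kernel), c3, ⟨_, hz, rfl⟩, ?_, ⟨e2⟩⟩
  rintro _ ⟨y, -, rfl⟩
  exact mem_centralizer_singleton_iff.1 y.2

end H10.Sp43
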