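import Cfsg.Agent.H10.Sp43
import Cfsg.Agent.H2.B12b
import Cfsg.Agent.H13.SL2Pres
import Cfsg.Agent.H11.SL

/-! Recognition of `3^{1+2} : SL₂(3)`. -/

set_option autoImplicit false

namespace H10.Sp43
open Cfsg Subgroup MatrixGroups H19

variable {X : Type*} [Group X]

theorem pow_val_add {x : X} (h : x ^ 3 = 1) (a b : K) : x ^ (a + b).val = x ^ a.val * x ^ b.val := by
  rw [← pow_add, ZMod.val_add, ← pow_eq_pow_mod _ h]

theorem pow_val_mul {x : X} (h : x ^ 3 = 1) (a b : K) : x ^ (a * b).val = x ^ (a.val * b.val) := by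
  rw [ZMod.val_mul, ← pow_eq_pow_mod _ h]

theorem pow_val_neg {x : X} (h : x ^ 3 = 1) (a : K) : x ^ (-a).val = (x ^ a.val)⁻¹ := by
  rw [eq_inv_iff_mul_eq_one, ← pow_val_add h, neg_add_cancel, ZMod.val_zero, pow_zero]

theorem swap_pow {x y z : X} (h : y * x = x * y * z) (hx : Commute z x) (hy : Commute z y)
    (a b : ℕ) : y ^ b * x ^ a = x ^ a * y ^ b * z ^ (a * b) := by
  have h1 : ∀ b : ℕ, y ^ b * x = x * y ^ b * z ^ b := fun b => by
    induction b with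
    | zero => simp
    | succ b ih =>
      rw [pow_succ', mul_assoc, ih, ← mul_assoc, ← mul_assoc, h, mul_assoc _ z,
        (hy.pow_right b).eq, pow_succ' z]
      simp only [mul_assoc]
  induction a with
  | zero => simp
  | succ a ih =>
    rw [pow_succ, ← mul_assoc, ih, mul_assoc _ _ x, (hx.pow_left _).eq, ← mul_assoc,
      mul_assoc _ _ x, h1, add_mul, one_mul, add_comm (a * b), pow_add]
    simp only [mul_assoc]

/-- the parametrization of a Heisenberg subgroup -/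
def eps {x y z : X} (h : y * x = x * y * z) (hx : Commute z x) (hy : Commute z y) (x3 : x ^ 3 = 1)
    (y3 : y ^ 3 = 1) (z3 : z ^ 3 = 1) : Hs →* X :=
  MonoidHom.mk' (fun k => x ^ k.a.val * y ^ k.b.val * z ^ (k.c - k.a * k.b).val) fun k l => by
    have e : k.c + l.c + (k.a * l.b - l.a * k.b) - (k.a + l.a) * (k.b + l.b) =
        l.a * k.b + (k.c - k.a * k.b) + (l.c - l.a * l.b) := by
      linear_combination (-(l.a * k.b)) * (by decide : (3 : K) = 0)
    simp only [mul_def]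
    rw [e, pow_val_add x3, pow_val_add y3, pow_val_add z3, pow_val_add z3, pow_val_mul z3]
    have c1 := ((hx.pow_pow (k.c - k.a * k.b).val l.a.val).mul_right
      (hy.pow_pow (k.c - k.a * k.b).val l.b.val)).eq
    have c2 := (hy.pow_pow (l.a.val * k.b.val) l.b.val).eq
    have c3 := swap_pow h hx hy l.a.val k.b.val
    generalize z ^ (k.c - k.a * k.b).val = u at *
    generalize z ^ (l.a.val * k.b.val) = w at *
    calc _ = x ^ k.a.val * (x ^ l.a.val * y ^ k.b.val * (y ^ l.b.val * w) * u) * _ := by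
          simp only [mul_assoc]; rfl
      _ = _ := by
          rw [← c2, ← mul_assoc _ w, ← c3, mul_assoc (y ^ k.b.val), mul_assoc (y ^ k.b.val), ← c1]
          simp only [mul_assoc]

theorem eq_top_of_sq (π : X →* SL(2, K)) (hπ : Function.Surjective π) {N : Subgroup X}
    (h1 : π.ker ≤ N) (h2 : ∀ g, g * g ∈ N) : N = ⊤ := by
  have h3 : ∀ A, A * A ∈ N.map π := fun A => by
    obtain ⟨g, rfl⟩ := hπ A
    exact ⟨_, h2 g, map_mul _ _ _⟩
  have hx : ∀ t, H13.SL2.x t ∈ N.map π := fun t => by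
    have := h3 (H13.SL2.x (-t))
    rwa [← H13.SL2.x_add, (by decide : ∀ t : K, -t + -t = t)] at this
  have hy : ∀ t, H13.SL2.y t ∈ N.map π := fun t => by
    have := h3 (H13.SL2.y (-t))
    rwa [← H13.SL2.y_add, (by decide : ∀ t : K, -t + -t = t)] at this
  rw [← comap_map_eq_self h1, eq_top_iff]
  exact fun g _ => H13.SL2.induction (p := (· ∈ N.map π)) hx
    (mul_mem (mul_mem (hx _) (hy _)) (hx _)) (fun _ _ => mul_mem) _

theorem hs_gen (p q k : Hs) (hp : p.c = 0) (hq : q.c = 0) (h : p.a * q.b - q.a * p.b = 1) :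
    p ^ k.a.val * q ^ k.b.val * (⟨0, 0, 1⟩ : Hs) ^ (k.c - k.a * k.b).val =
      ⟨p.a * k.a + q.a * k.b, p.b * k.a + q.b * k.b, k.c⟩ := by
  obtain ⟨a, b, c⟩ := p
  obtain ⟨a', b', c'⟩ := q
  simp only at hp hq h
  subst hp hq
  revert a b a' b' k
  decide +kernel

structure St (π : X →* SL(2, K)) (i : X) (ε : Hs →* X) : Prop where
  inj : Function.Injective ε
  range : ε.range = π.ker
  inv : ∀ k, i * ε k * i⁻¹ = ε ⟨-k.a, -k.b, k.c⟩
  cen : ∀ g, g * ε ⟨0, 0, 1⟩ = ε ⟨0, 0, 1⟩ * g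
  dec : ∀ g, ∃ k, ∃ c ∈ C[i], g = ε k * c
  pi : π i = -1

theorem St.exists_act {π : X →* SL(2, K)} {i : X} {ε : Hs →* X} (h : St π i ε) {g : X} (hg : g ∈ C[i]) :
    ∃ A, ∀ k, g * ε k * g⁻¹ = ε (act A k) := by
  have h1 : ∀ k, ∃ p, ε p = g * ε k * g⁻¹ := fun k =>
    (h.range.symm ▸ π.normal_ker.conj_mem _ (h.range ▸ ⟨k, rfl⟩) g : _ ∈ ε.range)
  have h2 : ∀ k p : Hs, k.c = 0 → ε p = g * ε k * g⁻¹ → p.c = 0 := fun k p hk e => by
    have : ε ⟨-p.a, -p.b, p.c⟩ = ε p⁻¹ := by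
      rw [← h.inv, map_inv, e, conj_inv, ← map_inv, inv_def, hk, neg_zero, ← hk, ← h.inv,
        ← mul_assoc, ← mul_assoc, ← mul_assoc, ← mul_assoc, mem_centralizer_singleton_iff.1 hg,
        mul_assoc _ g⁻¹, mul_assoc _ i⁻¹, ← mul_inv_rev, ← mul_inv_rev,
        mem_centralizer_singleton_iff.1 hg]
    have := congrArg Hs.c (h.inj this)
    revert this
    simp only [inv_def]
    generalize p.c = c
    revert c
    decide
  obtain ⟨p, hp⟩ := h1 ⟨1, 0, 0⟩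
  obtain ⟨q, hq⟩ := h1 ⟨0, 1, 0⟩
  have hz : g * ε ⟨0, 0, 1⟩ * g⁻¹ = ε ⟨0, 0, 1⟩ := by rw [h.cen, mul_inv_cancel_right]
  have h3 : q * p = p * q * ⟨0, 0, 1⟩ := h.inj (by
    rw [map_mul, map_mul, map_mul, hp, hq, ← hz, conj_mul, conj_mul, conj_mul, ← map_mul,
      ← map_mul, ← map_mul]
    rfl)
  have h4 : p.a * q.b - q.a * p.b = 1 := by
    have := congrArg Hs.c h3
    simp only [mul_def] at this
    linear_combination this + (p.a * q.b - q.a * p.b) * (by decide : (3 : K) = 0)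
  refine ⟨⟨!![p.a, q.a; p.b, q.b], by rw [Matrix.det_fin_two_of, h4]⟩, fun k => ?_⟩
  have h5 := hs_gen p q k (h2 _ _ rfl hp) (h2 _ _ rfl hq) h4
  have h6 := hs_gen ⟨1, 0, 0⟩ ⟨0, 1, 0⟩ k rfl rfl rfl
  simp only [one_mul, zero_mul, add_zero, zero_add] at h6
  refine Eq.trans ?_ (congrArg ε h5)
  conv_lhs => rw [show k = ⟨k.a, k.b, k.c⟩ from rfl, ← h6]
  simp only [map_mul, map_pow, hp, hq, conj_pow]
  conv_rhs => rw [← hz, conj_pow, conj_mul, conj_mul]

theorem St.inf {π : X →* SL(2, K)} {i : X} {ε : Hs →* X} (h : St π i ε) :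
    π.ker ⊓ C[i] = zpowers (ε ⟨0, 0, 1⟩) := by
  refine le_antisymm ?_ (zpowers_le.2 ⟨h.range ▸ ⟨_, rfl⟩,
    mem_centralizer_singleton_iff.2 (h.cen i).symm⟩)
  rw [← h.range]
  rintro _ ⟨⟨k, rfl⟩, hk⟩
  have := h.inv k
  rw [← mem_centralizer_singleton_iff.1 hk, mul_inv_cancel_right] at this
  have h2 : ∀ k : Hs, k = ⟨-k.a, -k.b, k.c⟩ → k = ⟨0, 0, 1⟩ ^ k.c.val := by decide
  rw [h2 k (h.inj this), map_pow]
  exact pow_mem (mem_zpowers _) _

theorem card_sl : Nat.card SL(2, K) = 24 := by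
  rw [H11.card_sl_two]; rfl

theorem card_hs : Nat.card Hs = 27 := by
  rw [Nat.card_eq_fintype_card]; rfl

variable [Finite X]

theorem exists_st (π : X →* SL(2, K)) (hπ : Function.Surjective π)
    (hR : IsExtraspecial 3 π.ker) (hc : #π.ker = 27) (h3 : ∀ r ∈ π.ker, r ^ 3 = 1)
    (hO : pCore 2 X = ⊥) : ∃ i ε, St π i ε := by
  set R := π.ker with hRd
  set Z := (center R).map R.subtype with hZd
  have ZR : Z ≤ R := map_subtype_le _
  have cZ : #Z = 3 := by rw [hZd, card_subtype, hR.2]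
  have mZ : ∀ r ∈ R, (∀ s ∈ R, s * r = r * s) → r ∈ Z := fun r hr h =>
    ⟨⟨r, hr⟩, mem_center_iff.2 fun s => Subtype.ext (h s s.2), rfl⟩
  have cm : ∀ r ∈ R, ∀ s ∈ R, r * s * r⁻¹ * s⁻¹ ∈ Z := fun r hr s hs =>
    ⟨_, hR.1.2.2.le (commutator_mem_commutator (mem_top (⟨r, hr⟩ : R)) (mem_top ⟨s, hs⟩)), rfl⟩
  have sq1 : ∀ a ∈ R, a⁻¹ = a → a = 1 := fun a ha h => by
    rw [← h3 a ha, pow_succ, sq, mul_eq_one_iff_inv_eq.2 h, one_mul]
  have Zc : ∀ w ∈ Z, ∀ g, g * w = w * g := by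
    have : C(Z) = ⊤ := eq_top_of_sq π hπ (by
      rintro r hr _ ⟨w, hw, rfl⟩
      exact (congrArg Subtype.val (mem_center_iff.1 hw ⟨r, hr⟩)).symm) fun g w hw => by
        haveI := isCyclic_of_prime_card cZ
        have h1 := pow_card_eq_one' (x := (MulAut.conjNormal g : MulAut Z))
        rw [IsCyclic.card_mulAut, cZ, show Nat.totient 3 = 2 from rfl, ← map_pow, sq] at h1
        have := congrArg (fun f : MulAut Z => (f ⟨w, hw⟩ : X)) h1
        simp only [MulAut.conjNormal_apply, MulAut.one_apply] at this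
        exact (mul_inv_eq_iff_eq_mul.1 this).symm
    exact fun w hw g => ((this ▸ mem_top g : g ∈ C(Z)) w hw).symm
  obtain ⟨i, ii, πi⟩ : ∃ i : X, i * i = 1 ∧ π i = -1 := by
    obtain ⟨g, hg⟩ := hπ (-1)
    refine ⟨g ^ 3, ?_, by rw [map_pow, hg]; decide⟩
    rw [← Commute.mul_pow rfl, h3 _ (by rw [hRd, MonoidHom.mem_ker, map_mul, hg]; decide)]
  have i1 : i⁻¹ = i := inv_eq_of_mul_eq_one_right ii
  have dec : ∀ g, ∃ r ∈ R, r⁻¹ * g ∈ C[i] := fun g => by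
    have hs : i * (g * i * g⁻¹) ∈ R := by
      rw [hRd, MonoidHom.mem_ker]; simp [πi]
    refine ⟨_, hs, mem_centralizer_singleton_iff.2 ?_⟩
    have h1 := h3 _ hs
    have h2 : (g * i * g⁻¹) * (g * i * g⁻¹) = 1 := by rw [conj_mul, ii, mul_one, mul_inv_cancel]
    obtain ⟨t, ht⟩ : ∃ t, g * i * g⁻¹ = t := ⟨_, rfl⟩
    have h4 : g * i = t * g := by rw [← ht]; group
    rw [ht] at h1 h2 ⊢
    have t1 := inv_eq_of_mul_eq_one_right h2
    have h5 : t * (i * t) = i * (t * i) := by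
      rw [← mul_inv_eq_one, mul_inv_rev, mul_inv_rev, i1, t1, ← inv_eq_one, ← h1]
      simp only [mul_inv_rev, i1, t1, pow_three, mul_assoc]
    rw [mul_assoc, h4, mul_inv_rev, i1, t1]
    calc _ = t * (i * t) * g := by group
      _ = _ := by rw [h5]; group
  obtain ⟨x, hx, xZ, ix⟩ : ∃ x ∈ R, x ∉ Z ∧ i * x * i⁻¹ = x⁻¹ := by
    by_cases h : ∀ r ∈ R, r * i = i * r
    · have hi : zpowers i ≤ center X := zpowers_le.2 (mem_center_iff.2 fun g => by
        obtain ⟨r, hr, hg⟩ := dec g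
        rw [← mul_inv_cancel_left r g, mul_assoc r, mem_centralizer_singleton_iff.1 hg,
          ← mul_assoc, h r hr, mul_assoc])
      have := H1.le_pCore (p := 2) (N := zpowers i) ⟨fun n h g => by
        rwa [mem_center_iff.1 (hi h) g, mul_inv_cancel_right]⟩ (by
          rintro ⟨_, k, rfl⟩
          refine ⟨1, Subtype.ext ?_⟩
          rw [pow_one, coe_pow, ← zpow_natCast, ← zpow_mul, mul_comm, zpow_mul, zpow_natCast, sq, ii,
            one_zpow, coe_one])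
      rw [hO, le_bot_iff, zpowers_eq_bot] at this
      rw [this, map_one] at πi
      exact absurd πi (by decide)
    push Not at h
    obtain ⟨r, hr, h⟩ := h
    have h1 : r⁻¹ * (i * r * i⁻¹) ∈ R := mul_mem (inv_mem hr) (π.normal_ker.conj_mem _ hr i)
    have h2 : i * (r⁻¹ * (i * r * i⁻¹)) * i⁻¹ = (r⁻¹ * (i * r * i⁻¹))⁻¹ := by
      calc _ = i * r⁻¹ * (i * r * (i * i)⁻¹) := by group
        _ = _ := by rw [ii, mul_inv_rev, mul_inv_rev, mul_inv_rev, i1, i1]; group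
    refine ⟨_, h1, fun hZ => h ?_, h2⟩
    rw [Zc _ hZ, mul_inv_cancel_right] at h2
    rw [← mul_inv_eq_iff_eq_mul, mul_inv_eq_iff_eq_mul, eq_comm, ← mul_inv_eq_iff_eq_mul, eq_comm,
      ← inv_mul_eq_one]
    exact sq1 _ h1 h2.symm
  obtain ⟨j, hj, πj⟩ : ∃ j ∈ C[i], i * (j * j) ∈ R := by
    obtain ⟨g, hg⟩ := hπ ⟨!![0, 1; -1, 0], by decide⟩
    obtain ⟨r, hr, h⟩ := dec g
    refine ⟨_, h, ?_⟩
    rw [hRd, MonoidHom.mem_ker] at hr ⊢
    rw [map_mul, map_mul, map_mul, map_inv, hr, hg, πi]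
    decide
  have hy := π.normal_ker.conj_mem _ hx j
  have iy : i * (j * x * j⁻¹) * i⁻¹ = (j * x * j⁻¹)⁻¹ := by
    rw [conj_inv, ← ix]
    calc _ = (i * j) * x * (i * j)⁻¹ := by group
      _ = _ := by rw [← mem_centralizer_singleton_iff.1 hj]; group
  have x1 : x ≠ 1 := fun e => xZ (e ▸ one_mem _)
  have eZ : El 3 1 Z R := el1_mk Nat.prime_three ZR cZ
  have ex := el1_zpowers' Nat.prime_three hx (h3 x hx) x1
  have xy : x * (j * x * j⁻¹) ≠ j * x * j⁻¹ * x := fun e => by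
    have e2 := eZ.sup ex (fun w hw g _ => Zc w hw g) (by rwa [zpowers_le])
    have y1 : j * x * j⁻¹ ≠ 1 := by simpa using x1
    by_cases h : j * x * j⁻¹ ∈ Z ⊔ zpowers x
    · obtain ⟨w, hw, _, ⟨k, rfl⟩, e3⟩ := mem_sup_of_normal_left.1 h
      simp only at e3
      have w1 : w = 1 := sq1 w (ZR hw) (by
        rw [← e3, ← conj_mul, ← conj_zpow, ix, Zc w hw, mul_inv_cancel_right, ← Zc w hw (x ^ k),
          mul_inv_rev, inv_zpow, mul_left_inj] at iy
        exact iy.symm)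
      rw [w1, one_mul] at e3
      have h1 := cm _ πj x hx
      have h2 : i * (j * j) * x * (i * (j * j))⁻¹ * x⁻¹ = (x ^ (k * k + 1))⁻¹ := by
        have : x ^ (k * k) = j * (j * x * j⁻¹) * j⁻¹ := by rw [zpow_mul, e3, conj_zpow, e3]
        rw [add_comm, zpow_add, zpow_one, mul_inv_rev x, mul_left_inj, ← inv_zpow, ← ix, conj_zpow,
          this]
        group
      rw [h2, inv_mem_iff] at h1
      have h4 : IsCoprime (k * k + 1) 3 := by
        refine ((Int.prime_three.irreducible.coprime_iff_not_dvd).2 fun h => ?_).symm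
        exact (by decide : ∀ x : ZMod 3, x * x + 1 ≠ 0) k
          (by simpa using (ZMod.intCast_zmod_eq_zero_iff_dvd _ 3).2 h)
      obtain ⟨a, b, hab⟩ := h4
      refine xZ ?_
      rw [← zpow_one x, ← hab, zpow_add, mul_comm b, zpow_mul x 3, zpow_ofNat, h3 x hx, one_zpow,
        mul_one, mul_comm, zpow_mul]
      exact zpow_mem h1 _
    · have e3 := e2.sup (el1_zpowers' Nat.prime_three hy (h3 _ hy) y1) (sup_le
        (fun w hw g _ => Zc w hw g) (by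
          rw [zpowers_le]
          rintro _ ⟨k, rfl⟩
          exact ((show Commute x _ from e).zpow_right k).eq.symm)) (by rwa [zpowers_le])
      have e4 := eq_of_le_of_card_ge e3.le (by rw [hc, e3.card]; rfl)
      exact xZ (mZ x hx fun s hs => e3.le_cent (mem_sup_left (mem_sup_right (mem_zpowers x))) s
        (e4 ▸ hs))
  generalize j * x * j⁻¹ = y at hy iy xy
  have hz : (x * y)⁻¹ * (y * x) ∈ Z := by
    simpa [mul_assoc] using cm _ (inv_mem hy) _ (inv_mem hx)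
  have z1 : (x * y)⁻¹ * (y * x) ≠ 1 := mt inv_mul_eq_one.1 xy
  have e : y * x = x * y * ((x * y)⁻¹ * (y * x)) := (mul_inv_cancel_left _ _).symm
  generalize (x * y)⁻¹ * (y * x) = z at hz z1 e
  let ε := eps e (Zc z hz x).symm (Zc z hz y).symm (h3 x hx) (h3 y hy) (h3 z (ZR hz))
  have hε : ∀ k, ε k = x ^ k.a.val * y ^ k.b.val * z ^ (k.c - k.a * k.b).val := fun _ => rfl
  have εz : ε ⟨0, 0, 1⟩ = z := by rw [hε]; simp [ZMod.val_one]
  have inj : Function.Injective ε := (injective_iff_map_eq_one _).2 fun k hk => by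
    by_contra h
    have : ∀ k : Hs, k ≠ 1 → ∃ l, l * k * l⁻¹ * k⁻¹ = ⟨0, 0, 1⟩ ∨ k = ⟨0, 0, 1⟩ ∨
      k * k = ⟨0, 0, 1⟩ := by decide +kernel
    obtain ⟨l, h | h | h⟩ := this k h <;> exact z1 (by rw [← εz, ← h]; simp [hk])
  have rng : ε.range = R := eq_of_le_of_card_ge (by
    rintro _ ⟨k, rfl⟩
    exact mul_mem (mul_mem (pow_mem hx _) (pow_mem hy _)) (pow_mem (ZR hz) _)) (by
      rw [hc, ← card_hs, Nat.card_congr (MonoidHom.ofInjective inj).toEquiv])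
  refine ⟨i, ε, inj, rng, fun k => ?_, fun g => εz ▸ Zc z hz g, fun g => ?_, πi⟩
  · rw [hε, hε, ← conj_mul, ← conj_mul, ← conj_pow, ← conj_pow, ← conj_pow, ix, iy, Zc z hz,
      mul_inv_cancel_right, pow_val_neg (h3 x hx), pow_val_neg (h3 y hy), inv_pow, inv_pow,
      neg_mul_neg]
  · obtain ⟨r, hr, h⟩ := dec g
    obtain ⟨k, rfl⟩ := rng.symm ▸ hr
    exact ⟨k, _, h, (mul_inv_cancel_left _ _).symm⟩

theorem St.exists_u {π : X →* SL(2, K)} {i : X} {ε : Hs →* X} (h : St π i ε) {E : Subgroup X}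
    (hE : El 3 3 E ⊤) : ∃ u ∈ C[i], u ∉ π.ker ∧ u ^ 3 = 1 := by
  have cR : #π.ker = 27 := by
    rw [← h.range, ← card_hs, Nat.card_congr (MonoidHom.ofInjective h.inj).toEquiv]
  obtain ⟨u, hu, uR⟩ : ∃ u ∈ E, u ∉ π.ker := by
    by_contra hn
    push Not at hn
    have e : E = ε.range := (eq_of_le_of_card_ge hn (by rw [cR, hE.card]; rfl)).trans h.range.symm
    have := hE.le_cent (e.ge ⟨⟨1, 0, 0⟩, rfl⟩) _ (e.ge ⟨⟨0, 1, 0⟩, rfl⟩)
    rw [← map_mul, ← map_mul] at this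
    exact absurd (h.inj this) (by decide)
  obtain ⟨d, ⟨hd, hdE⟩, dZ⟩ : ∃ d ∈ π.ker ⊓ E, d ∉ zpowers (ε ⟨0, 0, 1⟩) := by
    refine SetLike.not_le_iff_exists.1 fun hle => ?_
    have h1 := card_le_of_le hle
    rw [Nat.card_zpowers, orderOf_injective ε h.inj,
      orderOf_eq_prime (p := 3) (by decide) (by decide)] at h1
    have h2 := H1.card_map_mul_card_inf_ker π E
    have h3 : #(E.map π) ∣ 3 := by
      have := Nat.dvd_gcd (card_subgroup_dvd_card (E.map π)) (Dvd.intro _ h2)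
      rwa [card_sl, hE.card] at this
    have := Nat.mul_le_mul (Nat.le_of_dvd three_pos h3) h1
    rw [h2, hE.card] at this
    omega
  obtain ⟨k, c, hc, rfl⟩ := h.dec u
  obtain ⟨l, rfl⟩ := h.range.symm ▸ hd
  obtain ⟨A, hA⟩ := h.exists_act hc
  refine ⟨c, hc, fun e => uR (mul_mem (h.range ▸ ⟨k, rfl⟩) e), ?_⟩
  have h1 : k * act A l = l * k := h.inj (by
    rw [map_mul, map_mul, ← hA, ← mul_assoc, ← mul_assoc, ← hE.le_cent hu _ hdE]; group)
  have h2 : l.a ≠ 0 ∨ l.b ≠ 0 := by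
    by_contra hn
    have : ∀ k : Hs, ¬ (k.a ≠ 0 ∨ k.b ≠ 0) → k = ⟨0, 0, 1⟩ ^ k.c.val := by decide
    exact dZ (by rw [this l hn, map_pow]; exact pow_mem (mem_zpowers _) _)
  have h3 : act A k = k := by
    have e1 := congrArg Hs.a h1
    have e2 := congrArg Hs.b h1
    have e3 := congrArg Hs.c h1
    simp only [mul_def, act] at e1 e2 e3
    have e4 : k.a * l.b = l.a * k.b := by
      linear_combination -e3 + k.a * e2 - k.b * e1 +
        (k.a * l.b - l.a * k.b) * (by decide : (3 : K) = 0)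
    rcases h2 with h2 | h2 <;> ext <;> simp only [act] <;> apply mul_left_cancel₀ h2
    · linear_combination k.a * e1 - A 0 1 * e4
    · linear_combination k.a * e2 - (A 1 1 - 1) * e4
    · linear_combination k.b * e1 + (A 0 0 - 1) * e4
    · linear_combination k.b * e2 + A 1 0 * e4
  have h4 := hA k
  rw [h3, mul_inv_eq_iff_eq_mul] at h4
  have h5 := hE.ab.2 _ hu
  rwa [Commute.mul_pow h4.symm, ← map_pow, (by decide : ∀ k : Hs, k ^ 3 = 1), map_one, one_mul] at h5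

theorem St.exists_L {π : X →* SL(2, K)} (hπ : Function.Surjective π) {i : X} {ε : Hs →* X}
    (h : St π i ε) {E : Subgroup X} (hE : El 3 3 E ⊤) :
    ∃ L ≤ C[i], #L = 24 ∧ π.ker ⊓ L = ⊥ ∧ ∀ g, ∃ k, ∃ l ∈ L, g = ε k * l := by
  obtain ⟨u, hu, uR, u3⟩ := h.exists_u hE
  have hi := h.inf
  have z3 : orderOf (ε ⟨0, 0, 1⟩) = 3 := by
    rw [orderOf_injective ε h.inj, orderOf_eq_prime (p := 3) (by decide) (by decide)]
  have eZ : El 3 1 (zpowers (ε ⟨0, 0, 1⟩)) C[i] :=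
    el1_zpowers Nat.prime_three (hi.ge (mem_zpowers _)).2 z3
  have eu := el1_zpowers' Nat.prime_three hu u3 (fun e => uR (e ▸ one_mem _))
  have hc : ∀ Y : Subgroup X, Y ≤ C(zpowers (ε ⟨0, 0, 1⟩)) := fun Y g _ => by
    rintro _ ⟨k, rfl⟩
    exact ((show Commute g _ from h.cen g).zpow_right k).eq.symm
  have ne : zpowers (ε ⟨0, 0, 1⟩) ≠ zpowers u := fun e => uR (hi.ge (e ▸ mem_zpowers u)).1
  have e2 := eZ.sup2 eu (le_centralizer_iff.1 (hc _)) ne
  have cC : #C[i] = 72 := by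
    have h1 : C[i].map π = ⊤ := eq_top_iff.2 fun A _ => by
      obtain ⟨g, rfl⟩ := hπ A
      obtain ⟨k, c, hc, rfl⟩ := h.dec g
      exact ⟨c, hc, by rw [map_mul, (h.range ▸ ⟨k, rfl⟩ : ε k ∈ π.ker), one_mul]⟩
    rw [← H1.card_map_mul_card_inf_ker π, h1, hi, eZ.card, card_top, card_sl]; rfl
  obtain ⟨L, hL⟩ := H2.BG.gaschutz_amb ⟨eZ.le, (hc _).trans (centralizer_le_normalizer _)⟩ eZ.comm
    e2.le (by
      have := H1.relIndex_mul_card e2.le
      rw [e2.card, cC] at this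
      rw [eZ.card, show relIndex _ C[i] = 8 by omega]
      norm_num) (sdprod_sup ((hc _).trans (centralizer_le_normalizer _)) (eZ.inf_eq_bot eu ne))
  refine ⟨L, hL.right_le, ?_, ?_, fun g => ?_⟩
  · have := hL.card
    rw [eZ.card, cC] at this
    omega
  · rw [← hL.inf, ← hi, inf_assoc, inf_of_le_right hL.right_le]
  · obtain ⟨k, c, hc, rfl⟩ := h.dec g
    obtain ⟨a, ha, l, hl, rfl⟩ := hL.mem hc
    obtain ⟨k', rfl⟩ := h.range.symm ▸ (hi.ge ha).1
    exact ⟨k * k', l, hl, by rw [map_mul, mul_assoc]⟩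

theorem exists_phi (π : X →* SL(2, K)) (hπ : Function.Surjective π)
    (hR : IsExtraspecial 3 π.ker) (hc : #π.ker = 27) (h3 : ∀ r ∈ π.ker, r ^ 3 = 1)
    (hO : pCore 2 X = ⊥) {E : Subgroup X} (hE : El 3 3 E ⊤) :
    ∃ Φ : X →* Matrix.symplecticGroup (Fin 2) K, (∀ g, ∃ h A, Φ g = mm h A) ∧
      (∀ h A, ∃ g, Φ g = mm h A) ∧ Function.Injective Φ := by
  obtain ⟨i, ε, h⟩ := exists_st π hπ hR hc h3 hO
  obtain ⟨L, hL, cL, hi, hd⟩ := h.exists_L hπ hE
  choose A hA using fun l : L => h.exists_act (hL l.2)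
  let α : L →* SL(2, K) := MonoidHom.mk' A fun l m => act_inj fun k => h.inj (by
    rw [act_mul, ← hA, ← hA, ← hA, coe_mul]; group)
  have hα : ∀ (l : L) k, l * ε k * (l : X)⁻¹ = ε (act (α l) k) := hA
  have uq : ∀ k k' (l l' : L), ε k * l = ε k' * l' → k = k' ∧ l = l' := fun k k' l l' e => by
    have e1 : ε (k'⁻¹ * k) = l' * (l : X)⁻¹ := by
      rw [map_mul, map_inv, inv_mul_eq_iff_eq_mul, ← mul_assoc, ← e, mul_inv_cancel_right]
    have e2 : ε (k'⁻¹ * k) = 1 := mem_bot.1 (hi ▸ ⟨h.range ▸ ⟨_, rfl⟩,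
      e1 ▸ L.mul_mem l'.2 (L.inv_mem l.2)⟩)
    exact ⟨(inv_mul_eq_one.1 (h.inj (e2.trans (map_one ε).symm))).symm,
      Subtype.ext (mul_inv_eq_one.1 (e1.symm.trans e2)).symm⟩
  have αi : Function.Injective α := by
    refine (injective_iff_map_eq_one _).2 fun l hl => ?_
    by_contra l1
    have key : ∀ A : SL(2, K), A ≠ 1 → ∃ B, A = -1 ∨ A ^ 2 = -1 ∨ A ^ 3 = -1 ∨
      (A * B * A⁻¹ * B⁻¹) ^ 2 = -1 := by decide +kernel
    obtain ⟨B, hB⟩ := key (π l) fun e => l1 (Subtype.ext (mem_bot.1 (hi ▸ ⟨e, l.2⟩)))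
    obtain ⟨g, rfl⟩ := hπ B
    obtain ⟨k, m, hm, rfl⟩ := hd g
    rw [map_mul π (ε k), (h.range ▸ ⟨k, rfl⟩ : ε k ∈ π.ker), one_mul] at hB
    obtain ⟨n, n1, n2⟩ : ∃ n : L, α n = 1 ∧ π n = -1 := by
      rcases hB with e | e | e | e
      · exact ⟨l, hl, e⟩
      · exact ⟨l ^ 2, by simp [hl], by simpa using e⟩
      · exact ⟨l ^ 3, by simp [hl], by simpa using e⟩
      · exact ⟨(l * ⟨m, hm⟩ * l⁻¹ * ⟨m, hm⟩⁻¹) ^ 2, by simp [hl], by simpa using e⟩
    have h1 : i⁻¹ * n ∈ zpowers (ε ⟨0, 0, 1⟩) := h.inf.le (mem_inf.2 ⟨by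
      rw [MonoidHom.mem_ker, map_mul, map_inv, n2, h.pi, inv_mul_cancel],
      mul_mem (inv_mem (mem_centralizer_singleton_iff.2 rfl)) (hL n.2)⟩)
    obtain ⟨j, hj⟩ := mem_zpowers_iff.1 h1
    have h2 := hα n ⟨1, 0, 0⟩
    rw [n1, act_one, ← mul_inv_cancel_left i n, ← hj, mul_inv_rev, mul_assoc i,
      ((show Commute _ _ from h.cen (ε ⟨1, 0, 0⟩)).zpow_right j).symm.eq, ← mul_assoc, ← mul_assoc,
      mul_inv_cancel_right, h.inv] at h2
    exact absurd (h.inj h2) (by decide)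
  choose κ l hl e using hd
  let Φ : X →* Matrix.symplecticGroup (Fin 2) K := MonoidHom.mk'
    (fun g => mm (κ g) (α ⟨l g, hl g⟩)) fun g g' => by
      obtain ⟨e1, e2⟩ := uq (κ (g * g')) (κ g * act (α ⟨l g, hl g⟩) (κ g')) ⟨_, hl _⟩
        (⟨_, hl g⟩ * ⟨_, hl g'⟩) (by
          rw [map_mul, ← hα, coe_mul, ← e]
          conv_lhs => rw [e g, e g']
          group)
      rw [mm_mul, e1, e2, map_mul]
  refine ⟨Φ, fun g => ⟨_, _, rfl⟩, fun k B => ?_, (injective_iff_map_eq_one _).2 fun g hg => ?_⟩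
  · obtain ⟨m, rfl⟩ := ((Nat.bijective_iff_injective_and_card α).2 ⟨αi, cL.trans card_sl.symm⟩).2 B
    obtain ⟨e1, e2⟩ := uq _ _ ⟨_, hl _⟩ m (e (ε k * m)).symm
    exact ⟨ε k * m, congrArg₂ (fun k m => mm k (α m)) e1 e2⟩
  · obtain ⟨e1, e2⟩ := mm_center (h := κ g) (A := α ⟨l g, hl g⟩) (hg ▸ one_mem _ : Φ g ∈ _)
    rw [e g, e1, map_one, one_mul]
    exact congrArg Subtype.val (αi (e2.trans (map_one α).symm))

end H10.Sp43
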