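import Cfsg.Agent.H10.TR1

/-!
Normal 2-rank of Sylow 2-subgroups of linear and symplectic groups in odd characteristic.
-/

set_option autoImplicit false
set_option linter.style.haveILetI false

namespace H10.TR
open Cfsg Module H8
open scoped Nat

section grp
variable {G H : Type*} [Group G] [Group H] {p k l : ℕ}

/-- there is a normal elementary abelian subgroup of rank at least `k` -/
def NR (p k : ℕ) (G : Type*) [Group G] : Prop :=
  ∃ E : Subgroup G, E.Normal ∧ IsElementaryAbelian p E ∧ p ^ k ≤ Nat.card E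

theorem NR.congr (h : NR p k G) (e : G ≃* H) : NR p k H := by
  obtain ⟨A, h0, ⟨h1, h2⟩, h3⟩ := h
  refine ⟨A.map e.toMonoidHom, h0.map _ e.surjective, ⟨inferInstance, ?_⟩, ?_⟩
  · rintro _ ⟨a, ha, rfl⟩
    rw [← map_pow, h2 a ha, map_one]
  · rwa [Subgroup.card_map_of_injective e.injective]

theorem NR.of_inj [Finite G] [Finite H] [Fact p.Prime] (h : NR p k H) (f : H →* G)
    (hf : Function.Injective f) (hc : (Nat.card G).factorization p ≤ (Nat.card H).factorization p)
    (S : Sylow p G) : NR p k S := by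
  obtain ⟨A, h0, ⟨h1, h2⟩, h3⟩ := h
  have hA : IsPGroup p A := fun a => ⟨1, Subtype.ext (by simpa using h2 a a.2)⟩
  obtain ⟨T, hT⟩ := hA.exists_le_sylow
  have h4 : NR p k T := ⟨A.subgroupOf T, inferInstance, ⟨inferInstance, fun a ha =>
    Subtype.ext (h2 a ha)⟩, by rwa [Nat.card_congr (Subgroup.subgroupOfEquivOfLe hT).toEquiv]⟩
  have h5 : Nat.card ((T : Subgroup H).map f) = p ^ (Nat.card G).factorization p := by
    rw [Subgroup.card_map_of_injective hf, T.card_eq_multiplicity, le_antisymm hc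
      (Nat.factorization_le_factorization_of_dvd_right (Subgroup.card_dvd_of_injective f hf)
        Nat.card_pos.ne' Nat.card_pos.ne')]
  exact (h4.congr (Subgroup.equivMapOfInjective _ f hf)).congr ((Sylow.ofCard _ h5).equiv S)

theorem NR.prod [Finite G] [Finite H] (h : NR p k G) (h' : NR p l H) : NR p (k + l) (G × H) := by
  obtain ⟨A, h0, ⟨h1, h2⟩, h3⟩ := h
  obtain ⟨B, h0', ⟨h1', h2'⟩, h3'⟩ := h'
  refine ⟨A.prod B, inferInstance, ⟨⟨⟨fun a b => Subtype.ext (Prod.ext ?_ ?_)⟩⟩,
    fun a ha => Prod.ext (h2 _ ha.1) (h2' _ ha.2)⟩, ?_⟩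
  · exact congrArg Subtype.val (mul_comm' (⟨_, a.2.1⟩ : A) ⟨_, b.2.1⟩)
  · exact congrArg Subtype.val (mul_comm' (⟨_, a.2.2⟩ : B) ⟨_, b.2.2⟩)
  · rw [Nat.card_congr (A.prodEquiv B).toEquiv, Nat.card_prod, pow_add]
    exact Nat.mul_le_mul h3 h3'

theorem NR.wr [Finite G] (h : NR p 1 G) (ι : Type*) [Fintype ι] :
    NR p (Fintype.card ι) (Wr G ι) := by
  obtain ⟨A, h0, ⟨h1, h2⟩, h3⟩ := h
  haveI : IsMulCommutative (Subgroup.pi Set.univ fun _ : ι => A) :=
    ⟨⟨fun a b => Subtype.ext (funext fun i => congrArg Subtype.val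
      (mul_comm' (⟨_, a.2 i trivial⟩ : A) ⟨_, b.2 i trivial⟩))⟩⟩
  refine ⟨(Subgroup.pi Set.univ fun _ : ι => A).map SemidirectProduct.inl, ⟨?_⟩,
    ⟨inferInstance, ?_⟩, ?_⟩
  · rintro _ ⟨a, ha, rfl⟩ w
    refine ⟨fun i => w.left i * a (w.right⁻¹ i) * (w.left i)⁻¹, fun i _ =>
      h0.conj_mem _ (ha _ trivial) _, ?_⟩
    conv_rhs => rw [← SemidirectProduct.inl_left_mul_inr_right w]
    rw [mul_inv_rev, ← mul_assoc, mul_assoc _ _ (SemidirectProduct.inl a),
      mul_assoc (SemidirectProduct.inl w.left), Wr.conj_inl, ← map_inv, ← map_mul, ← map_mul]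
    rfl
  · rintro _ ⟨a, ha, rfl⟩
    rw [← map_pow, show a ^ p = 1 from funext fun i => h2 _ (ha i trivial), map_one]
  · rw [Subgroup.card_map_of_injective SemidirectProduct.inl_injective]
    refine le_trans ?_ (Nat.card_le_card_of_injective
      (fun x : ι → A => (⟨fun i => x i, fun i _ => (x i).2⟩ : Subgroup.pi Set.univ fun _ : ι => A))
      fun a b h => funext fun i => Subtype.ext (congrFun (congrArg Subtype.val h) i))
    rw [Nat.card_fun, Nat.card_eq_fintype_card (α := ι)]
    exact Nat.pow_le_pow_left (by simpa using h3) _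

theorem NR.of_central {z : G} (hz : ∀ g, g * z = z * g) (h1 : z ≠ 1) (h2 : z ^ 2 = 1) :
    NR 2 1 G := by
  refine ⟨Subgroup.zpowers z, ⟨?_⟩, ⟨inferInstance, ?_⟩, ?_⟩
  · rintro _ ⟨n, rfl⟩ g
    exact ⟨n, by simp only; rw [(Commute.zpow_right (hz g) n).eq, mul_inv_cancel_right]⟩
  · rintro _ ⟨n, rfl⟩
    simp only
    rw [← zpow_natCast, ← zpow_mul, mul_comm, zpow_mul, zpow_natCast, h2, one_zpow]
  · rw [Nat.card_zpowers, orderOf_eq_prime h2 h1, pow_one]

end grp

section num
variable {q : ℕ}

theorem vq_ge (h1 : 1 < q) (hq : q % 4 = 3) (n : ℕ) :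
    1 + (n + 1).factorization 2 + (n + 1) / 2 ≤ vq q (n + 1) + n / 2 := by
  have hq' : Odd q := Nat.odd_iff.2 (by omega)
  have h : vq q 1 = 1 := by rw [vq, pow_one, fact_two_eq_one (by omega)]
  obtain ⟨i, rfl | rfl⟩ := Nat.even_or_odd' n
  · rw [vq_odd h1 hq' (odd_two_mul_add_one i), fact_two_odd (odd_two_mul_add_one i)]
    omega
  · have h4 : 2 ≤ (q + 1).factorization 2 :=
      (Nat.prime_two.pow_dvd_iff_le_factorization (by omega)).1 (by omega)
    rw [show 2 * i + 1 + 1 = 2 * (i + 1) by ring, vq_even h1 hq' (by omega), vq_two h1,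
      fact_mul' two_ne_zero (by omega), fact_two_two]
    omega

theorem gq_lt (h1 : 1 < q) (hq : q % 4 = 3) (a : ℕ) {t : ℕ} (ht : 2 ≤ t) :
    t + (t !).factorization 2 + gq q a < gq q (a + t) := by
  have key : ∀ t, gq q a + t + ((a + t)!).factorization 2 + (a + t) / 2 ≤
      gq q (a + t) + (a !).factorization 2 + a / 2 := fun t => by
    induction t with
    | zero => simp
    | succ t ih =>
      have := vq_ge h1 hq (a + t)
      rw [← add_assoc a, gq_succ, fact_factorial_succ]
      omega
  have h2 := key t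
  have h3 := Nat.factorization_le_factorization_of_dvd_right (a := 2)
    (Nat.factorial_mul_factorial_dvd_factorial_add a t) (by positivity) (by positivity)
  rw [fact_mul' (by positivity) (by positivity)] at h3
  omega

end num

variable {F : Type*} [Field F] {V : Type*} [AddCommGroup V] [Module F V] {A : Type*} [Group A]
  {ρ : A →* End F V} {ι : Type*}

theorem finrank_sup [FiniteDimensional F V] {W : ι → Submodule F V} (hW : iSupIndep W)
    (s : Finset ι) : finrank F (s.sup W : Submodule F V) = ∑ i ∈ s, finrank F (W i) := by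
  classical
  induction s using Finset.induction_on with
  | empty => simp
  | insert a s ha ih =>
    have : W a ⊓ s.sup W = ⊥ := by
      rw [Finset.sup_eq_iSup]
      exact (hW.disjoint_biSup (y := (s : Set ι)) ha).eq_bot
    rw [Finset.sup_insert, Finset.sum_insert ha, ← ih, ← Submodule.finrank_sup_add_finrank_inf_eq,
      this, finrank_bot, add_zero]

/-- weight spaces -/
def Ws (ρ : A →* End F V) (l : A → ℤˣ) : Submodule F V where
  carrier := {v | ∀ a, ρ a v = l a • v}
  zero_mem' := by simp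
  add_mem' hx hy a := by rw [map_add, hx a, hy a, smul_add]
  smul_mem' c x hx a := by rw [map_smul, hx a, smul_comm]

theorem Ws_indep (h2 : (2 : F) ≠ 0) (hA : ∀ a : A, a * a = 1) : iSupIndep (Ws ρ) := by
  refine ((End.independent_iInf_maxGenEigenspace_of_forall_mapsTo (fun a => ρ a) fun a b c =>
    End.mapsTo_maxGenEigenspace_of_comm (Commute.map (comm_of_sq hA b a) ρ) c).comp
    (f := fun (l : A → ℤˣ) a => ((l a : ℤ) : F)) fun l m h => funext fun a => ?_).mono
    fun l v hv => ?_
  · refine units_smul_inj h2 (one_ne_zero (α := F)) ?_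
    simpa [Units.smul_def] using congrFun h a
  · refine (Submodule.mem_iInf _).2 fun a => End.eigenspace_le_maxGenEigenspace ?_
    rw [End.mem_eigenspace_iff, hv a, Units.smul_def, Int.cast_smul_eq_zsmul]

theorem Ws_top [Fintype (A → ℤˣ)] [Finite A] (h2 : (2 : F) ≠ 0) (hA : ∀ a : A, a * a = 1) :
    Finset.univ.sup (Ws ρ) = ⊤ := by
  refine top_le_iff.1 ((span_eig (ρ := ρ) h2 hA).trans (Submodule.span_le.2 fun v hv => ?_))
  choose l hl using hv
  exact Finset.le_sup (f := Ws ρ) (Finset.mem_univ l) hl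

theorem fact_card_End [Fintype F] [FiniteDimensional F V] (hF : Odd (Fintype.card F)) :
    (Nat.card (End F V)ˣ).factorization 2 = gq (Fintype.card F) (finrank F V) := by
  rw [Nat.card_congr (Units.mapEquiv
    (LinearMap.toMatrixAlgEquiv (finBasis F V)).toMulEquiv).toEquiv]
  simpa using fact_card_GL F hF (Fin (finrank F V))

theorem fact_le {G : Type*} [Group G] [Finite G] [Fintype F] [FiniteDimensional F V]
    (hq : Fintype.card F % 4 = 3) (σ : G →* End F V) (hσ : Function.Injective σ) (E : Subgroup G)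
    [E.Normal] (hE : ∀ a : E, a * a = 1) (T : Finset (E → ℤˣ))
    (hT : ∀ l, l ∈ T ↔ finrank F (Ws (σ.comp E.subtype) l) = 1) :
    ∃ a, a + T.card = finrank F V ∧ (Nat.card G).factorization 2 ≤
      T.card + (T.card !).factorization 2 + gq (Fintype.card F) a := by
  classical
  have hF : Odd (Fintype.card F) := Nat.odd_iff.2 (by omega)
  have h2 := two_ne_zero_of_odd hF
  haveI : Finite V := Module.finite_of_finite F
  haveI := Fintype.ofFinite (E → ℤˣ)
  haveI : ∀ W : Submodule F V, Finite (W →ₗ[F] W) := fun W =>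
    Finite.of_injective _ DFunLike.coe_injective
  set ρ := σ.comp E.subtype with hρ
  let act : G → (E → ℤˣ) → E → ℤˣ := fun g l a => l (MulAut.conjNormal g⁻¹ a)
  have act1 : ∀ l, act 1 l = l := fun l => by simp only [act, inv_one, map_one]; rfl
  have actm : ∀ g h l, act (g * h) l = act g (act h l) := fun g h l => by
    simp only [act, mul_inv_rev, map_mul]; rfl
  have hm : ∀ g l, ∀ v ∈ Ws ρ l, σ g v ∈ Ws ρ (act g l) := fun g l v hv a => by
    rw [← LinearMap.map_smul_of_tower, ← hv, ← End.mul_apply, ← End.mul_apply]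
    simp [hρ, ← map_mul, mul_assoc]
  have hle : ∀ g l, finrank F (Ws ρ l) ≤ finrank F (Ws ρ (act g l)) := fun g l =>
    LinearMap.finrank_le_finrank_of_injective (f := (σ g).restrict (hm g l)) fun x y h =>
      Subtype.ext ((End.isUnit_iff _).1 ((Group.isUnit g).map σ) |>.1 (congrArg Subtype.val h))
  have hT' : ∀ g l, act g l ∈ T ↔ l ∈ T := fun g l => by
    have := hle g⁻¹ (act g l)
    rw [← actm, inv_mul_cancel, act1] at this
    rw [hT, hT, le_antisymm this (hle g l)]
  let π : G →* Equiv.Perm T := MonoidHom.toHomPerm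
    { toFun := fun g l => ⟨act g l, (hT' g l).2 l.2⟩
      map_one' := funext fun l => Subtype.ext (act1 l)
      map_mul' := fun g h => funext fun l => Subtype.ext (actm g h l) }
  have hU : ∀ g, Tᶜ.sup (Ws ρ) ≤ (Tᶜ.sup (Ws ρ)).comap (σ g) := fun g =>
    Finset.sup_le fun l hl v hv => Finset.le_sup (f := Ws ρ)
      (by simpa [hT'] using hl) (hm g l v hv)
  let f := π.prod (Representation.subrepresentation σ _ hU).toHomUnits
  have hK : ∀ (l : T) (g : f.ker), Ws ρ l ≤ (Ws ρ l).comap (σ.comp f.ker.subtype g) :=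
    fun l g v hv => by
      have h1 : act g l = l := congrArg (fun x : Equiv.Perm T × _ => (x.1 l).1) g.2
      exact h1 ▸ hm g l v hv
  let c : f.ker →* ∀ l : T, (End F (Ws ρ l))ˣ := MonoidHom.pi fun l =>
    (Representation.subrepresentation (σ.comp f.ker.subtype) _ (hK l)).toHomUnits
  have hc : Function.Injective c := (injective_iff_map_eq_one _).2 fun g hg => by
    refine Subtype.ext (hσ ?_)
    rw [OneMemClass.coe_one, map_one]
    have h1 : Finset.univ.sup (Ws ρ) ≤ LinearMap.eqLocus (σ g) 1 := Finset.sup_le fun l _ v hv => by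
      by_cases hl : l ∈ T
      · exact congrArg (fun x : (End F (Ws ρ l))ˣ => (x.1 ⟨v, hv⟩).1) (congrFun hg ⟨l, hl⟩)
      · exact congrArg (fun x : _ × (End F (Tᶜ.sup (Ws ρ) : Submodule F V))ˣ =>
          (x.2.1 ⟨v, Finset.le_sup (f := Ws ρ) (Finset.mem_compl.2 hl) hv⟩).1) g.2
    rw [Ws_top h2 hE] at h1
    exact LinearMap.ext fun v => h1 Submodule.mem_top
  refine ⟨finrank F (Tᶜ.sup (Ws ρ) : Submodule F V), ?_, ?_⟩
  · rw [← finrank_top F V, ← Ws_top (ρ := ρ) h2 hE, finrank_sup (Ws_indep h2 hE),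
      finrank_sup (Ws_indep h2 hE), ← Finset.sum_compl_add_sum T,
      Finset.sum_congr rfl fun l hl => (hT l).1 hl]
    simp
  · have e1 := Nat.factorization_le_factorization_of_dvd_right (a := 2)
      (Subgroup.card_dvd_of_injective c hc) Nat.card_pos.ne' Nat.card_pos.ne'
    have e2 := Nat.factorization_le_factorization_of_dvd_right (a := 2)
      (Subgroup.card_subgroup_dvd_card f.range) Nat.card_pos.ne' Nat.card_pos.ne'
    rw [Nat.card_prod, fact_mul' Nat.card_pos.ne' Nat.card_pos.ne', fact_card_End hF,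
      Nat.card_perm, Nat.card_eq_fintype_card (α := T), Fintype.card_coe] at e2
    rw [Nat.card_pi, Nat.factorization_prod_apply fun _ _ => Nat.card_pos.ne',
      Finset.sum_congr rfl fun (l : T) _ => (fact_card_End (V := Ws ρ l) hF).trans (c := 1) (by
        rw [(hT l).1 l.2, gq_succ, vq, pow_one, fact_two_eq_one (by omega)]; rfl)] at e1
    rw [← f.ker.card_mul_index, Subgroup.index_ker, fact_mul' Nat.card_pos.ne' Nat.card_pos.ne']
    simp only [Finset.sum_const, Finset.card_univ, Fintype.card_coe, smul_eq_mul, mul_one] at e1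
    omega

theorem two_mul_wts_le_succ {G : Type*} [Group G] [Finite G] [Fintype F] [FiniteDimensional F V]
    (hq : Fintype.card F % 4 = 3) (σ : G →* End F V) (hσ : Function.Injective σ) (E : Subgroup G)
    [E.Normal] (hE : ∀ a : E, a * a = 1)
    (hG : gq (Fintype.card F) (finrank F V) ≤ (Nat.card G).factorization 2) :
    Nat.card E ≤ 2 ^ ((finrank F V + 1) / 2) := by
  classical
  have hF : Odd (Fintype.card F) := Nat.odd_iff.2 (by omega)
  have h2 := two_ne_zero_of_odd hF
  haveI := Fintype.ofFinite (E → ℤˣ)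
  set ρ := σ.comp E.subtype with hρ
  obtain ⟨a, h1, h3⟩ := fact_le hq σ hσ E hE (Finset.univ.filter fun l => finrank F (Ws ρ l) = 1)
    fun _ => Finset.mem_filter_univ _
  set T := Finset.univ.filter fun l => finrank F (Ws ρ l) = 1 with hT
  have ht : T.card ≤ 1 := by
    by_contra h
    have := gq_lt Fintype.one_lt_card hq a (t := T.card) (by omega)
    rw [h1] at this
    omega
  refine (card_le_wts (ρ := ρ) h2 hE (hσ.comp E.subtype_injective)).trans
    (Nat.pow_le_pow_right two_pos ?_)
  let L := Finset.univ.filter fun l : E → ℤˣ => ∃ v : V, v ≠ 0 ∧ ∀ a, ρ a v = l a • v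
  have hL : Nat.card (Wts ρ) = L.card := Nat.subtype_card L (by simp [L])
  have h4 : ∑ l ∈ L, 2 ≤ ∑ l ∈ L, (finrank F (Ws ρ l) + if l ∈ T then 1 else 0) :=
    Finset.sum_le_sum fun l hl => by
      obtain ⟨v, hv, hv'⟩ := (Finset.mem_filter.1 hl).2
      have : finrank F (Ws ρ l) ≠ 0 := fun h => hv (by
        have := Submodule.finrank_eq_zero.1 h ▸ (show v ∈ Ws ρ l from hv')
        exact this)
      split_ifs with h
      · omega
      · have : finrank F (Ws ρ l) ≠ 1 := by simpa [hT] using h
        omega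
  rw [Finset.sum_add_distrib, ← finrank_sup (Ws_indep h2 hE), Finset.sum_ite_mem] at h4
  have h5 := Submodule.finrank_le (L.sup (Ws ρ))
  have h6 := Finset.card_le_card (Finset.inter_subset_right (s₁ := L) (s₂ := T))
  simp only [Finset.sum_const, smul_eq_mul, mul_one] at h4
  omega

open Matrix in
theorem nr_sp [Fintype F] (hF : Odd (Fintype.card F)) (n : ℕ)
    (S : Sylow 2 (symplecticGroup (Fin n) F)) : NR 2 n S := by
  classical
  have h1 : 1 < Fintype.card F := Fintype.one_lt_card
  let ρ : SpecialLinearGroup (Fin 2) F →* Matrix (Fin 2) (Fin 2) F :=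
    (Units.coeHom _).comp SpecialLinearGroup.toGL
  have hρ : Function.Injective ρ := fun a b h => Subtype.ext h
  let r := reindexAlgEquiv F F (twoEquiv (Fin n))
  let f := r.toMulEquiv.toMonoidHom.comp (wrMat (ι := Fin n) ρ)
  have hJ : r (wm (fun _ => !![0, -1; 1, 0]) 1) = J (Fin n) F := by
    ext (i | i) (j | j) <;> simp [r, twoEquiv, wm_apply, J, Matrix.one_apply]
    split_ifs <;> simp
  have hf : ∀ w, f w ∈ symplecticGroup (Fin n) F := by
    intro w
    rw [SymplecticGroup.mem_iff, ← hJ]
    have := wm_form (fun i => ρ (w.left i)) w.right !![0, -1; 1, 0] fun i => by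
      have hd := (w.left i).det_coe
      rw [det_fin_two] at hd
      ext a b
      fin_cases a <;> fin_cases b <;> simp [ρ, Matrix.mul_apply, Fin.sum_univ_two, vecMul, dotProduct]
      · ring
      · linear_combination -hd
      · linear_combination hd
      · ring
    have h2 := congrArg r this
    rw [map_mul, map_mul] at h2
    exact h2
  have h0 : NR 2 1 (SpecialLinearGroup (Fin 2) F) := NR.of_central (z := -1) (by simp)
    (fun h => two_ne_zero_of_odd hF (by
      have : (-1 : Matrix (Fin 2) (Fin 2) F) 0 0 = (1 : Matrix (Fin 2) (Fin 2) F) 0 0 :=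
        congrFun (congrFun (congrArg Subtype.val h) 0) 0
      rw [Matrix.neg_apply, one_apply_eq] at this
      linear_combination -this)) (by simp)
  have h3 := h0.wr (Fin n)
  rw [Fintype.card_fin] at h3
  refine h3.of_inj (f.codRestrict _ hf) ?_ ?_ S
  · intro a b h
    exact wrMat_inj hρ (r.injective (congrArg Subtype.val h))
  · rw [Wr.fact, H11.card_sp, fact_mul' (by positivity) (Finset.prod_ne_zero_iff.2 fun i _ =>
      pow_sub_one_ne h1 (by omega)), fact_two_odd hF.pow, fact_prod_even h1 hF, fact_card_SL2 hF]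
    simp

open Matrix in
/-- block diagonal matrices -/
def blk (α β : Type*) [Fintype α] [DecidableEq α] [Fintype β] [DecidableEq β] (F : Type*)
    [Field F] : GL α F × GL β F →* GL (α ⊕ β) F := MonoidHom.toHomUnits
  { toFun := fun g => fromBlocks g.1.1 0 0 g.2.1
    map_one' := by simp
    map_mul' := fun a b => by simp [fromBlocks_multiply] }

open Matrix in
theorem nr_gl [Fintype F] (hF : Odd (Fintype.card F)) (κ : Type) [Fintype κ] [DecidableEq κ]
    [Nonempty κ] (m r n : ℕ) (hn : Fintype.card κ * m + r = n)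
    (h : gq (Fintype.card F) n ≤ m * gq (Fintype.card F) (Fintype.card κ) + (m !).factorization 2 +
      (r * gq (Fintype.card F) 1 + (r !).factorization 2))
    (S : Sylow 2 (GL (Fin n) F)) : NR 2 (m + r) S := by
  classical
  have h0 : ∀ (κ : Type) [Fintype κ] [DecidableEq κ] [Nonempty κ], NR 2 1 (GL κ F) :=
    fun κ _ _ ⟨i⟩ => NR.of_central (z := -1) (by simp) (fun h => two_ne_zero_of_odd hF (by
      have : (-1 : Matrix κ κ F) i i = (1 : Matrix κ κ F) i i :=
        congrArg (fun x : GL κ F => x.1 i i) h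
      rw [Matrix.neg_apply, one_apply_eq] at this
      linear_combination -this)) (by simp)
  have h3 := ((h0 κ).wr (Fin m)).prod ((h0 Unit).wr (Fin r))
  rw [Fintype.card_fin, Fintype.card_fin] at h3
  let e := Units.mapEquiv (reindexAlgEquiv F F (Fintype.equivFinOfCardEq
    (α := κ × Fin m ⊕ Unit × Fin r) (n := n) (by simpa using hn))).toMulEquiv
  refine h3.of_inj (e.toMonoidHom.comp ((blk _ _ F).comp
    ((wrGL (MonoidHom.id _)).prodMap (wrGL (MonoidHom.id _))))) (e.injective.comp fun a b h => ?_)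
    ?_ S
  · have := fromBlocks_inj.1 (congrArg Units.val h)
    exact Prod.ext (wrGL_inj (fun _ _ h => h) (Units.ext this.1))
      (wrGL_inj (fun _ _ h => h) (Units.ext this.2.2.2))
  · rw [Nat.card_prod, fact_mul' Nat.card_pos.ne' Nat.card_pos.ne', Wr.fact, Wr.fact,
      fact_card_GL F hF, fact_card_GL F hF, fact_card_GL F hF]
    simpa using h

end H10.TR
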